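/-
helper61: Sylow 2-subgroups of `SL(2,q)`, `q` odd (for S2431): centralizer and normalizer.
-/
import Mathlib
import Cfsg.Agent.H61.GL2Sylow
import Cfsg.Agent.H59.UniqueOrderP
import Cfsg.Agent.H7.SL2

set_option autoImplicit false

namespace Cfsg.Agent.H61

open Matrix
open scoped MatrixGroups

section mat

variable {F : Type*} [Field F]

/-- In `SL(2,F)`, `char F ≠ 2`, the only solutions of `g * g = 1` are `±1`. -/
theorem sl2_sq_eq_one (h2 : (2 : F) ≠ 0) (g : SL(2, F)) (hg : g * g = 1) :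
    (g : Matrix (Fin 2) (Fin 2) F) = 1 ∨ (g : Matrix (Fin 2) (Fin 2) F) = -1 := by
  have hinv : g = g⁻¹ := eq_inv_of_mul_eq_one_left hg
  have hA : (g : Matrix (Fin 2) (Fin 2) F) = Matrix.adjugate (g : Matrix (Fin 2) (Fin 2) F) := by
    conv_lhs => rw [hinv]
    exact Matrix.SpecialLinearGroup.coe_inv g
  have hdet := g.det_coe
  rw [Matrix.det_fin_two] at hdet
  rw [Matrix.adjugate_fin_two] at hA
  have h00 := congrFun (congrFun hA 0) 0
  have h01 := congrFun (congrFun hA 0) 1
  have h10 := congrFun (congrFun hA 1) 0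
  simp at h00 h01 h10
  have e01 : (g : Matrix (Fin 2) (Fin 2) F) 0 1 = 0 := by
    have : (2 : F) * (g : Matrix (Fin 2) (Fin 2) F) 0 1 = 0 := by linear_combination h01
    exact (mul_eq_zero.mp this).resolve_left h2
  have e10 : (g : Matrix (Fin 2) (Fin 2) F) 1 0 = 0 := by
    have : (2 : F) * (g : Matrix (Fin 2) (Fin 2) F) 1 0 = 0 := by linear_combination h10
    exact (mul_eq_zero.mp this).resolve_left h2
  rw [e01, e10, ← h00] at hdet
  have hsq : (g : Matrix (Fin 2) (Fin 2) F) 0 0 * (g : Matrix (Fin 2) (Fin 2) F) 0 0 = 1 := by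
    linear_combination hdet
  rcases mul_self_eq_one_iff.mp hsq with h | h
  · left
    ext i j
    fin_cases i <;> fin_cases j <;> simp [h, e01, e10, ← h00]
  · right
    ext i j
    fin_cases i <;> fin_cases j <;> simp [h, e01, e10, ← h00]

/-- The commutant of a non-scalar element of `SL(2,F)` is `F[x]`. -/
theorem sl2_commutant (x g : SL(2, F)) (hx : x * x ≠ 1) (hc : g * x = x * g) :
    ∃ a b : F, (g : Matrix (Fin 2) (Fin 2) F) = a • (1 : Matrix (Fin 2) (Fin 2) F) +
      b • (x : Matrix (Fin 2) (Fin 2) F) := by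
  have hcm : (g : Matrix (Fin 2) (Fin 2) F) * (x : Matrix (Fin 2) (Fin 2) F) =
      (x : Matrix (Fin 2) (Fin 2) F) * (g : Matrix (Fin 2) (Fin 2) F) := by
    rw [← Matrix.SpecialLinearGroup.coe_mul, ← Matrix.SpecialLinearGroup.coe_mul, hc]
  generalize hX : (x : Matrix (Fin 2) (Fin 2) F) = X at hcm
  generalize hG : (g : Matrix (Fin 2) (Fin 2) F) = Gm at hcm
  have c00 := congrFun (congrFun hcm 0) 0
  have c01 := congrFun (congrFun hcm 0) 1
  have c10 := congrFun (congrFun hcm 1) 0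
  have c11 := congrFun (congrFun hcm 1) 1
  simp only [Matrix.mul_apply, Fin.sum_univ_two] at c00 c01 c10 c11
  by_cases hq : X 0 1 = 0
  · by_cases hr : X 1 0 = 0
    · -- diagonal case
      have hps : X 0 0 ≠ X 1 1 := by
        intro hps
        apply hx
        apply Matrix.SpecialLinearGroup.ext
        intro i j
        have hdet := x.det_coe
        rw [hX, Matrix.det_fin_two, hq, hr, ← hps] at hdet
        rw [Matrix.SpecialLinearGroup.coe_mul, hX, Matrix.mul_apply, Fin.sum_univ_two]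
        fin_cases i <;> fin_cases j <;> simp [hq, hr, ← hps] <;> linear_combination hdet
      have hsub : X 0 0 - X 1 1 ≠ 0 := sub_ne_zero.mpr hps
      have hb : Gm 0 1 = 0 := by
        have : Gm 0 1 * (X 0 0 - X 1 1) = 0 := by
          linear_combination -c01 + (Gm 0 0 - Gm 1 1) * hq
        exact (mul_eq_zero.mp this).resolve_right hsub
      have hg' : Gm 1 0 = 0 := by
        have : Gm 1 0 * (X 0 0 - X 1 1) = 0 := by
          linear_combination c10 - (Gm 1 1 - Gm 0 0) * hr
        exact (mul_eq_zero.mp this).resolve_right hsub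
      refine ⟨Gm 0 0 - (Gm 0 0 - Gm 1 1) / (X 0 0 - X 1 1) * X 0 0,
        (Gm 0 0 - Gm 1 1) / (X 0 0 - X 1 1), ?_⟩
      ext i j
      fin_cases i <;> fin_cases j <;> simp [hq, hr, hb, hg'] <;> field_simp <;> ring
    · -- X 1 0 ≠ 0
      have hb : Gm 0 1 = 0 := by
        have : Gm 0 1 * X 1 0 = 0 := by linear_combination c00 + Gm 1 0 * hq
        exact (mul_eq_zero.mp this).resolve_right hr
      refine ⟨Gm 0 0 - Gm 1 0 / X 1 0 * X 0 0, Gm 1 0 / X 1 0, ?_⟩
      ext i j
      fin_cases i <;> fin_cases j <;> simp [hq, hb]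
      · field_simp
      · field_simp
        linear_combination c10
  · refine ⟨Gm 0 0 - Gm 0 1 / X 0 1 * X 0 0, Gm 0 1 / X 0 1, ?_⟩
    ext i j
    fin_cases i <;> fin_cases j <;> simp
    · field_simp
    · field_simp
      linear_combination -c00
    · field_simp
      linear_combination -c01

theorem adjugate_fin_two_lin (a b : F) (X : Matrix (Fin 2) (Fin 2) F) :
    Matrix.adjugate (a • (1 : Matrix (Fin 2) (Fin 2) F) + b • X) =
      a • (1 : Matrix (Fin 2) (Fin 2) F) + b • Matrix.adjugate X := by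
  rw [Matrix.adjugate_fin_two, Matrix.adjugate_fin_two]
  ext i j
  fin_cases i <;> fin_cases j <;> simp

/-- If `y` inverts the non-scalar `x`, it inverts the whole centralizer of `x` in `SL(2,F)`. -/
theorem sl2_inversion (x y g : SL(2, F)) (hx : x * x ≠ 1) (hy : y * x * y⁻¹ = x⁻¹)
    (hc : g * x = x * g) : y * g * y⁻¹ = g⁻¹ := by
  obtain ⟨a, b, hab⟩ := sl2_commutant x g hx hc
  apply Matrix.SpecialLinearGroup.ext
  intro i j
  have h1 : ((y * g * y⁻¹ : SL(2, F)) : Matrix (Fin 2) (Fin 2) F) =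
      a • (1 : Matrix (Fin 2) (Fin 2) F) + b • Matrix.adjugate (x : Matrix (Fin 2) (Fin 2) F) := by
    have hy' : (y : Matrix (Fin 2) (Fin 2) F) * (x : Matrix (Fin 2) (Fin 2) F) *
        ((y⁻¹ : SL(2, F)) : Matrix (Fin 2) (Fin 2) F) =
        Matrix.adjugate (x : Matrix (Fin 2) (Fin 2) F) := by
      rw [← Matrix.SpecialLinearGroup.coe_mul, ← Matrix.SpecialLinearGroup.coe_mul, hy,
        Matrix.SpecialLinearGroup.coe_inv]
    have hyy : (y : Matrix (Fin 2) (Fin 2) F) * ((y⁻¹ : SL(2, F)) : Matrix (Fin 2) (Fin 2) F)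
        = 1 := by
      rw [← Matrix.SpecialLinearGroup.coe_mul, mul_inv_cancel, Matrix.SpecialLinearGroup.coe_one]
    rw [Matrix.SpecialLinearGroup.coe_mul, Matrix.SpecialLinearGroup.coe_mul, hab,
      Matrix.mul_add, Matrix.add_mul, Matrix.mul_smul, Matrix.smul_mul, Matrix.mul_one, hyy,
      Matrix.mul_smul, Matrix.smul_mul, hy']
  have h2 : ((g⁻¹ : SL(2, F)) : Matrix (Fin 2) (Fin 2) F) =
      a • (1 : Matrix (Fin 2) (Fin 2) F) + b • Matrix.adjugate (x : Matrix (Fin 2) (Fin 2) F) := by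
    rw [Matrix.SpecialLinearGroup.coe_inv, hab, adjugate_fin_two_lin]
  rw [h1, h2]

/-- `J = [[0,-1],[1,0]]`. -/
def sJ (F : Type*) [Field F] : SL(2, F) := ⟨!![0, -1; 1, 0], by simp [Matrix.det_fin_two]⟩

/-- `Y = [[a,b],[b,-a]]` with `a^2+b^2 = -1`. -/
def sY (a b : F) (h : a ^ 2 + b ^ 2 = -1) : SL(2, F) :=
  ⟨!![a, b; b, -a], by rw [Matrix.det_fin_two]; simp; linear_combination -h⟩

/-- `(1 + J + Y + JY)/2`. -/
def sW (a b : F) (h2 : (2 : F) ≠ 0) (h : a ^ 2 + b ^ 2 = -1) : SL(2, F) :=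
  ⟨!![(1 + a - b) / 2, (-1 + a + b) / 2; (1 + a + b) / 2, (1 - a + b) / 2], by
    rw [Matrix.det_fin_two]
    simp
    field_simp
    linear_combination (-2 : F) * h⟩

theorem sJ_sq_ne_one (h2 : (2 : F) ≠ 0) : sJ F * sJ F ≠ 1 := by
  intro h
  have h' := congrArg (fun g : SL(2, F) => (g : Matrix (Fin 2) (Fin 2) F)) h
  simp only [Matrix.SpecialLinearGroup.coe_mul, Matrix.SpecialLinearGroup.coe_one] at h'
  have h00 := congrFun (congrFun h' 0) 0
  simp [sJ] at h00
  apply h2
  linear_combination -h00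

theorem sY_conj (a b : F) (h : a ^ 2 + b ^ 2 = -1) :
    sY a b h * sJ F * (sY a b h)⁻¹ = (sJ F)⁻¹ := by
  rw [mul_inv_eq_iff_eq_mul]
  apply Matrix.SpecialLinearGroup.ext
  intro i j
  simp only [Matrix.SpecialLinearGroup.coe_mul, Matrix.SpecialLinearGroup.coe_inv,
    Matrix.adjugate_fin_two]
  fin_cases i <;> fin_cases j <;> simp [sY, sJ]

theorem sW_conj_J (a b : F) (h2 : (2 : F) ≠ 0) (h : a ^ 2 + b ^ 2 = -1) :
    sW a b h2 h * sJ F * (sW a b h2 h)⁻¹ = sY a b h := by
  rw [mul_inv_eq_iff_eq_mul]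
  apply Matrix.SpecialLinearGroup.ext
  intro i j
  simp only [Matrix.SpecialLinearGroup.coe_mul]
  fin_cases i <;> fin_cases j <;> simp [sW, sY, sJ] <;> field_simp <;>
    first
    | ring1
    | linear_combination (-2 : F) * h
    | linear_combination (2 : F) * h
    | linear_combination (-1 : F) * h
    | linear_combination (1 : F) * h

theorem sW_conj_Y (a b : F) (h2 : (2 : F) ≠ 0) (h : a ^ 2 + b ^ 2 = -1) :
    sW a b h2 h * sY a b h * (sW a b h2 h)⁻¹ = sJ F * sY a b h := by
  rw [mul_inv_eq_iff_eq_mul]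
  apply Matrix.SpecialLinearGroup.ext
  intro i j
  simp only [Matrix.SpecialLinearGroup.coe_mul]
  fin_cases i <;> fin_cases j <;> simp [sW, sY, sJ] <;> field_simp <;>
    first
    | ring1
    | linear_combination (-2 : F) * h
    | linear_combination (2 : F) * h
    | linear_combination (-1 : F) * h
    | linear_combination (1 : F) * h

theorem exists_sq_add_sq_eq_neg_one [Fintype F] (hodd : Odd (Fintype.card F)) :
    ∃ a b : F, a ^ 2 + b ^ 2 = -1 := by
  open Polynomial in
  obtain ⟨a, b, hab⟩ := FiniteField.exists_root_sum_quadratic (R := F)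
    (f := (X : F[X]) ^ 2) (g := (X : F[X]) ^ 2 + C 1)
    (degree_X_pow 2) (degree_X_pow_add_C (by norm_num) _) (Nat.odd_iff.mp hodd)
  refine ⟨a, b, ?_⟩
  simp at hab
  linear_combination hab

end mat

section sylow

variable {F : Type*} [Field F] [Fintype F]

theorem two_ne_zero_of_odd_card (hodd : Odd (Fintype.card F)) : (2 : F) ≠ 0 := by
  apply Ring.two_ne_zero
  intro hchar
  have := (FiniteField.even_card_iff_char_two (F := F)).mp hchar
  rcases hodd with ⟨k, hk⟩
  omega

omit [Fintype F] in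
/-- Elements of `SL(2,F)` squaring to one are central. -/
theorem sl2_mem_center_of_sq (h2 : (2 : F) ≠ 0) (g : SL(2, F)) (hg : g * g = 1) :
    g ∈ Subgroup.center SL(2, F) := by
  rw [Subgroup.mem_center_iff]
  intro k
  apply Matrix.SpecialLinearGroup.ext
  intro i j
  simp only [Matrix.SpecialLinearGroup.coe_mul]
  rcases sl2_sq_eq_one h2 g hg with h | h
  · rw [h]; simp
  · rw [h]; simp

/-- A quaternion configuration (together with an element of order 3 permuting it) inside any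
Sylow 2-subgroup of `SL(2,F)`. -/
theorem exists_q8_in_sylow (hodd : Odd (Fintype.card F)) (S : Sylow 2 SL(2, F)) :
    ∃ x y w : SL(2, F), x ∈ (S : Subgroup SL(2, F)) ∧ y ∈ (S : Subgroup SL(2, F)) ∧
      x * x ≠ 1 ∧ orderOf x = 4 ∧ y * x * y⁻¹ = x⁻¹ ∧ w * x * w⁻¹ = y ∧ w * y * w⁻¹ = x * y := by
  classical
  have h2 := two_ne_zero_of_odd_card hodd
  obtain ⟨a, b, hab⟩ := exists_sq_add_sq_eq_neg_one hodd
  have hJ2 := sJ_sq_ne_one (F := F) h2
  have hYJ := sY_conj a b hab
  -- orders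
  have hJ4 : sJ F ^ 4 = 1 := by
    apply Matrix.SpecialLinearGroup.ext
    intro i j
    have : (sJ F ^ 4 : SL(2, F)) = sJ F * sJ F * (sJ F * sJ F) := by
      rw [show (4 : ℕ) = 2 + 2 from rfl, pow_add, pow_two]
    rw [this]
    simp only [Matrix.SpecialLinearGroup.coe_mul]
    fin_cases i <;> fin_cases j <;> simp [sJ]
  have hJord : orderOf (sJ F) = 4 := by
    have := orderOf_eq_prime_pow (x := sJ F) (p := 2) (n := 1)
      (by rw [pow_one, pow_two]; exact hJ2) (by simpa using hJ4)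
    simpa using this
  have hY4 : sY a b hab ^ 4 = 1 := by
    apply Matrix.SpecialLinearGroup.ext
    intro i j
    have : (sY a b hab ^ 4 : SL(2, F)) = sY a b hab * sY a b hab * (sY a b hab * sY a b hab) := by
      rw [show (4 : ℕ) = 2 + 2 from rfl, pow_add, pow_two]
    rw [this]
    simp only [Matrix.SpecialLinearGroup.coe_mul]
    fin_cases i <;> fin_cases j <;> simp [sY] <;>
      first
      | ring1
      | linear_combination (a ^ 2 + b ^ 2 - 1) * hab
  have hY2 : sY a b hab * sY a b hab ≠ 1 := by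
    intro h
    have h' := congrArg (fun g : SL(2, F) => (g : Matrix (Fin 2) (Fin 2) F)) h
    simp only [Matrix.SpecialLinearGroup.coe_mul, Matrix.SpecialLinearGroup.coe_one] at h'
    have h00 := congrFun (congrFun h' 0) 0
    simp [sY] at h00
    apply h2
    linear_combination -h00 + hab
  have hYord : orderOf (sY a b hab) = 4 := by
    have := orderOf_eq_prime_pow (x := sY a b hab) (p := 2) (n := 1)
      (by rw [pow_one, pow_two]; exact hY2) (by simpa using hY4)
    simpa using this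
  have hnorm : Subgroup.zpowers (sY a b hab) ≤
      Subgroup.normalizer (Subgroup.zpowers (sJ F) : Set SL(2, F)) := by
    rw [Subgroup.zpowers_le]
    apply Subgroup.mem_normalizer_fintype
    intro w hw
    obtain ⟨k, rfl⟩ := Subgroup.mem_zpowers_iff.mp hw
    have : sY a b hab * sJ F ^ k * (sY a b hab)⁻¹ = ((sJ F)⁻¹) ^ k := by
      rw [← hYJ, conj_zpow']
    rw [SetLike.mem_coe, this]
    exact Subgroup.zpow_mem _ (Subgroup.inv_mem _ (Subgroup.mem_zpowers _)) k
  have hH : IsPGroup 2 (Subgroup.zpowers (sY a b hab) ⊔ Subgroup.zpowers (sJ F) :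
      Subgroup SL(2, F)) := by
    apply IsPGroup.to_sup_of_normal_right' _ _ hnorm
    · apply IsPGroup.of_card (n := 2)
      rw [Nat.card_zpowers, hYord]; rfl
    · apply IsPGroup.of_card (n := 2)
      rw [Nat.card_zpowers, hJord]; rfl
  obtain ⟨h, hh⟩ := exists_conj_mem_sylow 2 S _ hH
  refine ⟨h * sJ F * h⁻¹, h * sY a b hab * h⁻¹, h * sW a b h2 hab * h⁻¹,
    hh _ (Subgroup.mem_sup_right (Subgroup.mem_zpowers _)),
    hh _ (Subgroup.mem_sup_left (Subgroup.mem_zpowers _)), ?_, ?_, ?_, ?_, ?_⟩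
  · intro hc
    apply hJ2
    have : h * sJ F * h⁻¹ * (h * sJ F * h⁻¹) = h * (sJ F * sJ F) * h⁻¹ := by group
    rw [this] at hc
    have h3 : sJ F * sJ F = h⁻¹ * 1 * h := by rw [← hc]; group
    rw [h3]; group
  · rw [orderOf_conj', hJord]
  · calc h * sY a b hab * h⁻¹ * (h * sJ F * h⁻¹) * (h * sY a b hab * h⁻¹)⁻¹
        = h * (sY a b hab * sJ F * (sY a b hab)⁻¹) * h⁻¹ := by group
      _ = (h * sJ F * h⁻¹)⁻¹ := by rw [hYJ]; group
  · calc h * sW a b h2 hab * h⁻¹ * (h * sJ F * h⁻¹) * (h * sW a b h2 hab * h⁻¹)⁻¹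
        = h * (sW a b h2 hab * sJ F * (sW a b h2 hab)⁻¹) * h⁻¹ := by group
      _ = h * sY a b hab * h⁻¹ := by rw [sW_conj_J]
  · calc h * sW a b h2 hab * h⁻¹ * (h * sY a b hab * h⁻¹) * (h * sW a b h2 hab * h⁻¹)⁻¹
        = h * (sW a b h2 hab * sY a b hab * (sW a b h2 hab)⁻¹) * h⁻¹ := by group
      _ = h * sJ F * h⁻¹ * (h * sY a b hab * h⁻¹) := by rw [sW_conj_Y]; group

/-- The centralizer of a Sylow 2-subgroup of `SL(2,F)` is the centre. -/
theorem sl2_centralizer_sylow (hodd : Odd (Fintype.card F)) (S : Sylow 2 SL(2, F)) :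
    Subgroup.centralizer ((S : Subgroup SL(2, F)) : Set SL(2, F)) = Subgroup.center SL(2, F) := by
  have h2 := two_ne_zero_of_odd_card hodd
  obtain ⟨x, y, w, hxS, hyS, hx2, -, hyx, -, -⟩ := exists_q8_in_sylow hodd S
  apply le_antisymm
  · intro g hg
    have hgx : g * x = x * g := (hg x hxS).symm
    have hgy : g * y = y * g := (hg y hyS).symm
    have hinv := sl2_inversion x y g hx2 hyx hgx
    have : g * g = 1 := by
      have h3 : y * g * y⁻¹ = g := by rw [← hgy, mul_inv_cancel_right]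
      rw [h3] at hinv
      calc g * g = g * g⁻¹ := by rw [← hinv]
        _ = 1 := mul_inv_cancel g
    exact sl2_mem_center_of_sq h2 g this
  · exact Subgroup.center_le_centralizer _

/-- A Sylow 2-subgroup of `SL(2,F)`, `F` finite of odd order, is generalized quaternion. -/
theorem sylow_sl2_quaternion (hodd : Odd (Fintype.card F)) (S : Sylow 2 SL(2, F)) :
    ∃ n : ℕ, Nonempty (↥(S : Subgroup SL(2, F)) ≃* QuaternionGroup (2 ^ n)) := by
  classical
  have h2 := two_ne_zero_of_odd_card hodd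
  obtain ⟨x, y, w, hxS, hyS, hx2, hx4, hyx, -, -⟩ := exists_q8_in_sylow hodd S
  have key : ∀ H : Subgroup ↥(S : Subgroup SL(2, F)), Nat.card H = 2 →
      ∀ z : ↥(S : Subgroup SL(2, F)), z ∈ H ↔
        (z = 1 ∨ ((z : SL(2, F)) : Matrix (Fin 2) (Fin 2) F) = -1) := by
    intro H hH
    have hneg : ∀ h ∈ H, h ≠ 1 → ((h : SL(2, F)) : Matrix (Fin 2) (Fin 2) F) = -1 := by
      intro h hh hne
      have hord : orderOf (⟨h, hh⟩ : H) ∣ 2 := by
        have := orderOf_dvd_natCard (⟨h, hh⟩ : H)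
        rwa [hH] at this
      have hsq : (⟨h, hh⟩ : H) ^ 2 = 1 := orderOf_dvd_iff_pow_eq_one.mp hord
      have hsq' : (h : SL(2, F)) * (h : SL(2, F)) = 1 := by
        have h' := congrArg (fun t : H => ((t : ↥(S : Subgroup SL(2, F))) : SL(2, F))) hsq
        simpa [pow_two] using h'
      rcases sl2_sq_eq_one h2 _ hsq' with h1 | h1
      · exfalso
        apply hne
        apply Subtype.ext
        apply Matrix.SpecialLinearGroup.ext
        intro i j
        rw [h1]; rfl
      · exact h1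
    have hne : H ≠ ⊥ := by
      rintro rfl
      rw [Subgroup.card_bot] at hH
      omega
    obtain ⟨⟨h, hh⟩, hh1⟩ := (Subgroup.ne_bot_iff_exists_ne_one).mp hne
    have hh1' : h ≠ 1 := fun hc => hh1 (Subtype.ext hc)
    have hhm := hneg h hh hh1'
    intro z
    constructor
    · intro hz
      by_cases hz1 : z = 1
      · exact Or.inl hz1
      · exact Or.inr (hneg z hz hz1)
    · rintro (rfl | hz)
      · exact one_mem H
      · have : z = h := by
          apply Subtype.ext
          apply Matrix.SpecialLinearGroup.ext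
          intro i j
          rw [hz, hhm]
        rw [this]; exact hh
  have huniq : ∀ H K : Subgroup ↥(S : Subgroup SL(2, F)), Nat.card H = 2 → Nat.card K = 2 →
      H = K := by
    intro H K hH hK
    ext z
    rw [key H hH, key K hK]
  rcases Cfsg.Agent.H59.cyclic_or_quaternion_of_unique 2 S.isPGroup' huniq with hc | ⟨-, n, hn⟩
  · exfalso
    let _ := IsCyclic.commGroup (α := ↥(S : Subgroup SL(2, F)))
    have hcomm : (⟨x, hxS⟩ : ↥(S : Subgroup SL(2, F))) * ⟨y, hyS⟩ = ⟨y, hyS⟩ * ⟨x, hxS⟩ :=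
      mul_comm _ _
    have hxy : x * y = y * x := congrArg Subtype.val hcomm
    apply hx2
    have h3 : y * x * y⁻¹ = x := by rw [← hxy, mul_inv_cancel_right]
    rw [h3] at hyx
    calc x * x = x * x⁻¹ := by rw [← hyx]
      _ = 1 := mul_inv_cancel x
  · exact ⟨n, hn⟩

/-- When the Sylow 2-subgroup is generalized quaternion of order at least 16, it is
self-normalizing. -/
theorem sl2_normalizer_sylow_big (hodd : Odd (Fintype.card F)) (S : Sylow 2 SL(2, F)) (n : ℕ)
    (hn : 2 ≤ n) (e : ↥(S : Subgroup SL(2, F)) ≃* QuaternionGroup (2 ^ n)) :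
    Subgroup.normalizer ((S : Subgroup SL(2, F)) : Set SL(2, F)) = S := by
  classical
  have h2 := two_ne_zero_of_odd_card hodd
  have hN4 : 4 ≤ 2 ^ n := by
    calc 4 = 2 ^ 2 := by norm_num
      _ ≤ 2 ^ n := Nat.pow_le_pow_right (by norm_num) hn
  have hNZ : NeZero (2 ^ n) := ⟨by positivity⟩
  let X : ↥(S : Subgroup SL(2, F)) := e.symm (QuaternionGroup.a 1)
  let Y : ↥(S : Subgroup SL(2, F)) := e.symm (QuaternionGroup.xa 0)
  have hXord : orderOf X = 2 * 2 ^ n := by
    rw [MulEquiv.orderOf_eq, QuaternionGroup.orderOf_a_one]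
  have hrel : Y * X * Y⁻¹ = X⁻¹ := by
    show e.symm (QuaternionGroup.xa 0) * e.symm (QuaternionGroup.a 1) *
      (e.symm (QuaternionGroup.xa 0))⁻¹ = (e.symm (QuaternionGroup.a 1))⁻¹
    rw [← map_mul, ← map_inv, ← map_mul, ← map_inv]
    congr 1
    rw [mul_inv_eq_iff_eq_mul, eq_comm, inv_mul_eq_iff_eq_mul, ← mul_assoc,
      QuaternionGroup.a_mul_xa, QuaternionGroup.xa_mul_a]
    congr 1
    ring
  have hxord : orderOf (X : SL(2, F)) = 2 * 2 ^ n := by
    rw [Subgroup.orderOf_coe]; exact hXord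
  have hx2 : (X : SL(2, F)) * (X : SL(2, F)) ≠ 1 := by
    intro h
    have : orderOf (X : SL(2, F)) ∣ 2 := orderOf_dvd_of_pow_eq_one (by rw [pow_two]; exact h)
    rw [hxord] at this
    have := Nat.le_of_dvd (by norm_num) this
    omega
  have hyx : (Y : SL(2, F)) * (X : SL(2, F)) * (Y : SL(2, F))⁻¹ = (X : SL(2, F))⁻¹ := by
    have := congrArg Subtype.val hrel
    simpa using this
  have key : ∀ g : SL(2, F), g ∈ Subgroup.normalizer ((S : Subgroup SL(2, F)) : Set SL(2, F)) →
      Odd (orderOf g) → g = 1 := by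
    intro g hg hgodd
    have hmem : g * (X : SL(2, F)) * g⁻¹ ∈ (S : Subgroup SL(2, F)) :=
      (Subgroup.mem_normalizer_iff.mp hg _).mp X.2
    obtain ⟨k, hk⟩ : ∃ k : ℕ, g * (X : SL(2, F)) * g⁻¹ = (X : SL(2, F)) ^ k := by
      let W : ↥(S : Subgroup SL(2, F)) := ⟨g * (X : SL(2, F)) * g⁻¹, hmem⟩
      have hWord : orderOf W = 2 * 2 ^ n := by
        rw [Subgroup.orderOf_mk, orderOf_conj', hxord]
      have heW : orderOf (e W) = 2 * 2 ^ n := by rw [MulEquiv.orderOf_eq]; exact hWord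
      rcases hq : e W with i | i
      · refine ⟨i.val, ?_⟩
        have hWX : W = X ^ i.val := by
          apply e.injective
          rw [map_pow, hq]
          show _ = (e (e.symm (QuaternionGroup.a 1))) ^ i.val
          rw [e.apply_symm_apply, QuaternionGroup.a_one_pow, ZMod.natCast_zmod_val]
        have := congrArg Subtype.val hWX
        simpa using this
      · exfalso
        rw [hq, QuaternionGroup.orderOf_xa] at heW
        omega
    have hiter : ∀ j : ℕ, g ^ j * (X : SL(2, F)) * (g ^ j)⁻¹ = (X : SL(2, F)) ^ (k ^ j) := by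
      intro j
      induction j with
      | zero => simp
      | succ j ih =>
        calc g ^ (j + 1) * (X : SL(2, F)) * (g ^ (j + 1))⁻¹
            = g * (g ^ j * (X : SL(2, F)) * (g ^ j)⁻¹) * g⁻¹ := by rw [pow_succ']; group
          _ = g * (X : SL(2, F)) ^ (k ^ j) * g⁻¹ := by rw [ih]
          _ = (g * (X : SL(2, F)) * g⁻¹) ^ (k ^ j) := (conj_pow' g _ _).symm
          _ = ((X : SL(2, F)) ^ k) ^ (k ^ j) := by rw [hk]
          _ = (X : SL(2, F)) ^ (k ^ (j + 1)) := by rw [← pow_mul, pow_succ']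
    have h1 := hiter (orderOf g)
    rw [pow_orderOf_eq_one, one_mul, inv_one, mul_one] at h1
    have hkcop : Nat.Coprime k (2 * 2 ^ n) := by
      have h3 := orderOf_conj' g (X : SL(2, F))
      rw [hk, orderOf_pow, hxord] at h3
      have h4 := (Nat.div_eq_self.mp h3).resolve_left (by positivity)
      exact (Nat.coprime_comm.mp h4)
    have hmod : k ^ orderOf g ≡ 1 [MOD 2 * 2 ^ n] := by
      have h5 : (X : SL(2, F)) ^ (k ^ orderOf g) = (X : SL(2, F)) ^ 1 := by
        rw [pow_one]; exact h1.symm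
      rw [pow_eq_pow_iff_modEq, hxord] at h5
      exact h5
    let u : (ZMod (2 * 2 ^ n))ˣ := ZMod.unitOfCoprime k hkcop
    have hu1 : u ^ orderOf g = 1 := by
      apply Units.ext
      rw [Units.val_pow_eq_pow_val, ZMod.coe_unitOfCoprime, Units.val_one]
      have := (ZMod.natCast_eq_natCast_iff _ _ _).mpr hmod
      push_cast at this
      exact this
    have hu2 : u ^ 2 ^ n = 1 := by
      have := ZMod.pow_totient u
      have hφ : Nat.totient (2 * 2 ^ n) = 2 ^ n := by
        rw [← pow_succ', Nat.totient_prime_pow_succ Nat.prime_two]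
        simp
      rwa [hφ] at this
    have hu : u = 1 := by
      have d1 : orderOf u ∣ orderOf g := orderOf_dvd_of_pow_eq_one hu1
      have d2 : orderOf u ∣ 2 ^ n := orderOf_dvd_of_pow_eq_one hu2
      have hcop : Nat.Coprime (orderOf g) (2 ^ n) :=
        Nat.Coprime.pow_right n (Nat.coprime_two_right.mpr hgodd)
      have : orderOf u = 1 := Nat.eq_one_of_dvd_coprimes hcop d1 d2
      exact orderOf_eq_one_iff.mp this
    have hk1 : k ≡ 1 [MOD 2 * 2 ^ n] := by
      have h6 : ((k : ℕ) : ZMod (2 * 2 ^ n)) = ((1 : ℕ) : ZMod (2 * 2 ^ n)) := by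
        have := congrArg Units.val hu
        rw [ZMod.coe_unitOfCoprime, Units.val_one] at this
        rw [this]; simp
      exact (ZMod.natCast_eq_natCast_iff _ _ _).mp h6
    have hgx : g * (X : SL(2, F)) = (X : SL(2, F)) * g := by
      have h7 : (X : SL(2, F)) ^ k = (X : SL(2, F)) ^ 1 := by
        rw [pow_eq_pow_iff_modEq, hxord]; exact hk1
      rw [pow_one] at h7
      rw [h7] at hk
      calc g * (X : SL(2, F)) = (g * (X : SL(2, F)) * g⁻¹) * g := by group
        _ = (X : SL(2, F)) * g := by rw [hk]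
    have hinv := sl2_inversion (X : SL(2, F)) (Y : SL(2, F)) g hx2 hyx hgx
    have hmemY : g * (Y : SL(2, F)) * g⁻¹ ∈ (S : Subgroup SL(2, F)) :=
      (Subgroup.mem_normalizer_iff.mp hg _).mp Y.2
    have hg2 : g * g ∈ (S : Subgroup SL(2, F)) := by
      have h8 : (Y : SL(2, F))⁻¹ * (g * (Y : SL(2, F)) * g⁻¹) ∈ (S : Subgroup SL(2, F)) :=
        Subgroup.mul_mem _ (Subgroup.inv_mem _ Y.2) hmemY
      have h9 : (Y : SL(2, F))⁻¹ * (g * (Y : SL(2, F)) * g⁻¹) = (g * g)⁻¹ := by
        have h10 : (Y : SL(2, F))⁻¹ * g * (Y : SL(2, F)) = g⁻¹ := by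
          have : g = (Y : SL(2, F))⁻¹ * g⁻¹ * (Y : SL(2, F)) := by rw [← hinv]; group
          calc (Y : SL(2, F))⁻¹ * g * (Y : SL(2, F))
              = ((Y : SL(2, F))⁻¹ * g⁻¹ * (Y : SL(2, F)))⁻¹ := by group
            _ = g⁻¹ := by rw [← this]
        calc (Y : SL(2, F))⁻¹ * (g * (Y : SL(2, F)) * g⁻¹)
            = ((Y : SL(2, F))⁻¹ * g * (Y : SL(2, F))) * g⁻¹ := by group
          _ = g⁻¹ * g⁻¹ := by rw [h10]
          _ = (g * g)⁻¹ := by group
      rw [h9] at h8
      exact (Subgroup.inv_mem_iff _).mp h8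
    obtain ⟨j, hj⟩ := S.isPGroup' ⟨g * g, hg2⟩
    have hj' : (g * g) ^ 2 ^ j = 1 := by
      have := congrArg Subtype.val hj
      simpa using this
    have hdvd : orderOf g ∣ 2 ^ (j + 1) := by
      apply orderOf_dvd_of_pow_eq_one
      rw [pow_succ', pow_mul, pow_two]; exact hj'
    have hcop : Nat.Coprime (orderOf g) (2 ^ (j + 1)) :=
      Nat.Coprime.pow_right _ (Nat.coprime_two_right.mpr hgodd)
    have : orderOf g = 1 := Nat.Coprime.eq_one_of_dvd hcop hdvd
    exact orderOf_eq_one_iff.mp this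
  have hP : IsPGroup 2 ↥(Subgroup.normalizer ((S : Subgroup SL(2, F)) : Set SL(2, F))) := by
    rintro ⟨g, hg⟩
    obtain ⟨t, r, hr, htr⟩ := Nat.exists_eq_two_pow_mul_odd (n := orderOf g) (orderOf_pos g).ne'
    have h3 : g ^ 2 ^ t = 1 := by
      apply key (g ^ 2 ^ t) (Subgroup.pow_mem _ hg _)
      rw [orderOf_pow_of_dvd (by positivity) ⟨r, htr⟩, htr,
        Nat.mul_div_cancel_left _ (by positivity)]
      exact hr
    exact ⟨t, Subtype.ext h3⟩
  exact S.is_maximal' hP Subgroup.le_normalizer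

end sylow

end Cfsg.Agent.H61
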