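import Mathlib

/-!
# Packed codes for permutations of `Fin 8` (helper61)

A permutation `σ` of `Fin 8` is coded by the natural number `∑ σ(i) 8^i`.  Products, inverses,
conjugates and words are computed on codes with the kernel-accelerated operations on `ℕ`, and
`forallPerm` runs a Boolean test over all `40320` codes.
-/

set_option autoImplicit false

namespace Cfsg.Agent.H61.A8

/-- The symmetric group of degree `8`. -/
abbrev S8 : Type := Equiv.Perm (Fin 8)

/-- The `i`-th base-`8` digit. -/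
def dg (a i : ℕ) : ℕ := Nat.land (Nat.shiftRight a (Nat.mul 3 i)) 7

theorem dg_eq (a i : ℕ) : dg a i = a / 8 ^ i % 8 := by
  show (a >>> (3 * i)) &&& 7 = a / 8 ^ i % 8
  rw [Nat.shiftRight_eq_div_pow, pow_mul]
  exact Nat.and_two_pow_sub_one_eq_mod _ 3

theorem dg_lt (a i : ℕ) : dg a i < 8 := by
  rw [dg_eq]
  exact Nat.mod_lt _ (by norm_num)

theorem beq_iff (a b : ℕ) : Nat.beq a b = true ↔ a = b :=
  ⟨Nat.eq_of_beq_eq_true, fun h => h ▸ Nat.beq_refl a⟩

theorem beq_false_of_ne {a b : ℕ} (h : a ≠ b) : Nat.beq a b = false := by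
  cases hb : Nat.beq a b
  · rfl
  · exact absurd (Nat.eq_of_beq_eq_true hb) h

theorem shl3 (x k : ℕ) : Nat.shiftLeft x (Nat.mul 3 k) = x * 8 ^ k := by
  show x <<< (3 * k) = x * 8 ^ k
  rw [Nat.shiftLeft_eq, pow_mul]
  norm_num

/-- Eight digits packed into a code. -/
def pack (x0 x1 x2 x3 x4 x5 x6 x7 : ℕ) : ℕ :=
  Nat.add x0 (Nat.add (Nat.shiftLeft x1 (Nat.mul 3 1)) (Nat.add (Nat.shiftLeft x2 (Nat.mul 3 2))
    (Nat.add (Nat.shiftLeft x3 (Nat.mul 3 3)) (Nat.add (Nat.shiftLeft x4 (Nat.mul 3 4))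
      (Nat.add (Nat.shiftLeft x5 (Nat.mul 3 5)) (Nat.add (Nat.shiftLeft x6 (Nat.mul 3 6))
        (Nat.shiftLeft x7 (Nat.mul 3 7))))))))

theorem pack_eq (x0 x1 x2 x3 x4 x5 x6 x7 : ℕ) :
    pack x0 x1 x2 x3 x4 x5 x6 x7 =
      x0 + x1 * 8 + x2 * 8 ^ 2 + x3 * 8 ^ 3 + x4 * 8 ^ 4 + x5 * 8 ^ 5 + x6 * 8 ^ 6 + x7 * 8 ^ 7 := by
  unfold pack
  rw [shl3, shl3, shl3, shl3, shl3, shl3, shl3]
  show x0 + (x1 * 8 ^ 1 + (x2 * 8 ^ 2 + (x3 * 8 ^ 3 + (x4 * 8 ^ 4 + (x5 * 8 ^ 5 +
    (x6 * 8 ^ 6 + x7 * 8 ^ 7)))))) = _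
  ring

/-- Values `v i` scattered to the positions `p i`. -/
def scat (v0 v1 v2 v3 v4 v5 v6 v7 p0 p1 p2 p3 p4 p5 p6 p7 : ℕ) : ℕ :=
  Nat.add (Nat.shiftLeft v0 (Nat.mul 3 p0)) (Nat.add (Nat.shiftLeft v1 (Nat.mul 3 p1))
    (Nat.add (Nat.shiftLeft v2 (Nat.mul 3 p2)) (Nat.add (Nat.shiftLeft v3 (Nat.mul 3 p3))
      (Nat.add (Nat.shiftLeft v4 (Nat.mul 3 p4)) (Nat.add (Nat.shiftLeft v5 (Nat.mul 3 p5))
        (Nat.add (Nat.shiftLeft v6 (Nat.mul 3 p6)) (Nat.shiftLeft v7 (Nat.mul 3 p7))))))))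

theorem scat_eq (v0 v1 v2 v3 v4 v5 v6 v7 p0 p1 p2 p3 p4 p5 p6 p7 : ℕ) :
    scat v0 v1 v2 v3 v4 v5 v6 v7 p0 p1 p2 p3 p4 p5 p6 p7 =
      v0 * 8 ^ p0 + v1 * 8 ^ p1 + v2 * 8 ^ p2 + v3 * 8 ^ p3 + v4 * 8 ^ p4 + v5 * 8 ^ p5 +
        v6 * 8 ^ p6 + v7 * 8 ^ p7 := by
  unfold scat
  rw [shl3, shl3, shl3, shl3, shl3, shl3, shl3, shl3]
  show v0 * 8 ^ p0 + (v1 * 8 ^ p1 + (v2 * 8 ^ p2 + (v3 * 8 ^ p3 + (v4 * 8 ^ p4 + (v5 * 8 ^ p5 +
    (v6 * 8 ^ p6 + v7 * 8 ^ p7)))))) = _
  ring

/-- The code of a permutation, in explicit form. -/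
def codeI (σ : S8) : ℕ :=
  (σ 0).val + (σ 1).val * 8 + (σ 2).val * 8 ^ 2 + (σ 3).val * 8 ^ 3 + (σ 4).val * 8 ^ 4 +
    (σ 5).val * 8 ^ 5 + (σ 6).val * 8 ^ 6 + (σ 7).val * 8 ^ 7

theorem code_exists : ∃ f : S8 → ℕ, f = codeI := ⟨codeI, rfl⟩

/-- The code of a permutation.  It is defined through a choice so that the kernel never unfolds
it; `code_def` is its defining equation. -/
noncomputable def code : S8 → ℕ := Classical.choose code_exists

theorem code_def (σ : S8) : code σ =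
    (σ 0).val + (σ 1).val * 8 + (σ 2).val * 8 ^ 2 + (σ 3).val * 8 ^ 3 + (σ 4).val * 8 ^ 4 +
      (σ 5).val * 8 ^ 5 + (σ 6).val * 8 ^ 6 + (σ 7).val * 8 ^ 7 :=
  congrFun (Classical.choose_spec code_exists) σ

theorem code_eq_sum (σ : S8) : code σ = ∑ i : Fin 8, (σ i).val * 8 ^ i.val := by
  rw [code_def]
  simp [Fin.sum_univ_eight]

theorem code_eq_pack (σ : S8) : code σ =
    pack (σ 0).val (σ 1).val (σ 2).val (σ 3).val (σ 4).val (σ 5).val (σ 6).val (σ 7).val := by
  rw [pack_eq, code_def]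

theorem code_lt (σ : S8) : code σ < 8 ^ 8 := by
  have h0 := (σ 0).isLt
  have h1 := (σ 1).isLt
  have h2 := (σ 2).isLt
  have h3 := (σ 3).isLt
  have h4 := (σ 4).isLt
  have h5 := (σ 5).isLt
  have h6 := (σ 6).isLt
  have h7 := (σ 7).isLt
  rw [code_def]
  norm_num
  omega

theorem dg_pack (x0 x1 x2 x3 x4 x5 x6 x7 : ℕ) (h0 : x0 < 8) (h1 : x1 < 8) (h2 : x2 < 8)
    (h3 : x3 < 8) (h4 : x4 < 8) (h5 : x5 < 8) (h6 : x6 < 8) (h7 : x7 < 8) (k : ℕ) (hk : k < 8) :
    dg (x0 + x1 * 8 + x2 * 8 ^ 2 + x3 * 8 ^ 3 + x4 * 8 ^ 4 + x5 * 8 ^ 5 + x6 * 8 ^ 6 + x7 * 8 ^ 7) k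
      = [x0, x1, x2, x3, x4, x5, x6, x7].getD k 0 := by
  rw [dg_eq]
  interval_cases k <;> norm_num <;> omega

theorem dg_code (σ : S8) (i : Fin 8) : dg (code σ) i.val = (σ i).val := by
  have h := dg_pack _ _ _ _ _ _ _ _ (σ 0).isLt (σ 1).isLt (σ 2).isLt (σ 3).isLt (σ 4).isLt
    (σ 5).isLt (σ 6).isLt (σ 7).isLt i.val i.isLt
  rw [code_def, h]
  fin_cases i <;> rfl

theorem code_injective : Function.Injective code := by
  intro σ τ h
  ext i
  rw [← dg_code σ i, ← dg_code τ i, h]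

/-- The code of the identity. -/
def idC : ℕ := 16434824

theorem code_one : code 1 = idC := by
  rw [code_def]
  simp [idC]

/-- Product of codes. -/
def mulC (a b : ℕ) : ℕ :=
  pack (dg a (dg b 0)) (dg a (dg b 1)) (dg a (dg b 2)) (dg a (dg b 3)) (dg a (dg b 4))
    (dg a (dg b 5)) (dg a (dg b 6)) (dg a (dg b 7))

theorem code_mul (σ τ : S8) : code (σ * τ) = mulC (code σ) (code τ) := by
  have e0 : dg (code τ) 0 = (τ 0).val := dg_code τ 0
  have e1 : dg (code τ) 1 = (τ 1).val := dg_code τ 1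
  have e2 : dg (code τ) 2 = (τ 2).val := dg_code τ 2
  have e3 : dg (code τ) 3 = (τ 3).val := dg_code τ 3
  have e4 : dg (code τ) 4 = (τ 4).val := dg_code τ 4
  have e5 : dg (code τ) 5 = (τ 5).val := dg_code τ 5
  have e6 : dg (code τ) 6 = (τ 6).val := dg_code τ 6
  have e7 : dg (code τ) 7 = (τ 7).val := dg_code τ 7
  unfold mulC
  rw [e0, e1, e2, e3, e4, e5, e6, e7, dg_code σ, dg_code σ, dg_code σ, dg_code σ, dg_code σ,
    dg_code σ, dg_code σ, dg_code σ, pack_eq, code_def]
  rfl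

/-- Inverse of a code. -/
def invC (a : ℕ) : ℕ :=
  scat 0 1 2 3 4 5 6 7 (dg a 0) (dg a 1) (dg a 2) (dg a 3) (dg a 4) (dg a 5) (dg a 6) (dg a 7)

theorem code_inv (σ : S8) : code σ⁻¹ = invC (code σ) := by
  have e0 : dg (code σ) 0 = (σ 0).val := dg_code σ 0
  have e1 : dg (code σ) 1 = (σ 1).val := dg_code σ 1
  have e2 : dg (code σ) 2 = (σ 2).val := dg_code σ 2
  have e3 : dg (code σ) 3 = (σ 3).val := dg_code σ 3
  have e4 : dg (code σ) 4 = (σ 4).val := dg_code σ 4
  have e5 : dg (code σ) 5 = (σ 5).val := dg_code σ 5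
  have e6 : dg (code σ) 6 = (σ 6).val := dg_code σ 6
  have e7 : dg (code σ) 7 = (σ 7).val := dg_code σ 7
  unfold invC
  rw [e0, e1, e2, e3, e4, e5, e6, e7, code_eq_sum, scat_eq]
  have h := Equiv.sum_comp σ (fun j : Fin 8 => (σ⁻¹ j).val * 8 ^ j.val)
  rw [← h]
  simp [Fin.sum_univ_eight]

/-- Conjugation of codes: `a z a⁻¹`. -/
def conjC (a z : ℕ) : ℕ :=
  scat (dg a (dg z 0)) (dg a (dg z 1)) (dg a (dg z 2)) (dg a (dg z 3)) (dg a (dg z 4))
    (dg a (dg z 5)) (dg a (dg z 6)) (dg a (dg z 7))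
    (dg a 0) (dg a 1) (dg a 2) (dg a 3) (dg a 4) (dg a 5) (dg a 6) (dg a 7)

theorem code_conj (σ τ : S8) : code (σ * τ * σ⁻¹) = conjC (code σ) (code τ) := by
  have e0 : dg (code τ) 0 = (τ 0).val := dg_code τ 0
  have e1 : dg (code τ) 1 = (τ 1).val := dg_code τ 1
  have e2 : dg (code τ) 2 = (τ 2).val := dg_code τ 2
  have e3 : dg (code τ) 3 = (τ 3).val := dg_code τ 3
  have e4 : dg (code τ) 4 = (τ 4).val := dg_code τ 4
  have e5 : dg (code τ) 5 = (τ 5).val := dg_code τ 5
  have e6 : dg (code τ) 6 = (τ 6).val := dg_code τ 6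
  have e7 : dg (code τ) 7 = (τ 7).val := dg_code τ 7
  have f0 : dg (code σ) 0 = (σ 0).val := dg_code σ 0
  have f1 : dg (code σ) 1 = (σ 1).val := dg_code σ 1
  have f2 : dg (code σ) 2 = (σ 2).val := dg_code σ 2
  have f3 : dg (code σ) 3 = (σ 3).val := dg_code σ 3
  have f4 : dg (code σ) 4 = (σ 4).val := dg_code σ 4
  have f5 : dg (code σ) 5 = (σ 5).val := dg_code σ 5
  have f6 : dg (code σ) 6 = (σ 6).val := dg_code σ 6
  have f7 : dg (code σ) 7 = (σ 7).val := dg_code σ 7
  unfold conjC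
  rw [e0, e1, e2, e3, e4, e5, e6, e7, f0, f1, f2, f3, f4, f5, f6, f7, dg_code σ, dg_code σ,
    dg_code σ, dg_code σ, dg_code σ, dg_code σ, dg_code σ, dg_code σ, code_eq_sum, scat_eq]
  have h := Equiv.sum_comp σ (fun j : Fin 8 => ((σ * τ * σ⁻¹) j).val * 8 ^ j.val)
  rw [← h]
  simp [Fin.sum_univ_eight]

/-- Powers of codes. -/
def powC (a : ℕ) : ℕ → ℕ
  | 0 => idC
  | k + 1 => mulC (powC a k) a

theorem code_pow (σ : S8) (k : ℕ) : code (σ ^ k) = powC (code σ) k := by
  induction k with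
  | zero => rw [pow_zero, code_one, powC]
  | succ k ih => rw [pow_succ, code_mul, ih, powC]

/-- Iterated digit lookup: the image of the point `x` under the `k`-th power. -/
def iterC (a : ℕ) : ℕ → ℕ → ℕ
  | 0, x => x
  | k + 1, x => dg a (iterC a k x)

theorem iterC_code (σ : S8) (k : ℕ) (x : Fin 8) : iterC (code σ) k x.val = ((σ ^ k) x).val := by
  induction k with
  | zero => rw [iterC, pow_zero]; rfl
  | succ k ih =>
    rw [iterC, ih, dg_code, pow_succ', Equiv.Perm.mul_apply]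

/-- A Boolean conjunction over the eight digits. -/
def all8 (f : ℕ → Bool) : Bool :=
  and (f 0) (and (f 1) (and (f 2) (and (f 3) (and (f 4) (and (f 5) (and (f 6) (f 7)))))))

theorem all8_spec {f : ℕ → Bool} (h : all8 f = true) (i : ℕ) (hi : i < 8) : f i = true := by
  unfold all8 at h
  simp only [Bool.and_eq_true] at h
  obtain ⟨h0, h1, h2, h3, h4, h5, h6, h7⟩ := h
  interval_cases i <;> assumption

/-- The test for elements of order dividing `p`, other than the identity. -/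
def preP (p a : ℕ) : Bool := and (not (Nat.beq a idC)) (all8 fun x => Nat.beq (iterC a p x) x)

theorem preP_of_orderOf {p : ℕ} (hp : 1 < p) (σ : S8) (h : orderOf σ = p) :
    preP p (code σ) = true := by
  unfold preP
  rw [Bool.and_eq_true]
  constructor
  · rw [Bool.not_eq_true']
    apply beq_false_of_ne
    rw [← code_one]
    intro e
    have := code_injective e
    rw [this, orderOf_one] at h
    omega
  · have hpow : σ ^ p = 1 := by rw [← h]; exact pow_orderOf_eq_one σ
    have key : ∀ x : Fin 8, Nat.beq (iterC (code σ) p x.val) x.val = true := by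
      intro x
      rw [iterC_code, hpow, beq_iff]
      rfl
    unfold all8
    simp only [Bool.and_eq_true]
    exact ⟨key 0, key 1, key 2, key 3, key 4, key 5, key 6, key 7⟩

/-- A Boolean test over all permutations. -/
def forallPerm (P : ℕ → Bool) : Bool :=
  all8 fun a0 => all8 fun a1 => or (Nat.beq a1 a0) <| all8 fun a2 =>
  or (Nat.beq a2 a0) <| or (Nat.beq a2 a1) <| all8 fun a3 =>
  or (Nat.beq a3 a0) <| or (Nat.beq a3 a1) <| or (Nat.beq a3 a2) <| all8 fun a4 =>
  or (Nat.beq a4 a0) <| or (Nat.beq a4 a1) <| or (Nat.beq a4 a2) <| or (Nat.beq a4 a3) <|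
  all8 fun a5 =>
  or (Nat.beq a5 a0) <| or (Nat.beq a5 a1) <| or (Nat.beq a5 a2) <| or (Nat.beq a5 a3) <|
  or (Nat.beq a5 a4) <| all8 fun a6 =>
  or (Nat.beq a6 a0) <| or (Nat.beq a6 a1) <| or (Nat.beq a6 a2) <| or (Nat.beq a6 a3) <|
  or (Nat.beq a6 a4) <| or (Nat.beq a6 a5) <| all8 fun a7 =>
  or (Nat.beq a7 a0) <| or (Nat.beq a7 a1) <| or (Nat.beq a7 a2) <| or (Nat.beq a7 a3) <|
  or (Nat.beq a7 a4) <| or (Nat.beq a7 a5) <| or (Nat.beq a7 a6) <|
  P (pack a0 a1 a2 a3 a4 a5 a6 a7)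

theorem forallPerm_sound {P : ℕ → Bool} (h : forallPerm P = true) (σ : S8) :
    P (code σ) = true := by
  have e : ∀ i j : Fin 8, i ≠ j → Nat.beq (σ i).val (σ j).val = false := by
    intro i j hij
    apply beq_false_of_ne
    intro h'
    exact hij (σ.injective (Fin.val_injective h'))
  unfold forallPerm at h
  have h0 := all8_spec h _ (σ 0).isLt
  have h1 := all8_spec h0 _ (σ 1).isLt
  simp only [e 1 0 (by decide), Bool.false_or] at h1
  have h2 := all8_spec h1 _ (σ 2).isLt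
  simp only [e 2 0 (by decide), e 2 1 (by decide), Bool.false_or] at h2
  have h3 := all8_spec h2 _ (σ 3).isLt
  simp only [e 3 0 (by decide), e 3 1 (by decide), e 3 2 (by decide), Bool.false_or] at h3
  have h4 := all8_spec h3 _ (σ 4).isLt
  simp only [e 4 0 (by decide), e 4 1 (by decide), e 4 2 (by decide), e 4 3 (by decide),
    Bool.false_or] at h4
  have h5 := all8_spec h4 _ (σ 5).isLt
  simp only [e 5 0 (by decide), e 5 1 (by decide), e 5 2 (by decide), e 5 3 (by decide),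
    e 5 4 (by decide), Bool.false_or] at h5
  have h6 := all8_spec h5 _ (σ 6).isLt
  simp only [e 6 0 (by decide), e 6 1 (by decide), e 6 2 (by decide), e 6 3 (by decide),
    e 6 4 (by decide), e 6 5 (by decide), Bool.false_or] at h6
  have h7 := all8_spec h6 _ (σ 7).isLt
  simp only [e 7 0 (by decide), e 7 1 (by decide), e 7 2 (by decide), e 7 3 (by decide),
    e 7 4 (by decide), e 7 5 (by decide), e 7 6 (by decide), Bool.false_or] at h7
  rw [code_eq_pack]
  exact h7

/-- Validity of a code. -/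
def validC (a : ℕ) : Bool := and (Nat.ble a 16777215) (Nat.beq (mulC a (invC a)) idC)

theorem validC_code (σ : S8) : validC (code σ) = true := by
  unfold validC
  rw [Bool.and_eq_true]
  constructor
  · rw [Nat.ble_eq]
    have := code_lt σ
    norm_num at this
    omega
  · rw [← code_inv, ← code_mul, mul_inv_cancel, code_one]
    exact Nat.beq_refl _

theorem digits_injective {a : ℕ} (h : validC a = true) :
    Function.Injective (fun i : Fin 8 => (⟨dg a i.val, dg_lt a i.val⟩ : Fin 8)) := by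
  unfold validC at h
  rw [Bool.and_eq_true] at h
  have h2 : mulC a (invC a) = idC := Nat.eq_of_beq_eq_true h.2
  apply Finite.injective_iff_surjective.mpr
  intro j
  refine ⟨⟨dg (invC a) j.val, dg_lt _ _⟩, ?_⟩
  apply Fin.ext
  show dg a (dg (invC a) j.val) = j.val
  have h3 : ∀ k : ℕ, k < 8 → dg (mulC a (invC a)) k = dg a (dg (invC a) k) := by
    intro k hk
    have h := dg_pack _ _ _ _ _ _ _ _ (dg_lt a (dg (invC a) 0)) (dg_lt a (dg (invC a) 1))
      (dg_lt a (dg (invC a) 2)) (dg_lt a (dg (invC a) 3)) (dg_lt a (dg (invC a) 4))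
      (dg_lt a (dg (invC a) 5)) (dg_lt a (dg (invC a) 6)) (dg_lt a (dg (invC a) 7)) k hk
    unfold mulC
    rw [pack_eq, h]
    interval_cases k <;> rfl
  rw [← h3 j.val j.isLt, h2]
  have : ∀ k : ℕ, k < 8 → dg idC k = k := by decide
  exact this j.val j.isLt

/-- The permutation with a given code (the identity for invalid codes). -/
noncomputable def decP (a : ℕ) : S8 :=
  if h : validC a = true then
    Equiv.ofBijective (fun i : Fin 8 => (⟨dg a i.val, dg_lt a i.val⟩ : Fin 8))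
      ⟨digits_injective h, Finite.injective_iff_surjective.mp (digits_injective h)⟩
  else 1

theorem decP_apply {a : ℕ} (h : validC a = true) (i : Fin 8) : (decP a i).val = dg a i.val := by
  unfold decP
  rw [dif_pos h]
  rfl

theorem digits_sum (a : ℕ) (h : a < 8 ^ 8) :
    dg a 0 + dg a 1 * 8 + dg a 2 * 8 ^ 2 + dg a 3 * 8 ^ 3 + dg a 4 * 8 ^ 4 + dg a 5 * 8 ^ 5 +
      dg a 6 * 8 ^ 6 + dg a 7 * 8 ^ 7 = a := by
  simp only [dg_eq]
  norm_num at h ⊢
  omega

theorem code_decP {a : ℕ} (h : validC a = true) : code (decP a) = a := by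
  have hlt : a < 8 ^ 8 := by
    unfold validC at h
    rw [Bool.and_eq_true, Nat.ble_eq] at h
    have := h.1
    norm_num
    omega
  rw [code_def, decP_apply h, decP_apply h, decP_apply h, decP_apply h, decP_apply h,
    decP_apply h, decP_apply h, decP_apply h]
  exact digits_sum a hlt

theorem decP_code (σ : S8) : decP (code σ) = σ :=
  code_injective (code_decP (validC_code σ))

theorem eq_decP {σ : S8} {a : ℕ} (h : code σ = a) : σ = decP a := by
  rw [← h, decP_code]

/-- The `k`-th entry of a list, with a default. -/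
def nthD {α : Type} : List α → ℕ → α → α
  | [], _, d => d
  | x :: _, 0, _ => x
  | _ :: l, k + 1, d => nthD l k d

theorem nthD_mem {α : Type} : ∀ (l : List α) (k : ℕ) (d : α), nthD l k d ∈ l ∨ nthD l k d = d
  | [], _, d => by rw [nthD]; exact Or.inr rfl
  | x :: l, 0, d => by rw [nthD]; exact Or.inl List.mem_cons_self
  | x :: l, k + 1, d => by
    rw [nthD]
    rcases nthD_mem l k d with h | h
    · exact Or.inl (List.mem_cons_of_mem _ h)
    · exact Or.inr h

theorem nthD_map {α β : Type} (f : α → β) : ∀ (l : List α) (k : ℕ) (d : α),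
    nthD (l.map f) k (f d) = f (nthD l k d)
  | [], _, d => by rw [List.map_nil, nthD, nthD]
  | x :: l, 0, d => by rw [List.map_cons, nthD, nthD]
  | x :: l, k + 1, d => by rw [List.map_cons, nthD, nthD, nthD_map f l k d]

/-- Evaluation of a word (a list of indices into `env`) on codes, from an accumulator. -/
def evalWAux (env : List ℕ) : ℕ → List ℕ → ℕ
  | acc, [] => acc
  | acc, k :: w => evalWAux env (mulC acc (nthD env k idC)) w

/-- Evaluation of a word on codes. -/
def evalW (env : List ℕ) (w : List ℕ) : ℕ := evalWAux env idC w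

/-- Evaluation of a word on permutations, from an accumulator. -/
def evalPAux (env : List S8) : S8 → List ℕ → S8
  | acc, [] => acc
  | acc, k :: w => evalPAux env (acc * nthD env k 1) w

/-- Evaluation of a word on permutations. -/
def evalP (env : List S8) (w : List ℕ) : S8 := evalPAux env 1 w

theorem code_evalPAux (env : List S8) (w : List ℕ) : ∀ (acc : S8),
    code (evalPAux env acc w) = evalWAux (env.map code) (code acc) w := by
  induction w with
  | nil => intro acc; rw [evalPAux, evalWAux]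
  | cons k w ih =>
    intro acc
    rw [evalPAux, evalWAux, ih, code_mul, ← code_one, nthD_map]

theorem code_evalP (env : List S8) (w : List ℕ) :
    code (evalP env w) = evalW (env.map code) w := by
  unfold evalP evalW
  rw [code_evalPAux, code_one]

theorem evalP_mem (H : Subgroup S8) (env : List S8) (h : ∀ x ∈ env, x ∈ H) (w : List ℕ) :
    evalP env w ∈ H := by
  unfold evalP
  have key : ∀ (w : List ℕ) (acc : S8), acc ∈ H → evalPAux env acc w ∈ H := by
    intro w
    induction w with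
    | nil => intro acc hacc; rw [evalPAux]; exact hacc
    | cons k w ih =>
      intro acc hacc
      rw [evalPAux]
      apply ih
      apply H.mul_mem hacc
      rcases nthD_mem env k 1 with hm | hm
      · exact h _ hm
      · rw [hm]; exact H.one_mem
  exact key w 1 H.one_mem

/-- Membership in a list of codes. -/
def memL : List ℕ → ℕ → Bool
  | [], _ => false
  | x :: l, a => or (Nat.beq x a) (memL l a)

theorem memL_iff : ∀ {l : List ℕ} {a : ℕ}, memL l a = true ↔ a ∈ l
  | [], a => by rw [memL]; simp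
  | x :: l, a => by
    rw [memL, Bool.or_eq_true, beq_iff, memL_iff, List.mem_cons]
    constructor
    · rintro (h | h)
      · exact Or.inl h.symm
      · exact Or.inr h
    · rintro (h | h)
      · exact Or.inl h.symm
      · exact Or.inr h

/-- Membership in a list of codes bucketed by the first two digits. -/
def memB (L : List (List (List ℕ))) (a : ℕ) : Bool :=
  memL (nthD (nthD L (dg a 0) []) (dg a 1) []) a

theorem memB_flatten {L : List (List (List ℕ))} {a : ℕ} (h : memB L a = true) :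
    a ∈ L.flatten.flatten := by
  unfold memB at h
  rw [memL_iff] at h
  rcases nthD_mem L (dg a 0) [] with h1 | h1
  · rcases nthD_mem (nthD L (dg a 0) []) (dg a 1) [] with h2 | h2
    · exact List.mem_flatten.mpr ⟨_, List.mem_flatten.mpr ⟨_, h1, h2⟩, h⟩
    · rw [h2] at h; simp at h
  · rw [h1] at h
    rw [nthD] at h
    simp at h

/-- A Boolean test that a list of codes has no repetitions. -/
def nodupB : List ℕ → Bool
  | [] => true
  | a :: l => and (not (memL l a)) (nodupB l)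

theorem nodupB_sound : ∀ {l : List ℕ}, nodupB l = true → l.Nodup
  | [], _ => List.nodup_nil
  | a :: l, h => by
    rw [nodupB, Bool.and_eq_true, Bool.not_eq_true'] at h
    rw [List.nodup_cons]
    refine ⟨?_, nodupB_sound h.2⟩
    intro hmem
    have := memL_iff.mpr hmem
    rw [this] at h
    exact absurd h.1 (by simp)

end Cfsg.Agent.H61.A8
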