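import Mathlib
import Cfsg.Prelude.Def_Solvable
import Cfsg.Agent.H61.A8Code
import Cfsg.Agent.H61.SchreierSims

/-!
# Subgroups of `A₈` without solvable normal subgroups: generic lemmas (helper61)
-/

set_option autoImplicit false

namespace Cfsg.Agent.H61.A8

/-- No nontrivial solvable normal subgroup. -/
def NSN (G : Type*) [Group G] : Prop :=
  ∀ N : Subgroup G, N.Normal → Group.IsSolvable N → N = ⊥

theorem exists_abelian_normal {G : Type*} [Group G] (N : Subgroup G) [hN : N.Normal]
    (hsol : Group.IsSolvable N) (hne : N ≠ ⊥) :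
    ∃ A : Subgroup G, A.Normal ∧ A ≠ ⊥ ∧ ∀ a ∈ A, ∀ b ∈ A, a * b = b * a := by
  classical
  have hex : ∃ n, derivedSeries N n = ⊥ := (Group.isSolvable_def N).mp hsol
  have hspec := Nat.find_spec hex
  have hpos : Nat.find hex ≠ 0 := by
    intro h0
    rw [h0, derivedSeries_zero] at hspec
    apply hne
    rw [eq_bot_iff]
    intro x hx
    have h1 : (⟨x, hx⟩ : N) ∈ (⊤ : Subgroup N) := Subgroup.mem_top _
    rw [hspec, Subgroup.mem_bot] at h1
    rw [Subgroup.mem_bot]
    exact congrArg Subtype.val h1
  obtain ⟨j, hj⟩ := Nat.exists_eq_succ_of_ne_zero hpos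
  have hAne : derivedSeries N j ≠ ⊥ := fun h => by
    have := Nat.find_min' hex h
    omega
  have hAcomm : ⁅derivedSeries N j, derivedSeries N j⁆ = ⊥ := by
    rw [← derivedSeries_succ, ← Nat.succ_eq_add_one, ← hj]
    exact hspec
  refine ⟨(derivedSeries N j).map N.subtype, ConjAct.normal_of_characteristic_of_normal, ?_, ?_⟩
  · intro h
    exact hAne ((Subgroup.map_eq_bot_iff_of_injective _ N.subtype_injective).mp h)
  · rintro _ ⟨a, ha, rfl⟩ _ ⟨b, hb, rfl⟩
    have h1 := Subgroup.commutator_mem_commutator ha hb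
    rw [hAcomm, Subgroup.mem_bot, commutatorElement_eq_one_iff_mul_comm] at h1
    rw [← map_mul, ← map_mul, h1]

theorem nsn_of_cores {G : Type*} [Group G] [Finite G] (h2 : Cfsg.pCore 2 G = ⊥)
    (h2' : Cfsg.pPrimeCore 2 G = ⊥) : NSN G := by
  intro N hN hsol
  by_contra hne
  obtain ⟨A, hAn, hAne, hAc⟩ := exists_abelian_normal N hsol hne
  have : Fact (Nat.Prime 2) := ⟨Nat.prime_two⟩
  let P : Sylow 2 A := default
  have hPn : (P : Subgroup A).Normal := by
    constructor
    intro n hn g
    have h1 : g * n * g⁻¹ = n := by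
      have h2 : g * n = n * g := Subtype.ext (hAc g g.2 n n.2)
      rw [h2, mul_inv_cancel_right]
    rw [h1]
    exact hn
  have hPc : (P : Subgroup A).Characteristic := P.characteristic_of_normal hPn
  have hBn : ((P : Subgroup A).map A.subtype).Normal := ConjAct.normal_of_characteristic_of_normal
  have hBp : IsPGroup 2 ((P : Subgroup A).map A.subtype) := P.isPGroup'.map A.subtype
  have hB : (P : Subgroup A).map A.subtype ≤ Cfsg.pCore 2 G := le_sSup ⟨hBn, hBp⟩
  rw [h2, le_bot_iff, Subgroup.map_eq_bot_iff_of_injective _ A.subtype_injective] at hB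
  have hcard := P.card_eq_multiplicity
  rw [hB, Subgroup.card_bot] at hcard
  have hodd : (Nat.card A).Coprime 2 := by
    have h0 : (Nat.card A).factorization 2 = 0 := by
      by_contra h
      have : 2 ≤ 2 ^ (Nat.card A).factorization 2 := Nat.le_self_pow h 2
      omega
    rw [Nat.factorization_eq_zero_iff] at h0
    rcases h0 with h0 | h0 | h0
    · exact absurd Nat.prime_two h0
    · exact Nat.coprime_comm.mp ((Nat.Prime.coprime_iff_not_dvd Nat.prime_two).mpr h0)
    · exact absurd h0 Nat.card_pos.ne'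
  have hA : A ≤ Cfsg.pPrimeCore 2 G := le_sSup ⟨hAn, hodd⟩
  rw [h2'] at hA
  exact hAne (le_bot_iff.mp hA)

theorem nsn_of_mulEquiv {G G' : Type*} [Group G] [Group G'] (e : G ≃* G') (h : NSN G) :
    NSN G' := by
  intro N' hN' hsol
  haveI := hsol
  have hn : (N'.comap e.toMonoidHom).Normal := hN'.comap _
  have hs : Group.IsSolvable (N'.comap e.toMonoidHom) := by
    let f : N'.comap e.toMonoidHom →* N' := e.toMonoidHom.subgroupComap N'
    have hf : Function.Injective f := by
      intro x y hxy
      apply Subtype.ext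
      apply e.injective
      exact congrArg Subtype.val hxy
    exact Group.isSolvable_of_isSolvable_injective hf
  have h1 := h _ hn hs
  rw [eq_bot_iff]
  intro x hx
  have h2 : e.symm x ∈ N'.comap e.toMonoidHom := by
    rw [Subgroup.mem_comap]
    show e (e.symm x) ∈ N'
    rw [MulEquiv.apply_symm_apply]
    exact hx
  rw [h1, Subgroup.mem_bot] at h2
  rw [Subgroup.mem_bot]
  have h3 := congrArg e h2
  rwa [MulEquiv.apply_symm_apply, map_one] at h3

/-- The conclusion of the theorem. -/
def Concl (G : Type*) [Group G] : Prop :=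
  (∃ n : ℕ, 5 ≤ n ∧ n ≤ 8 ∧ Nonempty (G ≃* alternatingGroup (Fin n))) ∨
    Nonempty (G ≃* Equiv.Perm (Fin 5)) ∨ Nonempty (G ≃* Equiv.Perm (Fin 6)) ∨
    Nonempty (G ≃* GL (Fin 3) (ZMod 2))

theorem concl_of_mulEquiv {G G' : Type*} [Group G] [Group G'] (e : G ≃* G') (h : Concl G) :
    Concl G' := by
  rcases h with ⟨n, h5, h8, ⟨f⟩⟩ | ⟨⟨f⟩⟩ | ⟨⟨f⟩⟩ | ⟨⟨f⟩⟩
  · exact Or.inl ⟨n, h5, h8, ⟨e.symm.trans f⟩⟩
  · exact Or.inr (Or.inl ⟨e.symm.trans f⟩)
  · exact Or.inr (Or.inr (Or.inl ⟨e.symm.trans f⟩))
  · exact Or.inr (Or.inr (Or.inr ⟨e.symm.trans f⟩))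

/-- The statement to prove for a subgroup of `S₈`. -/
def Target (H : Subgroup S8) : Prop := H ≤ alternatingGroup (Fin 8) → NSN H → Concl H

theorem conj_target (H : Subgroup S8) (g : S8)
    (h : Target (H.map (MulAut.conj g).toMonoidHom)) : Target H := by
  intro hA hN
  let e : H ≃* H.map (MulAut.conj g).toMonoidHom :=
    H.equivMapOfInjective _ (MulAut.conj g).injective
  have hA' : H.map (MulAut.conj g).toMonoidHom ≤ alternatingGroup (Fin 8) := by
    rintro _ ⟨x, hx, rfl⟩
    show g * x * g⁻¹ ∈ alternatingGroup (Fin 8)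
    exact (inferInstance : (alternatingGroup (Fin 8)).Normal).conj_mem x (hA hx) g
  exact concl_of_mulEquiv e.symm (h hA' (nsn_of_mulEquiv e hN))

/-- `H` contains the permutations with the given codes. -/
def Has (gens : List ℕ) (H : Subgroup S8) : Prop := ∀ a ∈ gens, decP a ∈ H

/-- A Boolean test over a list. -/
def allG (f : ℕ → Bool) : List ℕ → Bool
  | [] => true
  | z :: l => and (f z) (allG f l)

theorem allG_sound {f : ℕ → Bool} : ∀ {l : List ℕ}, allG f l = true → ∀ z ∈ l, f z = true
  | [], _, z, hz => by simp at hz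
  | x :: l, h, z, hz => by
    rw [allG, Bool.and_eq_true] at h
    rcases List.mem_cons.mp hz with rfl | hz
    · exact h.1
    · exact allG_sound h.2 z hz

/-- Some word of the list evaluates to the target. -/
def anyW (env : List ℕ) : List (List ℕ) → ℕ → Bool
  | [], _ => false
  | w :: l, t => or (Nat.beq (evalW env w) t) (anyW env l t)

theorem anyW_sound {env : List ℕ} : ∀ {ws : List (List ℕ)} {t : ℕ}, anyW env ws t = true →
    ∃ w, evalW env w = t
  | [], t, h => by rw [anyW] at h; exact absurd h (by simp)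
  | w :: l, t, h => by
    rw [anyW, Bool.or_eq_true, beq_iff] at h
    rcases h with h | h
    · exact ⟨w, h⟩
    · exact anyW_sound h

/-- A table entry: the key (a canonical element of order `p`), the successor node `j` (`100`: the
element lies in the current group), a conjugating code and words. -/
structure Ent where
  /-- the key -/
  key : ℕ
  /-- the successor node -/
  j : ℕ
  /-- the conjugator -/
  g : ℕ
  /-- the words -/
  ws : List (List ℕ)

/-- Some entry of the list has the given key. -/
def anyKey : List Ent → ℕ → Bool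
  | [], _ => false
  | e :: l, m => or (Nat.beq e.key m) (anyKey l m)

theorem anyKey_sound : ∀ {l : List Ent} {m : ℕ}, anyKey l m = true → ∃ e ∈ l, e.key = m
  | [], m, h => by rw [anyKey] at h; exact absurd h (by simp)
  | e :: l, m, h => by
    rw [anyKey, Bool.or_eq_true, beq_iff] at h
    rcases h with h | h
    · exact ⟨e, List.mem_cons_self, h⟩
    · obtain ⟨e', he', hk⟩ := anyKey_sound h
      exact ⟨e', List.mem_cons_of_mem _ he', hk⟩

/-- Lookup of a key in a table bucketed by the first two digits. -/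
def hasKey (T : List (List (List Ent))) (m : ℕ) : Bool :=
  anyKey (nthD (nthD T (dg m 0) []) (dg m 1) []) m

theorem hasKey_sound {T : List (List (List Ent))} {m : ℕ} (h : hasKey T m = true) :
    ∃ e ∈ T.flatten.flatten, e.key = m := by
  unfold hasKey at h
  obtain ⟨e, he, hk⟩ := anyKey_sound h
  refine ⟨e, ?_, hk⟩
  rcases nthD_mem T (dg m 0) [] with h1 | h1
  · rcases nthD_mem (nthD T (dg m 0) []) (dg m 1) [] with h2 | h2
    · exact List.mem_flatten.mpr ⟨_, List.mem_flatten.mpr ⟨_, h1, h2⟩, he⟩
    · rw [h2] at he; simp at he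
  · rw [h1, nthD] at he
    simp at he

/-- The test of one table entry. -/
def entOK (gensOf : ℕ → List ℕ) (gens succ : List ℕ) (e : Ent) : Bool :=
  or (and (Nat.beq e.j 100) (anyW gens e.ws e.key))
    (and (memL succ e.j) (and (validC e.g)
      (allG (fun z => anyW (gens ++ [e.key]) e.ws (conjC e.g z)) (gensOf e.j))))

/-- The test of a whole table. -/
def tabOK (gensOf : ℕ → List ℕ) (gens succ : List ℕ) (T : List (List (List Ent))) : Bool :=
  T.all fun B => B.all fun C => C.all (entOK gensOf gens succ)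

theorem tabOK_sound {gensOf : ℕ → List ℕ} {gens succ : List ℕ} {T : List (List (List Ent))}
    (h : tabOK gensOf gens succ T = true) : ∀ e ∈ T.flatten.flatten, entOK gensOf gens succ e = true := by
  intro e he
  unfold tabOK at h
  rw [List.all_eq_true] at h
  obtain ⟨C, hC, heC⟩ := List.mem_flatten.mp he
  obtain ⟨B, hB, hCB⟩ := List.mem_flatten.mp hC
  have h1 := h B hB
  rw [List.all_eq_true] at h1
  have h2 := h1 C hCB
  rw [List.all_eq_true] at h2
  exact h2 e heC

/-- The smaller of two codes. -/
def minC (a b : ℕ) : ℕ := cond (Nat.ble a b) a b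

theorem minC_left {a b : ℕ} (h : a ≤ b) : minC a b = a := by
  unfold minC
  rw [Nat.ble_eq_true_of_le h]
  rfl

theorem minC_right {a b : ℕ} (h : b ≤ a) : minC a b = b := by
  rcases Nat.eq_or_lt_of_le h with h | h
  · rw [h, minC_left (le_refl _)]
  · unfold minC
    have : Nat.ble a b = false := by
      cases hb : Nat.ble a b
      · rfl
      · have := Nat.le_of_ble_eq_true hb
        omega
    rw [this]
    rfl

/-- The least code among the nontrivial powers. -/
def canonAux (a : ℕ) : ℕ → ℕ → ℕ → ℕ
  | 0, _, best => best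
  | k + 1, x, best => canonAux a k (mulC x a) (minC best (mulC x a))

/-- The canonical generator of the cyclic group of an element of order `p`. -/
def canonC (p a : ℕ) : ℕ := canonAux a (p - 2) a a

theorem canonAux_spec (σ : S8) : ∀ (n m : ℕ) (x best : ℕ), x = code (σ ^ m) → 1 ≤ m →
    (∃ k, 1 ≤ k ∧ k ≤ m ∧ best = code (σ ^ k)) →
    ∃ k, 1 ≤ k ∧ k ≤ m + n ∧ canonAux (code σ) n x best = code (σ ^ k)
  | 0, m, x, best, _, _, ⟨k, h1, h2, h3⟩ => ⟨k, h1, by omega, by rw [canonAux]; exact h3⟩
  | n + 1, m, x, best, hx, hm, ⟨k, h1, h2, h3⟩ => by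
    rw [canonAux]
    have hx' : mulC x (code σ) = code (σ ^ (m + 1)) := by rw [hx, ← code_mul, pow_succ]
    have hb : ∃ k, 1 ≤ k ∧ k ≤ m + 1 ∧ minC best (mulC x (code σ)) = code (σ ^ k) := by
      rcases Nat.le_total best (mulC x (code σ)) with h | h
      · exact ⟨k, h1, by omega, by rw [minC_left h]; exact h3⟩
      · exact ⟨m + 1, by omega, le_refl _, by rw [minC_right h]; exact hx'⟩
    obtain ⟨k', h1', h2', h3'⟩ := canonAux_spec σ n (m + 1) _ _ hx' (by omega) hb
    exact ⟨k', h1', by omega, h3'⟩

theorem canonC_spec (σ : S8) (p : ℕ) (hp : 2 ≤ p) :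
    ∃ k, 1 ≤ k ∧ k < p ∧ canonC p (code σ) = code (σ ^ k) := by
  obtain ⟨k, h1, h2, h3⟩ := canonAux_spec σ (p - 2) 1 (code σ) (code σ) (by rw [pow_one])
    (le_refl _) ⟨1, le_refl _, le_refl _, by rw [pow_one]⟩
  exact ⟨k, h1, by omega, h3⟩

/-- Coverage of the elements of order `p` by a table. -/
def cover (p : ℕ) (T : List (List (List Ent))) (a : ℕ) : Bool :=
  or (not (preP p a)) (hasKey T (canonC p a))

theorem map_code_decP {gens : List ℕ} (hv : allG validC gens = true) :
    (gens.map decP).map code = gens := by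
  rw [List.map_map]
  conv_rhs => rw [← List.map_id gens]
  apply List.map_congr_left
  intro a ha
  exact code_decP (allG_sound hv a ha)

theorem evalP_decP {gens : List ℕ} (hv : allG validC gens = true) (w : List ℕ) :
    code (evalP (gens.map decP) w) = evalW gens w := by
  rw [code_evalP, map_code_decP hv]

/-- One step of the chain argument: an element of order `p` of `H` lies in the current group,
or `H` contains a conjugate of a successor group. -/
theorem step_one (gensOf : ℕ → List ℕ) (p : ℕ) (hp : p.Prime) (gens : List ℕ)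
    (hv : allG validC gens = true) (T : List (List (List Ent))) (succ : List ℕ)
    (hcov : ∀ σ : S8, cover p T (code σ) = true)
    (htab : tabOK gensOf gens succ T = true)
    (hgv : ∀ j, memL succ j = true → allG validC (gensOf j) = true)
    (H : Subgroup S8) (hHas : Has gens H)
    (hsucc : ∀ j, memL succ j = true → ∀ H' : Subgroup S8, Has (gensOf j) H' → Target H')
    (σ : S8) (hσ : σ ∈ H) (hord : orderOf σ = p) :
    σ ∈ Subgroup.closure {x : S8 | ∃ a ∈ gens, x = decP a} ∨ Target H := by
  have hpre := preP_of_orderOf hp.one_lt σ hord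
  have hc := hcov σ
  unfold cover at hc
  rw [hpre] at hc
  simp only [Bool.not_true, Bool.false_or] at hc
  obtain ⟨e, heT, hkey⟩ := hasKey_sound hc
  obtain ⟨k, hk1, hkp, hcan⟩ := canonC_spec σ p hp.two_le
  rw [hcan] at hkey
  have hτH : σ ^ k ∈ H := H.pow_mem hσ k
  have hgensH : ∀ x ∈ gens.map decP, x ∈ H := by
    intro x hx
    obtain ⟨a, ha, rfl⟩ := List.mem_map.mp hx
    exact hHas a ha
  have hok := tabOK_sound htab e heT
  unfold entOK at hok
  rw [Bool.or_eq_true, Bool.and_eq_true, Bool.and_eq_true, Bool.and_eq_true] at hok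
  rcases hok with ⟨_, hw⟩ | ⟨hj, hvg, hall⟩
  · left
    obtain ⟨w, hw⟩ := anyW_sound hw
    have h1 : σ ^ k = evalP (gens.map decP) w := by
      apply code_injective
      rw [evalP_decP hv, hw, hkey]
    have h2 : σ ^ k ∈ Subgroup.closure {x : S8 | ∃ a ∈ gens, x = decP a} := by
      rw [h1]
      apply evalP_mem
      intro x hx
      obtain ⟨a, ha, rfl⟩ := List.mem_map.mp hx
      exact Subgroup.subset_closure ⟨a, ha, rfl⟩
    have hcop : k.Coprime (orderOf σ) := by
      rw [hord]
      exact (Nat.coprime_comm.mp ((Nat.Prime.coprime_iff_not_dvd hp).mpr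
        (fun hd => by have := Nat.le_of_dvd (by omega) hd; omega)))
    obtain ⟨m, hm⟩ := exists_pow_eq_self_of_coprime hcop
    rw [← hm]
    exact Subgroup.pow_mem _ h2 m
  · right
    apply conj_target H (decP e.g)⁻¹
    apply hsucc e.j hj
    intro z hz
    have hzv := allG_sound (hgv e.j hj) z hz
    obtain ⟨w, hw⟩ := anyW_sound (allG_sound hall z hz)
    set x := evalP (gens.map decP ++ [σ ^ k]) w with hx
    have hxH : x ∈ H := by
      apply evalP_mem
      intro y hy
      rcases List.mem_append.mp hy with hy | hy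
      · exact hgensH y hy
      · rw [List.mem_singleton.mp hy]; exact hτH
    have hcode : code x = conjC e.g z := by
      rw [hx, code_evalP, List.map_append, map_code_decP hv, List.map_singleton, ← hkey, hw]
    have hx2 : x = decP e.g * decP z * (decP e.g)⁻¹ := by
      apply code_injective
      rw [hcode, code_conj, code_decP hvg, code_decP hzv]
    refine ⟨x, hxH, ?_⟩
    show (decP e.g)⁻¹ * x * (decP e.g)⁻¹⁻¹ = decP z
    rw [hx2]
    group

end Cfsg.Agent.H61.A8
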