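import Mathlib
import Cfsg.Prelude.Def_Solvable
import Cfsg.Agent.H61.A8Lemmas
import Cfsg.Agent.H4.PaQb

/-!
# Subgroups of `A₈` without solvable normal subgroups: the terminal cases (helper61)
-/

set_option autoImplicit false

namespace Cfsg.Agent.H61.A8

/-- Evaluate a number before passing it on (this shares the computation in the kernel). -/
def seqN {α : Type} (c : ℕ) (f : ℕ → α) : α :=
  match c with
  | 0 => f 0
  | n + 1 => f (n + 1)

theorem seqN_eq {α : Type} (c : ℕ) (f : ℕ → α) : seqN c f = f c := by
  cases c <;> rfl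

/-- The group generated by the permutations with the given codes. -/
def grp (gens : List ℕ) : Subgroup S8 := Subgroup.closure {x : S8 | ∃ a ∈ gens, x = decP a}

theorem grp_le {gens : List ℕ} {H : Subgroup S8} (h : Has gens H) : grp gens ≤ H := by
  unfold grp
  rw [Subgroup.closure_le]
  rintro x ⟨a, ha, rfl⟩
  exact h a ha

theorem decP_mem_grp {gens : List ℕ} {a : ℕ} (ha : a ∈ gens) : decP a ∈ grp gens :=
  Subgroup.subset_closure ⟨a, ha, rfl⟩

theorem evalP_mem_grp (gens : List ℕ) (w : List ℕ) : evalP (gens.map decP) w ∈ grp gens := by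
  apply evalP_mem
  intro x hx
  obtain ⟨a, ha, rfl⟩ := List.mem_map.mp hx
  exact decP_mem_grp ha

theorem all3_sound {α : Type} {f : α → Bool} {T : List (List (List α))}
    (h : (T.all fun B => B.all fun C => C.all f) = true) :
    ∀ e ∈ T.flatten.flatten, f e = true := by
  intro e he
  rw [List.all_eq_true] at h
  obtain ⟨C, hC, heC⟩ := List.mem_flatten.mp he
  obtain ⟨B, hB, hCB⟩ := List.mem_flatten.mp hC
  have h1 := h B hB
  rw [List.all_eq_true] at h1
  have h2 := h1 C hCB
  rw [List.all_eq_true] at h2
  exact h2 e heC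

/-- The list of codes is closed under left multiplication by the generators. -/
def closedB (gens : List ℕ) (LL : List (List (List ℕ))) : Bool :=
  and (memB LL idC)
    (allG (fun z => LL.all fun B => B.all fun C => C.all fun x => memB LL (mulC z x)) gens)

theorem closure_codes {gens : List ℕ} {LL : List (List (List ℕ))}
    (hv : allG validC gens = true) (h : closedB gens LL = true) :
    ∀ x ∈ grp gens, memB LL (code x) = true := by
  unfold closedB at h
  rw [Bool.and_eq_true] at h
  intro x hx
  obtain ⟨t, ht, u, hu, e⟩ := Cfsg.Agent.H61.closure_subset_mul {x : S8 | ∃ a ∈ gens, x = decP a}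
    {x : S8 | memB LL (code x) = true} ⊥
    (by show memB LL (code 1) = true; rw [code_one]; exact h.1)
    (by
      rintro g ⟨a, ha, rfl⟩ t ht
      refine ⟨decP a * t, ?_, 1, Subgroup.one_mem _, (mul_one _).symm⟩
      show memB LL (code (decP a * t)) = true
      rw [code_mul, code_decP (allG_sound hv a ha)]
      have h3 := allG_sound h.2 a ha
      exact all3_sound h3 _ (memB_flatten ht)) x hx
  rw [Subgroup.mem_bot] at hu
  rw [e, hu, mul_one]
  exact ht

theorem allG_intro {f : ℕ → Bool} : ∀ {l : List ℕ}, (∀ z ∈ l, f z = true) → allG f l = true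
  | [], _ => rfl
  | x :: l, h => by
    rw [allG, Bool.and_eq_true]
    exact ⟨h x List.mem_cons_self, allG_intro fun z hz => h z (List.mem_cons_of_mem _ hz)⟩

theorem orderOf_decP {p a : ℕ} (hp : p.Prime) (hv : validC a = true) (h : preP p a = true) :
    orderOf (decP a) = p := by
  haveI : Fact p.Prime := ⟨hp⟩
  unfold preP at h
  rw [Bool.and_eq_true, Bool.not_eq_true'] at h
  apply orderOf_eq_prime
  · apply Equiv.ext
    intro x
    apply Fin.ext
    have h1 := all8_spec h.2 x.val x.isLt
    rw [beq_iff] at h1
    have h2 := iterC_code (decP a) p x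
    rw [code_decP hv, h1] at h2
    rw [← h2]
    rfl
  · intro e
    have h3 := code_decP hv
    rw [e, code_one] at h3
    rw [← h3, Nat.beq_refl] at h
    exact absurd h.1 (by simp)

/-- The normalizer test. -/
def nrmB (gens : List ℕ) (LL : List (List (List ℕ))) (a : ℕ) : Bool :=
  allG (fun z => memB LL (conjC a z)) gens

theorem nrm_of_terminal {p : ℕ} {gens : List ℕ} {LL : List (List (List ℕ))} (hp : p.Prime)
    (hv : allG validC gens = true) (hord : allG (preP p) gens = true)
    (hcl : closedB gens LL = true) (H : Subgroup S8) (hHas : Has gens H)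
    (hT : ∀ σ ∈ H, orderOf σ = p → σ ∈ grp gens) :
    ∀ h ∈ H, nrmB gens LL (code h) = true := by
  intro h hh
  apply allG_intro
  intro z hz
  have hzv := allG_sound hv z hz
  have ho : orderOf (h * decP z * h⁻¹) = p := by
    have := (MulAut.conj h).orderOf_eq (decP z)
    rw [MulAut.conj_apply] at this
    rw [this]
    exact orderOf_decP hp hzv (allG_sound hord z hz)
  have hm := hT _ (H.mul_mem (H.mul_mem hh (hHas z hz)) (H.inv_mem hh)) ho
  have := closure_codes hv hcl _ hm
  rwa [code_conj, code_decP hzv] at this

theorem not_nsn_of_abelian {G : Type*} [Group G] (H M : Subgroup G) (hM : M ≤ H)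
    (hnorm : ∀ h ∈ H, ∀ x ∈ M, h * x * h⁻¹ ∈ M) (hcomm : ∀ a ∈ M, ∀ b ∈ M, a * b = b * a)
    (hne : M ≠ ⊥) : ¬ NSN H := by
  intro hN
  have hn : (M.subgroupOf H).Normal := by
    constructor
    intro n hn g
    rw [Subgroup.mem_subgroupOf] at hn ⊢
    exact hnorm g g.2 n hn
  have hs : Group.IsSolvable (M.subgroupOf H) := by
    apply Group.isSolvable_of_comm
    intro a b
    apply Subtype.ext
    apply Subtype.ext
    exact hcomm a.1.1 (Subgroup.mem_subgroupOf.mp a.2) b.1.1 (Subgroup.mem_subgroupOf.mp b.2)
  have h0 := hN _ hn hs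
  apply hne
  rw [eq_bot_iff]
  intro x hx
  have h1 : (⟨x, hM hx⟩ : H) ∈ M.subgroupOf H := Subgroup.mem_subgroupOf.mpr hx
  rw [h0, Subgroup.mem_bot] at h1
  rw [Subgroup.mem_bot]
  exact congrArg Subtype.val h1

theorem conj_closure {G : Type*} [Group G] (S : Set G) (h : G)
    (hS : ∀ g ∈ S, h * g * h⁻¹ ∈ Subgroup.closure S) :
    ∀ x ∈ Subgroup.closure S, h * x * h⁻¹ ∈ Subgroup.closure S := by
  have : Subgroup.closure S ≤ (Subgroup.closure S).comap (MulAut.conj h).toMonoidHom := by
    rw [Subgroup.closure_le]
    intro g hg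
    exact hS g hg
  intro x hx
  exact this hx

theorem comm_closure {G : Type*} [Group G] (S : Set G) (h : ∀ x ∈ S, ∀ y ∈ S, x * y = y * x) :
    ∀ a ∈ Subgroup.closure S, ∀ b ∈ Subgroup.closure S, a * b = b * a := by
  have h1 : Subgroup.closure S ≤ Subgroup.centralizer S := by
    rw [Subgroup.closure_le]
    intro x hx
    rw [SetLike.mem_coe, Subgroup.mem_centralizer_iff]
    intro y hy
    exact h y hy x hx
  have h2 : Subgroup.closure S ≤ Subgroup.centralizer (Subgroup.closure S : Set G) := by
    rw [Subgroup.closure_le]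
    intro x hx
    rw [SetLike.mem_coe, Subgroup.mem_centralizer_iff]
    intro y hy
    have := Subgroup.mem_centralizer_iff.mp (h1 hy) x hx
    exact this.symm
  intro a ha b hb
  exact Subgroup.mem_centralizer_iff.mp (h2 hb) a ha

/-- The test that the normalizer of the current group normalizes an abelian subgroup. -/
def nrmE (gens : List ℕ) (LL : List (List (List ℕ))) (gensE : List ℕ) (wsE : List (List ℕ))
    (a : ℕ) : Bool :=
  or (not (nrmB gens LL a)) (allG (fun e => anyW gensE wsE (conjC a e)) gensE)

theorem term_E {p : ℕ} {gens : List ℕ} {LL : List (List (List ℕ))} (hp : p.Prime)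
    (hv : allG validC gens = true) (hord : allG (preP p) gens = true)
    (hcl : closedB gens LL = true) (gensE : List ℕ) (e0 : ℕ) (he0 : e0 ∈ gensE) (hne : e0 ≠ idC)
    (hvE : allG validC gensE = true) (wsK wsE : List (List ℕ))
    (hEK : allG (fun e => anyW gens wsK e) gensE = true)
    (hcomm : allG (fun e => allG (fun f => Nat.beq (mulC e f) (mulC f e)) gensE) gensE = true)
    (hnrm : ∀ σ : S8, nrmE gens LL gensE wsE (code σ) = true)
    (H : Subgroup S8) (hHas : Has gens H)
    (hT : ∀ σ ∈ H, orderOf σ = p → σ ∈ grp gens) : ¬ NSN H := by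
  have hEle : grp gensE ≤ grp gens := by
    show Subgroup.closure {x : S8 | ∃ a ∈ gensE, x = decP a} ≤ grp gens
    rw [Subgroup.closure_le]
    rintro x ⟨e, he, rfl⟩
    obtain ⟨w, hw⟩ := anyW_sound (allG_sound hEK e he)
    have : decP e = evalP (gens.map decP) w := by
      apply code_injective
      rw [evalP_decP hv, hw, code_decP (allG_sound hvE e he)]
    rw [this]
    exact evalP_mem_grp gens w
  apply not_nsn_of_abelian H (grp gensE) (hEle.trans (grp_le hHas))
  · intro h hh
    apply conj_closure
    rintro g ⟨e, he, rfl⟩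
    have h1 := nrm_of_terminal hp hv hord hcl H hHas hT h hh
    have h2 := hnrm h
    unfold nrmE at h2
    rw [h1] at h2
    simp only [Bool.not_true, Bool.false_or] at h2
    obtain ⟨w, hw⟩ := anyW_sound (allG_sound h2 e he)
    have : h * decP e * h⁻¹ = evalP (gensE.map decP) w := by
      apply code_injective
      rw [evalP_decP hvE, hw, code_conj, code_decP (allG_sound hvE e he)]
    rw [this]
    exact evalP_mem_grp gensE w
  · apply comm_closure
    rintro x ⟨e, he, rfl⟩ y ⟨f, hf, rfl⟩
    apply code_injective
    rw [code_mul, code_mul, code_decP (allG_sound hvE e he), code_decP (allG_sound hvE f hf)]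
    exact Nat.eq_of_beq_eq_true (allG_sound (allG_sound hcomm e he) f hf)
  · intro hbot
    have h1 : decP e0 ∈ grp gensE := decP_mem_grp he0
    rw [hbot, Subgroup.mem_bot] at h1
    apply hne
    rw [← code_decP (allG_sound hvE e0 he0), h1, code_one]

theorem card_le_of_codes {X : Type} [Finite X] (f : X → ℕ) (hf : Function.Injective f)
    (L : List ℕ) (h : ∀ x, f x ∈ L) : Nat.card X ≤ L.length := by
  classical
  haveI := Fintype.ofFinite X
  have h1 : Nat.card X = (Finset.univ.image f).card := by
    rw [Finset.card_image_of_injective _ hf, Finset.card_univ, Nat.card_eq_fintype_card]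
  rw [h1]
  calc (Finset.univ.image f).card ≤ L.toFinset.card := by
        apply Finset.card_le_card
        intro n hn
        rw [Finset.mem_image] at hn
        obtain ⟨x, _, rfl⟩ := hn
        rw [List.mem_toFinset]
        exact h x
    _ ≤ L.length := List.toFinset_card_le L

theorem card_ge_of_words {gens : List ℕ} (hv : allG validC gens = true) (WL : List (List ℕ))
    (hnd : nodupB (WL.map (evalW gens)) = true) : WL.length ≤ Nat.card (grp gens) := by
  have hnd' := nodupB_sound hnd
  let f : Fin WL.length → grp gens := fun i =>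
    ⟨evalP (gens.map decP) (WL[i.val]), evalP_mem_grp gens _⟩
  have hf : Function.Injective f := by
    intro i j hij
    have h1 : evalP (gens.map decP) (WL[i.val]) = evalP (gens.map decP) (WL[j.val]) :=
      congrArg Subtype.val hij
    have h2 := congrArg code h1
    rw [evalP_decP hv, evalP_decP hv] at h2
    have hi : i.val < (WL.map (evalW gens)).length := by rw [List.length_map]; exact i.isLt
    have hj : j.val < (WL.map (evalW gens)).length := by rw [List.length_map]; exact j.isLt
    have h3 : (WL.map (evalW gens))[i.val] = (WL.map (evalW gens))[j.val] := by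
      rw [List.getElem_map, List.getElem_map]
      exact h2
    exact Fin.ext ((hnd'.getElem_inj_iff).mp h3)
  have := Nat.card_le_card_of_injective f hf
  rwa [Nat.card_fin] at this

end Cfsg.Agent.H61.A8
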