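import Mathlib
import Cfsg.Prelude.Def_Solvable
import Cfsg.Agent.H61.A8Term
import Cfsg.Agent.H4.PaQb
import Cfsg.Agent.H6.A7GL
import Cfsg.Agent.S0495

/-!
# Subgroups of `A₈` without solvable normal subgroups: recognition lemmas (helper61)
-/

set_option autoImplicit false

namespace Cfsg.Agent.H61.A8

open Matrix

/-! ### Groups of order `168` -/

theorem simple_of_168 {G : Type} [Group G] [Finite G] (hc : Nat.card G = 168) (hN : NSN G)
    (hgen : ∀ N : Subgroup G, N.Normal → (∀ x : G, x ^ 7 = 1 → x ∈ N) → N = ⊤) :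
    IsSimpleGroup G := by
  have hnt : Nontrivial G := Finite.one_lt_card_iff_nontrivial.mp (by rw [hc]; norm_num)
  refine { toNontrivial := hnt, eq_bot_or_eq_top_of_normal := ?_ }
  intro N hNn
  have hmul : Nat.card G = Nat.card (G ⧸ N) * Nat.card N :=
    Subgroup.card_eq_card_quotient_mul_card_subgroup N
  rw [hc] at hmul
  by_cases h7d : 7 ∣ Nat.card N
  · right
    obtain ⟨k, hk⟩ := h7d
    have hq : Nat.card (G ⧸ N) ∣ 24 := by
      refine ⟨k, ?_⟩
      rw [hk] at hmul
      have : 7 * 24 = 7 * (Nat.card (G ⧸ N) * k) := by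
        calc 7 * 24 = 168 := by norm_num
          _ = Nat.card (G ⧸ N) * (7 * k) := hmul
          _ = 7 * (Nat.card (G ⧸ N) * k) := by ring
      exact Nat.eq_of_mul_eq_mul_left (by norm_num) this
    apply hgen N hNn
    intro x hx
    have h1 : (QuotientGroup.mk x : G ⧸ N) ^ 7 = 1 := by
      rw [← QuotientGroup.mk_pow, hx]
      rfl
    have h2 : orderOf (QuotientGroup.mk x : G ⧸ N) ∣ 7 := orderOf_dvd_of_pow_eq_one h1
    have h3 : orderOf (QuotientGroup.mk x : G ⧸ N) ∣ 24 := (orderOf_dvd_natCard _).trans hq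
    have h4 : orderOf (QuotientGroup.mk x : G ⧸ N) ∣ Nat.gcd 7 24 := Nat.dvd_gcd h2 h3
    have h5 : orderOf (QuotientGroup.mk x : G ⧸ N) = 1 := by
      have : Nat.gcd 7 24 = 1 := by norm_num
      rw [this] at h4
      exact Nat.dvd_one.mp h4
    rw [orderOf_eq_one_iff] at h5
    exact (QuotientGroup.eq_one_iff x).mp h5
  · left
    have hcop : Nat.Coprime (Nat.card N) 7 :=
      Nat.Coprime.symm ((Nat.Prime.coprime_iff_not_dvd (by norm_num)).mpr h7d)
    have hd : Nat.card N ∣ 24 * 7 :=
      ⟨Nat.card (G ⧸ N), (by norm_num : 24 * 7 = 168).trans (hmul.trans (mul_comm _ _))⟩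
    have hd2 : Nat.card N ∣ 2 ^ 3 * 3 ^ 1 := hcop.dvd_of_dvd_mul_right hd
    obtain ⟨i, j, hij⟩ := Cfsg.Agent.H4.dvd_prime_pow_mul_prime_pow Nat.prime_two
      Nat.prime_three hd2
    exact hN N hNn (Cfsg.Agent.H4.isSolvable_of_card_eq_prime_pow_mul_prime_pow 2 3 i j
      Nat.prime_two Nat.prime_three hij)

theorem gl32_card : Nat.card (GL (Fin 3) (ZMod 2)) = 168 := by
  rw [Matrix.card_GL_field, ZMod.card, Fin.prod_univ_three]
  rfl

theorem zmod2_det_one (A : GL (Fin 3) (ZMod 2)) : (A : Matrix (Fin 3) (Fin 3) (ZMod 2)).det = 1 := by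
  have h : IsUnit (A : Matrix (Fin 3) (Fin 3) (ZMod 2)).det :=
    (Matrix.isUnit_iff_isUnit_det _).mp A.isUnit
  have h2 : ∀ x : ZMod 2, IsUnit x → x = 1 := by decide
  exact h2 _ h

theorem gl32_simple : IsSimpleGroup (GL (Fin 3) (ZMod 2)) := by
  have hs : IsSimpleGroup (Matrix.ProjectiveSpecialLinearGroup (Fin 3) (ZMod 2)) :=
    Cfsg.Agent.H6.psl_isSimpleGroup (F := ZMod 2) 3 (le_refl _)
  have hc : Subgroup.center (Matrix.SpecialLinearGroup (Fin 3) (ZMod 2)) = ⊥ := by
    apply Subgroup.eq_bot_of_card_eq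
    rw [Cfsg.Agent.H6.card_center_sl (F := ZMod 2) (q := 2) (ZMod.card 2) 3 (by norm_num)]
    rfl
  have hsl : IsSimpleGroup (Matrix.SpecialLinearGroup (Fin 3) (ZMod 2)) := by
    have e : Matrix.SpecialLinearGroup (Fin 3) (ZMod 2) ≃*
        Matrix.ProjectiveSpecialLinearGroup (Fin 3) (ZMod 2) :=
      (QuotientGroup.quotientBot.symm).trans (QuotientGroup.quotientMulEquivOfEq hc.symm)
    exact e.isSimpleGroup
  have hnt : Nontrivial (GL (Fin 3) (ZMod 2)) :=
    Finite.one_lt_card_iff_nontrivial.mp (by rw [gl32_card]; norm_num)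
  apply IsSimpleGroup.isSimpleGroup_of_surjective
    (Matrix.SpecialLinearGroup.toGL : Matrix.SpecialLinearGroup (Fin 3) (ZMod 2) →* _)
  intro A
  refine ⟨⟨(A : Matrix (Fin 3) (Fin 3) (ZMod 2)), zmod2_det_one A⟩, ?_⟩
  apply Units.ext
  rfl

theorem iso_gl32_of_168 {G : Type} [Group G] [Finite G] (hc : Nat.card G = 168) (hN : NSN G)
    (hgen : ∀ N : Subgroup G, N.Normal → (∀ x : G, x ^ 7 = 1 → x ∈ N) → N = ⊤) :
    Nonempty (G ≃* GL (Fin 3) (ZMod 2)) := by
  have h1 := simple_of_168 hc hN hgen
  have h2 := gl32_simple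
  have : Fact (Nat.Prime 7) := ⟨by norm_num⟩
  obtain ⟨e1⟩ := Cfsg.Agent.S0495.result hc (F := ZMod 7) (ZMod.card 7)
  obtain ⟨e2⟩ := Cfsg.Agent.S0495.result gl32_card (F := ZMod 7) (ZMod.card 7)
  exact ⟨e1.trans e2.symm⟩

/-! ### Actions and recognition of alternating and symmetric groups -/

theorem exists_hom_of_action {G α : Type} [Group G] (ρ : G →* Equiv.Perm α)
    (p : α → Prop) (n : ℕ) (e : {x // p x} ≃ Fin n) (hinv : ∀ g x, p x → p (ρ g x)) :
    ∃ ψ : G →* Equiv.Perm (Fin n), ∀ g, ψ g = 1 → ∀ x, p x → ρ g x = x := by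
  have hiff : ∀ g x, p (ρ g x) ↔ p x := fun g x =>
    ⟨fun h => by
      have := hinv g⁻¹ _ h
      rw [map_inv] at this
      have h2 : (ρ g)⁻¹ ((ρ g) x) = x := (ρ g).symm_apply_apply x
      rwa [h2] at this, hinv g x⟩
  let ψ₀ : G →* Equiv.Perm {x // p x} :=
    { toFun := fun g => (ρ g).subtypePerm (hiff g)
      map_one' := by
        apply Equiv.ext
        intro x
        apply Subtype.ext
        show (ρ 1) x.1 = x.1
        rw [map_one]
        rfl
      map_mul' := by
        intro a b
        apply Equiv.ext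
        intro x
        apply Subtype.ext
        show (ρ (a * b)) x.1 = (ρ a) ((ρ b) x.1)
        rw [map_mul]
        rfl }
  refine ⟨e.permCongrHom.toMonoidHom.comp ψ₀, ?_⟩
  intro g hg x hx
  have h1 : e.permCongrHom (ψ₀ g) = 1 := hg
  have h2 : ψ₀ g = 1 := by
    apply e.permCongrHom.injective
    rw [h1, map_one]
  have h3 : (ψ₀ g ⟨x, hx⟩).val = x := by rw [h2]; rfl
  exact h3

theorem alt_or_sym {G : Type} [Group G] [Finite G] (n : ℕ) (ψ : G →* Equiv.Perm (Fin n))
    (hinj : Function.Injective ψ) (hcard : n.factorial ≤ 2 * Nat.card G) :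
    Nonempty (G ≃* alternatingGroup (Fin n)) ∨ Nonempty (G ≃* Equiv.Perm (Fin n)) := by
  have h1 : Nat.card ψ.range = Nat.card G :=
    (Nat.card_congr (MonoidHom.ofInjective hinj).toEquiv).symm
  have h2 := Subgroup.card_mul_index ψ.range
  rw [h1, Nat.card_perm, Nat.card_fin] at h2
  have hpos : 0 < Nat.card G := Nat.card_pos
  have hi : ψ.range.index = 1 ∨ ψ.range.index = 2 := by
    have h0 : ψ.range.index ≠ 0 := Subgroup.index_ne_zero_of_finite
    by_contra hcon
    have h3 : 3 ≤ ψ.range.index := by omega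
    have h4 : Nat.card G * 3 ≤ Nat.card G * ψ.range.index := Nat.mul_le_mul_left _ h3
    omega
  rcases hi with hi | hi
  · right
    have h3 : ψ.range = ⊤ := Subgroup.index_eq_one.mp hi
    exact ⟨(MonoidHom.ofInjective hinj).trans ((MulEquiv.subgroupCongr h3).trans Subgroup.topEquiv)⟩
  · left
    have h3 : ψ.range = alternatingGroup (Fin n) :=
      Equiv.Perm.eq_alternatingGroup_of_index_eq_two hi
    exact ⟨(MonoidHom.ofInjective hinj).trans (MulEquiv.subgroupCongr h3)⟩

theorem solvable_of_card_le_six {G : Type} [Group G] [Finite G] (h : Nat.card G ≤ 6) :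
    Group.IsSolvable G := by
  have hpos : 0 < Nat.card G := Nat.card_pos
  have key : ∃ p q a b : ℕ, p.Prime ∧ q.Prime ∧ Nat.card G = p ^ a * q ^ b := by
    interval_cases hc : Nat.card G
    · exact ⟨2, 3, 0, 0, Nat.prime_two, Nat.prime_three, rfl⟩
    · exact ⟨2, 3, 1, 0, Nat.prime_two, Nat.prime_three, rfl⟩
    · exact ⟨2, 3, 0, 1, Nat.prime_two, Nat.prime_three, rfl⟩
    · exact ⟨2, 3, 2, 0, Nat.prime_two, Nat.prime_three, rfl⟩
    · exact ⟨5, 2, 1, 0, Nat.prime_five, Nat.prime_two, rfl⟩
    · exact ⟨2, 3, 1, 1, Nat.prime_two, Nat.prime_three, rfl⟩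
  obtain ⟨p, q, a, b, hp, hq, hc⟩ := key
  exact Cfsg.Agent.H4.isSolvable_of_card_eq_prime_pow_mul_prime_pow p q a b hp hq hc

theorem term_act {G : Type} [Group G] [Finite G] (hN : NSN G) (n : ℕ)
    (ψ : G →* Equiv.Perm (Fin n)) (hker : Nat.card ψ.ker ≤ 6)
    (hcard : n.factorial ≤ 2 * Nat.card G) :
    Nonempty (G ≃* alternatingGroup (Fin n)) ∨ Nonempty (G ≃* Equiv.Perm (Fin n)) := by
  have h1 : ψ.ker = ⊥ := hN ψ.ker inferInstance (solvable_of_card_le_six hker)
  exact alt_or_sym n ψ ((MonoidHom.ker_eq_bot_iff ψ).mp h1) hcard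

/-! ### Codes of a group given with words -/

theorem mem_grp_of_code {gens : List ℕ} {LL : List (List (List ℕ))}
    (hv : allG validC gens = true) (hcl : closedB gens LL = true) (WL : List (List ℕ))
    (hnd : nodupB (WL.map (evalW gens)) = true) (hlen : LL.flatten.flatten.length ≤ WL.length) :
    ∀ σ : S8, memB LL (code σ) = true → σ ∈ grp gens := by
  classical
  intro σ hσ
  let F : Finset ℕ := Finset.univ.image (fun g : grp gens => code g.1)
  have hinj : Function.Injective (fun g : grp gens => code g.1) :=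
    fun a b hab => Subtype.ext (code_injective hab)
  have hF : F ⊆ LL.flatten.flatten.toFinset := by
    intro n hn
    obtain ⟨g, _, rfl⟩ := Finset.mem_image.mp hn
    rw [List.mem_toFinset]
    exact memB_flatten (closure_codes hv hcl g.1 g.2)
  have hcF : F.card = Nat.card (grp gens) := by
    rw [Finset.card_image_of_injective _ hinj, Finset.card_univ, Nat.card_eq_fintype_card]
  have h1 := card_ge_of_words hv WL hnd
  have h2 := List.toFinset_card_le LL.flatten.flatten
  have hFe : F = LL.flatten.flatten.toFinset := Finset.eq_of_subset_of_card_le hF (by omega)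
  have h3 : code σ ∈ F := by
    rw [hFe, List.mem_toFinset]
    exact memB_flatten hσ
  obtain ⟨g, _, hg⟩ := Finset.mem_image.mp h3
  have : g.1 = σ := code_injective hg
  rw [← this]
  exact g.2

/-! ### The case `H = K` of order `168` -/

/-- The test for the self-normalizing case: the normalizer is `K ∪ K t`. -/
def sub168 (gens : List ℕ) (LL : List (List (List ℕ))) (t a : ℕ) : Bool :=
  or (not (nrmB gens LL a)) (or (memB LL a) (memB LL (mulC a t)))

theorem term_168 {gens : List ℕ} {LL : List (List (List ℕ))}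
    (hv : allG validC gens = true) (hord : allG (preP 7) gens = true)
    (hcl : closedB gens LL = true) (hlen : LL.flatten.flatten.length = 168)
    (t : ℕ) (htv : validC t = true) (hodd : Equiv.Perm.sign (decP t) = -1)
    (hchk : ∀ σ : S8, sub168 gens LL t (code σ) = true)
    (WL : List (List ℕ)) (hnd : nodupB (WL.map (evalW gens)) = true) (hWL : WL.length = 168)
    (H : Subgroup S8) (hHas : Has gens H)
    (hT : ∀ σ ∈ H, orderOf σ = 7 → σ ∈ grp gens) (hA : H ≤ alternatingGroup (Fin 8))
    (hN : NSN H) : Concl H := by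
  have hp7 : Nat.Prime 7 := by norm_num
  have hnrm := nrm_of_terminal hp7 hv hord hcl H hHas hT
  have hmem := mem_grp_of_code hv hcl WL hnd (by omega)
  have hle : H ≤ grp gens := by
    intro h hh
    have h1 := hchk h
    unfold sub168 at h1
    rw [hnrm h hh] at h1
    simp only [Bool.not_true, Bool.false_or, Bool.or_eq_true] at h1
    rcases h1 with h1 | h1
    · exact hmem h h1
    · exfalso
      rw [← code_decP htv, ← code_mul] at h1
      have h2 : h * decP t ∈ alternatingGroup (Fin 8) := hA (grp_le hHas (hmem _ h1))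
      have h3 : h ∈ alternatingGroup (Fin 8) := hA hh
      rw [Equiv.Perm.mem_alternatingGroup] at h2 h3
      rw [Equiv.Perm.sign_mul, h3, hodd] at h2
      exact absurd h2 (by decide)
  have hcard : Nat.card H = 168 := by
    have h1 := card_ge_of_words hv WL hnd
    have h2 : Nat.card (grp gens) ≤ Nat.card H := Subgroup.card_le_of_le (grp_le hHas)
    have h3 : Nat.card H ≤ LL.flatten.flatten.length :=
      card_le_of_codes (fun x : H => code x.1) (fun a b hab => Subtype.ext (code_injective hab)) _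
        (fun x => memB_flatten (closure_codes hv hcl x.1 (hle x.2)))
    omega
  refine Or.inr (Or.inr (Or.inr (iso_gl32_of_168 hcard hN ?_)))
  intro N hNn hx7
  rw [eq_top_iff]
  intro x _
  have h1 : grp gens ≤ N.map H.subtype := by
    show Subgroup.closure {x : S8 | ∃ a ∈ gens, x = decP a} ≤ N.map H.subtype
    rw [Subgroup.closure_le]
    rintro y ⟨a, ha, rfl⟩
    refine ⟨⟨decP a, hHas a ha⟩, hx7 _ ?_, rfl⟩
    apply Subtype.ext
    show decP a ^ 7 = 1
    rw [← orderOf_decP hp7 (allG_sound hv a ha) (allG_sound hord a ha)]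
    exact pow_orderOf_eq_one _
  obtain ⟨y, hy, hyx⟩ := h1 (hle x.2)
  have : y = x := Subtype.ext hyx
  rw [← this]
  exact hy

/-! ### Point actions -/

theorem all8_intro {f : ℕ → Bool} (h : ∀ i, i < 8 → f i = true) : all8 f = true := by
  unfold all8
  simp only [Bool.and_eq_true]
  exact ⟨h 0 (by norm_num), h 1 (by norm_num), h 2 (by norm_num), h 3 (by norm_num),
    h 4 (by norm_num), h 5 (by norm_num), h 6 (by norm_num), h 7 (by norm_num)⟩

/-- The digits below `n` stay below `n`. -/
def stabB (n a : ℕ) : Bool := all8 fun i => or (Nat.ble n i) (Nat.ble (Nat.succ (dg a i)) n)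

/-- The digits below `n` are fixed. -/
def fixB (n a : ℕ) : Bool := all8 fun i => or (Nat.ble n i) (Nat.beq (dg a i) i)

/-- The test for the action on the first `n` points. -/
def ptsB (gens : List ℕ) (LL : List (List (List ℕ))) (n : ℕ) (Lker : List ℕ) (a : ℕ) : Bool :=
  or (not (nrmB gens LL a)) (and (stabB n a) (or (not (fixB n a)) (memL Lker a)))

theorem card_lt_subtype (n : ℕ) (hn : n = 5 ∨ n = 6) :
    Nat.card {i : Fin 8 // i.val < n} = n := by
  rw [Nat.card_eq_fintype_card]
  rcases hn with rfl | rfl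
  · decide
  · decide

theorem term_pts {p : ℕ} {gens : List ℕ} {LL : List (List (List ℕ))} (hp : p.Prime)
    (hv : allG validC gens = true) (hord : allG (preP p) gens = true)
    (hcl : closedB gens LL = true) (n : ℕ) (hn : n = 5 ∨ n = 6) (Lker : List ℕ)
    (hLk : Lker.length ≤ 6) (hchk : ∀ σ : S8, ptsB gens LL n Lker (code σ) = true)
    (WL : List (List ℕ)) (hnd : nodupB (WL.map (evalW gens)) = true)
    (hWL : n.factorial ≤ 2 * WL.length)
    (H : Subgroup S8) (hHas : Has gens H)
    (hT : ∀ σ ∈ H, orderOf σ = p → σ ∈ grp gens) (hN : NSN H) : Concl H := by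
  have hnrm := nrm_of_terminal hp hv hord hcl H hHas hT
  have hst : ∀ h ∈ H, stabB n (code h) = true ∧
      (fixB n (code h) = true → memL Lker (code h) = true) := by
    intro h hh
    have h1 := hchk h
    unfold ptsB at h1
    rw [hnrm h hh] at h1
    simp only [Bool.not_true, Bool.false_or, Bool.and_eq_true, Bool.or_eq_true,
      Bool.not_eq_true'] at h1
    refine ⟨h1.1, fun hf => ?_⟩
    rcases h1.2 with h2 | h2
    · rw [hf] at h2
      exact absurd h2 (by simp)
    · exact h2
  obtain ⟨ψ, hψ⟩ := exists_hom_of_action (H.subtype : H →* Equiv.Perm (Fin 8))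
    (fun i => i.val < n) n (Finite.equivFinOfCardEq (card_lt_subtype n hn))
    (by
      intro g x hx
      have h1 := all8_spec (hst g.1 g.2).1 x.val x.isLt
      rw [Bool.or_eq_true, Nat.ble_eq, Nat.ble_eq, dg_code] at h1
      rcases h1 with h1 | h1
      · exact absurd hx (by omega)
      · exact h1)
  have hker : Nat.card ψ.ker ≤ 6 := by
    refine (card_le_of_codes (fun x : ψ.ker => code x.1.1) ?_ Lker ?_).trans hLk
    · intro a b hab
      exact Subtype.ext (Subtype.ext (code_injective hab))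
    · intro x
      rw [← memL_iff]
      apply (hst x.1.1 x.1.2).2
      apply all8_intro
      intro i hi
      rw [Bool.or_eq_true, Nat.ble_eq, beq_iff]
      by_cases hni : n ≤ i
      · exact Or.inl hni
      · right
        have h1 := hψ x.1 x.2 ⟨i, hi⟩ (by show i < n; omega)
        have h2 := dg_code x.1.1 ⟨i, hi⟩
        rw [h2]
        exact congrArg Fin.val h1
  have hcard : n.factorial ≤ 2 * Nat.card H := by
    have h1 := card_ge_of_words hv WL hnd
    have h2 : Nat.card (grp gens) ≤ Nat.card H := Subgroup.card_le_of_le (grp_le hHas)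
    omega
  rcases term_act hN n ψ hker hcard with ⟨⟨e⟩⟩ | ⟨⟨e⟩⟩
  · exact Or.inl ⟨n, by rcases hn with rfl | rfl <;> norm_num,
      by rcases hn with rfl | rfl <;> norm_num, ⟨e⟩⟩
  · rcases hn with rfl | rfl
    · exact Or.inr (Or.inl ⟨e⟩)
    · exact Or.inr (Or.inr (Or.inl ⟨e⟩))

/-! ### Conjugation action on five elements -/

/-- The test for the conjugation action on the list `E`. -/
def cjB (gens : List ℕ) (LL : List (List (List ℕ))) (E Lker : List ℕ) (a : ℕ) : Bool :=
  or (not (nrmB gens LL a)) (and (allG (fun e => memL E (conjC a e)) E)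
    (or (not (allG (fun e => Nat.beq (conjC a e) e) E)) (memL Lker a)))

theorem term_conj {p : ℕ} {gens : List ℕ} {LL : List (List (List ℕ))} (hp : p.Prime)
    (hv : allG validC gens = true) (hord : allG (preP p) gens = true)
    (hcl : closedB gens LL = true) (E : List ℕ) (hEv : allG validC E = true)
    (hEnd : nodupB E = true) (hElen : E.length = 5) (Lker : List ℕ)
    (hLk : Lker.length ≤ 6) (hchk : ∀ σ : S8, cjB gens LL E Lker (code σ) = true)
    (WL : List (List ℕ)) (hnd : nodupB (WL.map (evalW gens)) = true)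
    (hWL : 120 ≤ 2 * WL.length)
    (H : Subgroup S8) (hHas : Has gens H)
    (hT : ∀ σ ∈ H, orderOf σ = p → σ ∈ grp gens) (hN : NSN H) : Concl H := by
  have hnrm := nrm_of_terminal hp hv hord hcl H hHas hT
  have hst : ∀ h ∈ H, allG (fun e => memL E (conjC (code h) e)) E = true ∧
      (allG (fun e => Nat.beq (conjC (code h) e) e) E = true → memL Lker (code h) = true) := by
    intro h hh
    have h1 := hchk h
    unfold cjB at h1
    rw [hnrm h hh] at h1
    simp only [Bool.not_true, Bool.false_or, Bool.and_eq_true, Bool.or_eq_true,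
      Bool.not_eq_true'] at h1
    refine ⟨h1.1, fun hf => ?_⟩
    rcases h1.2 with h2 | h2
    · rw [hf] at h2
      exact absurd h2 (by simp)
    · exact h2
  have hEnd' := nodupB_sound hEnd
  let f : Fin E.length → {x : S8 // ∃ e ∈ E, x = decP e} := fun i =>
    ⟨decP E[i.val], E[i.val], List.getElem_mem _, rfl⟩
  have hf : Function.Bijective f := by
    constructor
    · intro i j hij
      have h1 : decP E[i.val] = decP E[j.val] := congrArg Subtype.val hij
      have h2 := congrArg code h1
      rw [code_decP (allG_sound hEv _ (List.getElem_mem _)),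
        code_decP (allG_sound hEv _ (List.getElem_mem _))] at h2
      exact Fin.ext ((hEnd'.getElem_inj_iff).mp h2)
    · rintro ⟨x, e, he, rfl⟩
      obtain ⟨i, hi, hie⟩ := List.getElem_of_mem he
      exact ⟨⟨i, hi⟩, Subtype.ext (by show decP E[i] = decP e; rw [hie])⟩
  let ρ : H →* Equiv.Perm S8 := (MulAut.toPerm S8).comp (MulAut.conj.comp H.subtype)
  have hρ : ∀ (g : H) (x : S8), ρ g x = g.1 * x * g.1⁻¹ := fun g x => rfl
  obtain ⟨ψ, hψ⟩ := exists_hom_of_action ρ (fun x => ∃ e ∈ E, x = decP e) 5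
    ((Equiv.ofBijective f hf).symm.trans (finCongr hElen))
    (by
      rintro g x ⟨e, he, rfl⟩
      rw [hρ]
      have h1 := allG_sound (hst g.1 g.2).1 e he
      rw [memL_iff] at h1
      refine ⟨_, h1, ?_⟩
      apply eq_decP
      rw [code_conj, code_decP (allG_sound hEv e he)])
  have hker : Nat.card ψ.ker ≤ 6 := by
    refine (card_le_of_codes (fun x : ψ.ker => code x.1.1) ?_ Lker ?_).trans hLk
    · intro a b hab
      exact Subtype.ext (Subtype.ext (code_injective hab))
    · intro x
      rw [← memL_iff]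
      apply (hst x.1.1 x.1.2).2
      apply allG_intro
      intro e he
      rw [beq_iff]
      have h1 := hψ x.1 x.2 (decP e) ⟨e, he, rfl⟩
      rw [hρ] at h1
      have h2 := congrArg code h1
      rwa [code_conj, code_decP (allG_sound hEv e he)] at h2
  have hcard : (5 : ℕ).factorial ≤ 2 * Nat.card H := by
    have h1 := card_ge_of_words hv WL hnd
    have h2 : Nat.card (grp gens) ≤ Nat.card H := Subgroup.card_le_of_le (grp_le hHas)
    have h3 : (5 : ℕ).factorial = 120 := by decide
    omega
  rcases term_act hN 5 ψ hker hcard with ⟨⟨e⟩⟩ | ⟨⟨e⟩⟩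
  · exact Or.inl ⟨5, le_refl _, by norm_num, ⟨e⟩⟩
  · exact Or.inr (Or.inl ⟨e⟩)

end Cfsg.Agent.H61.A8
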