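import Mathlib
import Cfsg.Prelude.Def_Solvable
import Cfsg.Agent.H61.A8Act

/-!
# Subgroups of `A₈` without solvable normal subgroups: the top of the argument (helper61)
-/

set_option autoImplicit false

namespace Cfsg.Agent.H61.A8

open Matrix Cfsg.Agent.H6.A7

/-- The embedding of `S₇` in `S₈`. -/
noncomputable def iota : Equiv.Perm (Fin 7) →* S8 :=
  Equiv.Perm.viaEmbeddingHom (Fin.castSuccEmb : Fin 7 ↪ Fin 8)

theorem iota_castSucc (σ : Equiv.Perm (Fin 7)) (i : Fin 7) :
    iota σ i.castSucc = (σ i).castSucc :=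
  Equiv.Perm.viaEmbedding_apply σ Fin.castSuccEmb i

theorem iota_last (σ : Equiv.Perm (Fin 7)) : iota σ (Fin.last 7) = Fin.last 7 := by
  apply Equiv.Perm.viaEmbedding_apply_of_notMem σ Fin.castSuccEmb
  rintro ⟨i, hi⟩
  have := congrArg Fin.val hi
  simp at this
  omega

theorem iota_sign (σ : Equiv.Perm (Fin 7)) : Equiv.Perm.sign (iota σ) = Equiv.Perm.sign σ := by
  classical
  have h := Equiv.Perm.sign_extendDomain σ (Equiv.ofInjective _ (Fin.castSuccEmb : Fin 7 ↪ Fin 8).2)
  rw [← h]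
  show Equiv.Perm.sign (Equiv.Perm.viaEmbedding σ _) = _
  unfold Equiv.Perm.viaEmbedding
  congr

theorem iota_injective : Function.Injective iota := Equiv.Perm.viaEmbeddingHom_injective _

theorem node0_core (H : Subgroup S8) (hA : H ≤ alternatingGroup (Fin 8))
    (ha : iota a7 ∈ H) (hb : iota b7 ∈ H) : Concl H := by
  let A : Subgroup S8 := (alternatingGroup (Fin 7)).map iota
  let P : Subgroup S8 := alternatingGroup (Fin 8) ⊓ MulAction.stabilizer S8 (Fin.last 7)
  have hAH : A ≤ H := by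
    have h1 : A ≤ (Subgroup.closure {a7, b7}).map iota := Subgroup.map_mono gen7
    refine h1.trans ?_
    rw [MonoidHom.map_closure, Subgroup.closure_le]
    rintro x ⟨y, hy, rfl⟩
    rcases hy with rfl | rfl
    · exact ha
    · exact hb
  have hAP : A ≤ P := by
    rintro x ⟨σ, hσ, rfl⟩
    refine ⟨?_, ?_⟩
    · show iota σ ∈ alternatingGroup (Fin 8)
      rw [Equiv.Perm.mem_alternatingGroup, iota_sign]
      exact Equiv.Perm.mem_alternatingGroup.mp hσ
    · exact iota_last σ
  have hcA : Nat.card A = 2520 := by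
    rw [← card_alt7]
    exact (Nat.card_congr
      ((alternatingGroup (Fin 7)).equivMapOfInjective iota iota_injective).toEquiv).symm
  have hcP : Nat.card P ≤ 2520 := by
    rw [← card_stab_alt (Fin.last 7)]
    let f : P → MulAction.stabilizer (alternatingGroup (Fin 8)) (Fin.last 7) := fun x =>
      ⟨⟨x.1, x.2.1⟩, x.2.2⟩
    exact Nat.card_le_card_of_injective f (fun a b hab => Subtype.ext (by
      have := congrArg (fun y : MulAction.stabilizer (alternatingGroup (Fin 8)) (Fin.last 7) =>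
        ((y : alternatingGroup (Fin 8)) : S8)) hab
      exact this))
  have hAeqP : A = P := Subgroup.eq_of_le_of_card_ge hAP (by omega)
  have hPH : ∀ τ ∈ alternatingGroup (Fin 8), τ (Fin.last 7) = Fin.last 7 → τ ∈ H := by
    intro τ hτ h7
    apply hAH
    rw [hAeqP]
    exact ⟨hτ, h7⟩
  by_cases hfix : ∀ h ∈ H, h (Fin.last 7) = Fin.last 7
  · have hHA : H = A :=
      le_antisymm (by intro h hh; rw [hAeqP]; exact ⟨hA hh, hfix h hh⟩) hAH
    exact Or.inl ⟨7, by norm_num, by norm_num, ⟨(MulEquiv.subgroupCongr hHA).trans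
      ((alternatingGroup (Fin 7)).equivMapOfInjective iota iota_injective).symm⟩⟩
  · obtain ⟨h, hfix'⟩ := not_forall.mp hfix
    obtain ⟨hh, hne⟩ := Classical.not_imp.mp hfix'
    have hle : alternatingGroup (Fin 8) ≤ H := by
      intro τ hτ
      by_cases h7 : τ (Fin.last 7) = Fin.last 7
      · exact hPH τ hτ h7
      · obtain ⟨j', hj'⟩ : ∃ j' : Fin 7, j'.castSucc = h (Fin.last 7) :=
          ⟨(h (Fin.last 7)).castPred hne, Fin.castSucc_castPred _ _⟩
        obtain ⟨i', hi'⟩ : ∃ i' : Fin 7, i'.castSucc = τ (Fin.last 7) :=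
          ⟨(τ (Fin.last 7)).castPred h7, Fin.castSucc_castPred _ _⟩
        obtain ⟨k, hk⟩ := trans7 j' i'
        have hbk : iota (b7 ^ k.val) ∈ H := by
          rw [map_pow]
          exact H.pow_mem hb _
        have hmap : (iota (b7 ^ k.val) * h) (Fin.last 7) = τ (Fin.last 7) := by
          rw [Equiv.Perm.mul_apply, ← hj', iota_castSucc, hk, hi']
        have hg : iota (b7 ^ k.val) * h ∈ H := H.mul_mem hbk hh
        have h2 : (iota (b7 ^ k.val) * h)⁻¹ * τ ∈ H := by
          apply hPH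
          · exact Subgroup.mul_mem _ (Subgroup.inv_mem _ (hA hg)) hτ
          · show (iota (b7 ^ k.val) * h)⁻¹ (τ (Fin.last 7)) = Fin.last 7
            rw [← hmap]
            exact (iota (b7 ^ k.val) * h).symm_apply_apply _
        have := H.mul_mem hg h2
        rwa [mul_inv_cancel_left] at this
    exact Or.inl ⟨8, by norm_num, le_refl _, ⟨MulEquiv.subgroupCongr (le_antisymm hA hle)⟩⟩

/-- The code of the `7`-cycle `(0 1 2 3 4 5 6)`. -/
def c7C : ℕ := 14899409

/-- The code of the `5`-cycle `(0 1 2 3 4)`. -/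
def c5C : ℕ := 16419025

/-- The code of the `3`-cycle `(0 1 2)`. -/
def a7C : ℕ := 16434705

theorem iota_b7 : iota b7 = decP c7C := by
  apply Equiv.ext
  intro j
  apply Fin.ext
  rw [decP_apply (by decide +kernel)]
  rcases Fin.eq_castSucc_or_eq_last j with ⟨i, rfl⟩ | rfl
  · rw [iota_castSucc]
    revert i
    decide
  · rw [iota_last]
    decide

theorem iota_a7 : iota a7 = decP a7C := by
  apply Equiv.ext
  intro j
  apply Fin.ext
  rw [decP_apply (by decide +kernel)]
  rcases Fin.eq_castSucc_or_eq_last j with ⟨i, rfl⟩ | rfl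
  · rw [iota_castSucc]
    revert i
    decide
  · rw [iota_last]
    decide

theorem node0 (H : Subgroup S8) (hHas : Has [c7C, a7C] H) : Target H := by
  intro hA _
  apply node0_core H hA
  · rw [iota_a7]
    exact hHas a7C (by simp)
  · rw [iota_b7]
    exact hHas c7C (by simp)

theorem conj_of_order {p : ℕ} (hp : p.Prime) (hp5 : 5 ≤ p) (σ τ : S8) (hσ : orderOf σ = p)
    (hτ : orderOf τ = p) : ∃ g : S8, g * σ * g⁻¹ = τ := by
  have key : ∀ ρ : S8, orderOf ρ = p → ρ.cycleType = Multiset.replicate 1 p := by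
    intro ρ hρ
    obtain ⟨n, hn⟩ := Equiv.Perm.cycleType_prime_order (σ := ρ) (by rw [hρ]; exact hp)
    rw [hρ] at hn
    have h1 := Equiv.Perm.sum_cycleType ρ
    rw [hn, Multiset.sum_replicate, smul_eq_mul] at h1
    have h2 : ρ.support.card ≤ 8 := by
      have := Finset.card_le_univ ρ.support
      simpa using this
    have h3 : n = 0 := by
      by_contra h
      have : 2 * p ≤ (n + 1) * p := Nat.mul_le_mul_right p (by omega)
      omega
    rw [hn, h3]
  have h : IsConj σ τ := by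
    rw [Equiv.Perm.isConj_iff_cycleType_eq, key σ hσ, key τ hτ]
  exact isConj_iff.mp h

theorem zmod2_det_one' {n : ℕ} (A : GL (Fin n) (ZMod 2)) :
    (A : Matrix (Fin n) (Fin n) (ZMod 2)).det = 1 := by
  have h : IsUnit (A : Matrix (Fin n) (Fin n) (ZMod 2)).det :=
    (Matrix.isUnit_iff_isUnit_det _).mp A.isUnit
  have h2 : ∀ x : ZMod 2, IsUnit x → x = 1 := by decide
  exact h2 _ h

theorem main_S8 (node1 : ∀ H : Subgroup S8, Has [c7C] H → Target H)
    (node6 : ∀ H : Subgroup S8, Has [c5C] H → Target H)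
    (H : Subgroup S8) (hne : H ≠ ⊥) : Target H := by
  intro hA hN
  have hdvd : Nat.card H ∣ 20160 := by
    rw [← card_alt8]
    exact Subgroup.card_dvd_of_le hA
  have step : ∀ (p c : ℕ), p.Prime → 5 ≤ p → validC c = true → preP p c = true →
      (∀ H : Subgroup S8, Has [c] H → Target H) → p ∣ Nat.card H → Concl H := by
    intro p c hp hp5 hcv hcp hnode hpd
    haveI : Fact p.Prime := ⟨hp⟩
    obtain ⟨σ, hσ⟩ := exists_prime_orderOf_dvd_card' p hpd
    have hσ' : orderOf (σ : S8) = p := by rw [Subgroup.orderOf_coe]; exact hσ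
    obtain ⟨g, hg⟩ := conj_of_order hp hp5 σ.1 (decP c) hσ' (orderOf_decP hp hcv hcp)
    apply conj_target H g _ hA hN
    apply hnode
    intro a ha
    rw [List.mem_singleton] at ha
    rw [ha, ← hg]
    exact ⟨σ.1, σ.2, rfl⟩
  by_cases h7 : 7 ∣ Nat.card H
  · exact step 7 c7C (by norm_num) (by norm_num) (by decide +kernel) (by decide +kernel) node1 h7
  by_cases h5 : 5 ∣ Nat.card H
  · exact step 5 c5C (by norm_num) (by norm_num) (by decide +kernel) (by decide +kernel) node6 h5
  exfalso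
  have hc7 : Nat.Coprime (Nat.card H) 7 :=
    Nat.Coprime.symm ((Nat.Prime.coprime_iff_not_dvd (by norm_num)).mpr h7)
  have hc5 : Nat.Coprime (Nat.card H) 5 :=
    Nat.Coprime.symm ((Nat.Prime.coprime_iff_not_dvd (by norm_num)).mpr h5)
  have hd1 : Nat.card H ∣ 2 ^ 6 * 3 ^ 2 * 5 * 7 := by
    have : 2 ^ 6 * 3 ^ 2 * 5 * 7 = 20160 := by norm_num
    rw [this]
    exact hdvd
  have hd2 : Nat.card H ∣ 2 ^ 6 * 3 ^ 2 := hc5.dvd_of_dvd_mul_right (hc7.dvd_of_dvd_mul_right hd1)
  obtain ⟨i, j, hij⟩ := Cfsg.Agent.H4.dvd_prime_pow_mul_prime_pow Nat.prime_two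
    Nat.prime_three hd2
  have hsol : Group.IsSolvable H :=
    Cfsg.Agent.H4.isSolvable_of_card_eq_prime_pow_mul_prime_pow 2 3 i j
      Nat.prime_two Nat.prime_three hij
  have htop : (⊤ : Subgroup H) = ⊥ :=
    hN ⊤ inferInstance (Group.isSolvable_of_isSolvable_injective (Subgroup.subtype_injective _))
  apply hne
  rw [eq_bot_iff]
  intro x hx
  have h1 : (⟨x, hx⟩ : H) ∈ (⊤ : Subgroup H) := Subgroup.mem_top _
  rw [htop, Subgroup.mem_bot] at h1
  rw [Subgroup.mem_bot]
  exact congrArg Subtype.val h1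

/-- The passage from `GL₄(2)` to `SL₄(2)`. -/
def toSL4 : GL (Fin 4) (ZMod 2) →* Matrix.SpecialLinearGroup (Fin 4) (ZMod 2) where
  toFun A := ⟨(A : Matrix (Fin 4) (Fin 4) (ZMod 2)), zmod2_det_one' A⟩
  map_one' := Subtype.ext rfl
  map_mul' _ _ := Subtype.ext rfl

theorem toSL4_injective : Function.Injective toSL4 := by
  intro A B h
  apply Units.ext
  exact congrArg Subtype.val h

theorem final_of_nodes (node1 : ∀ H : Subgroup S8, Has [c7C] H → Target H)
    (node6 : ∀ H : Subgroup S8, Has [c5C] H → Target H)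
    (H : Subgroup (GL (Fin 4) (ZMod 2))) (hH : H ≠ ⊥) (hO : Cfsg.pPrimeCore 2 ↥H = ⊥)
    (hO2 : Cfsg.pCore 2 ↥H = ⊥) : Concl H := by
  let φ : GL (Fin 4) (ZMod 2) →* S8 := Cfsg.Agent.H6.L42.hom.comp toSL4
  have hφ : Function.Injective φ := hom_injective.comp toSL4_injective
  let e : H ≃* H.map φ := H.equivMapOfInjective φ hφ
  have hA : H.map φ ≤ alternatingGroup (Fin 8) := by
    rintro _ ⟨x, _, rfl⟩
    exact hom_mem_alt _
  have hne : H.map φ ≠ ⊥ := fun h => hH ((Subgroup.map_eq_bot_iff_of_injective _ hφ).mp h)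
  exact concl_of_mulEquiv e.symm
    (main_S8 node1 node6 (H.map φ) hne hA (nsn_of_mulEquiv e (nsn_of_cores hO2 hO)))

end Cfsg.Agent.H61.A8
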