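import Mathlib
import Cfsg.Agent.H61.A8Top

/-!
# Generators of the groups of the chain (helper61)

Generated data for the subgroups of `A₈` without solvable normal subgroups.
-/

set_option autoImplicit false
set_option maxRecDepth 1000000

namespace Cfsg.Agent.H61.A8

/-- Generators of the group of node `0`. -/
def gens0 : List ℕ := [14899409, 16434705]

/-- Generators of the group of node `1`. -/
def gens1 : List ℕ := [14899409]

/-- Generators of the group of node `2`. -/
def gens2 : List ℕ := [14899409, 3043152]

/-- Generators of the group of node `3`. -/
def gens3 : List ℕ := [14899409, 15937873]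

/-- Generators of the group of node `4`. -/
def gens4 : List ℕ := [14899409, 11744208]

/-- Generators of the group of node `5`. -/
def gens5 : List ℕ := [14899409, 10975440]

/-- Generators of the group of node `6`. -/
def gens6 : List ℕ := [16419025]

/-- Generators of the group of node `7`. -/
def gens7 : List ℕ := [16419025, 16429329]

/-- Generators of the group of node `8`. -/
def gens8 : List ℕ := [16419025, 16357712]

/-- Generators of the group of node `9`. -/
def gens9 : List ℕ := [16419025, 16308432]

/-- All the lists of generators. -/
def allGens : List (List ℕ) := [gens0, gens1, gens2, gens3, gens4, gens5, gens6, gens7, gens8, gens9]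

/-- The generators of the node `j`. -/
def gensOf (j : ℕ) : List ℕ := nthD allGens j []

/-- The successors of the node `1`. -/
def succ1 : List ℕ := [2, 3, 4, 5, 0]

/-- The successors of the node `2`. -/
def succ2 : List ℕ := [5, 0]

/-- The successors of the node `3`. -/
def succ3 : List ℕ := [5, 0]

/-- The successors of the node `4`. -/
def succ4 : List ℕ := [5, 0]

/-- The successors of the node `5`. -/
def succ5 : List ℕ := [0]

/-- The successors of the node `6`. -/
def succ6 : List ℕ := [7, 8, 9, 0]

/-- The successors of the node `7`. -/
def succ7 : List ℕ := [9, 0]

/-- The successors of the node `8`. -/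
def succ8 : List ℕ := [9, 0]

/-- The successors of the node `9`. -/
def succ9 : List ℕ := [0]

theorem gensOf_0 : gensOf 0 = gens0 := rfl

theorem gens0_valid : allG validC gens0 = true := by decide +kernel

theorem gensOf_1 : gensOf 1 = gens1 := rfl

theorem gens1_valid : allG validC gens1 = true := by decide +kernel

theorem gensOf_2 : gensOf 2 = gens2 := rfl

theorem gens2_valid : allG validC gens2 = true := by decide +kernel

theorem gensOf_3 : gensOf 3 = gens3 := rfl

theorem gens3_valid : allG validC gens3 = true := by decide +kernel

theorem gensOf_4 : gensOf 4 = gens4 := rfl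

theorem gens4_valid : allG validC gens4 = true := by decide +kernel

theorem gensOf_5 : gensOf 5 = gens5 := rfl

theorem gens5_valid : allG validC gens5 = true := by decide +kernel

theorem gensOf_6 : gensOf 6 = gens6 := rfl

theorem gens6_valid : allG validC gens6 = true := by decide +kernel

theorem gensOf_7 : gensOf 7 = gens7 := rfl

theorem gens7_valid : allG validC gens7 = true := by decide +kernel

theorem gensOf_8 : gensOf 8 = gens8 := rfl

theorem gens8_valid : allG validC gens8 = true := by decide +kernel

theorem gensOf_9 : gensOf 9 = gens9 := rfl

theorem gens9_valid : allG validC gens9 = true := by decide +kernel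

theorem gens1_ord : allG (preP 7) gens1 = true := by decide +kernel

theorem gens2_ord : allG (preP 7) gens2 = true := by decide +kernel

theorem gens3_ord : allG (preP 7) gens3 = true := by decide +kernel

theorem gens4_ord : allG (preP 7) gens4 = true := by decide +kernel

theorem gens5_ord : allG (preP 7) gens5 = true := by decide +kernel

theorem gens6_ord : allG (preP 5) gens6 = true := by decide +kernel

theorem gens7_ord : allG (preP 5) gens7 = true := by decide +kernel

theorem gens8_ord : allG (preP 5) gens8 = true := by decide +kernel

theorem gens9_ord : allG (preP 5) gens9 = true := by decide +kernel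

theorem node_of (p : ℕ) (hp : p.Prime) (gens : List ℕ)
    (hv : allG validC gens = true) (T : List (List (List Ent))) (succ : List ℕ)
    (hcov : ∀ σ : S8, cover p T (code σ) = true)
    (htab : tabOK gensOf gens succ T = true)
    (hgv : ∀ j, memL succ j = true → allG validC (gensOf j) = true)
    (hsucc : ∀ j, memL succ j = true → ∀ H' : Subgroup S8, Has (gensOf j) H' → Target H')
    (hterm : ∀ H : Subgroup S8, Has gens H →
      (∀ σ ∈ H, orderOf σ = p → σ ∈ grp gens) → Target H) :
    ∀ H : Subgroup S8, Has gens H → Target H := by
  intro H hHas
  by_cases hT : ∀ σ ∈ H, orderOf σ = p → σ ∈ grp gens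
  · exact hterm H hHas hT
  · obtain ⟨σ, h1⟩ := not_forall.mp hT
    obtain ⟨hσ, h2⟩ := Classical.not_imp.mp h1
    obtain ⟨hord, hnot⟩ := Classical.not_imp.mp h2
    rcases step_one gensOf p hp gens hv T succ hcov htab hgv H hHas hsucc σ hσ hord with h | h
    · exact absurd h hnot
    · exact h

end Cfsg.Agent.H61.A8
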