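import Mathlib
import Cfsg.Agent.H61.A8DataT

/-!
# Coverage of the elements of order `7` and `5` by the step tables (helper61)
-/

set_option autoImplicit false
set_option maxRecDepth 1000000

namespace Cfsg.Agent.H61.A8

/-- Shared coverage test for the nodes with `p = 7`. -/
def cover7 (a : ℕ) : Bool :=
  or (not (preP 7 a)) (seqN (canonC 7 a) fun c =>
    and (hasKey T1 c) (and (hasKey T2 c) (and (hasKey T3 c) (and (hasKey T4 c) (hasKey T5 c)))))

/-- Shared coverage test for the nodes with `p = 5`. -/
def cover5 (a : ℕ) : Bool :=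
  or (not (preP 5 a)) (seqN (canonC 5 a) fun c =>
    and (hasKey T6 c) (and (hasKey T7 c) (and (hasKey T8 c) (hasKey T9 c))))

/-- Both coverage tests. -/
def coverP (a : ℕ) : Bool := and (cover7 a) (cover5 a)

theorem coverP_ok : forallPerm coverP = true := by decide +kernel

theorem cover7_spec (σ : S8) : preP 7 (code σ) = false ∨
    (hasKey T1 (canonC 7 (code σ)) = true ∧ hasKey T2 (canonC 7 (code σ)) = true ∧
      hasKey T3 (canonC 7 (code σ)) = true ∧ hasKey T4 (canonC 7 (code σ)) = true ∧
      hasKey T5 (canonC 7 (code σ)) = true) := by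
  have h := forallPerm_sound coverP_ok σ
  unfold coverP cover7 at h
  rw [seqN_eq] at h
  simp only [Bool.and_eq_true, Bool.or_eq_true, Bool.not_eq_true'] at h
  exact h.1

theorem cover5_spec (σ : S8) : preP 5 (code σ) = false ∨
    (hasKey T6 (canonC 5 (code σ)) = true ∧ hasKey T7 (canonC 5 (code σ)) = true ∧
      hasKey T8 (canonC 5 (code σ)) = true ∧ hasKey T9 (canonC 5 (code σ)) = true) := by
  have h := forallPerm_sound coverP_ok σ
  unfold coverP cover5 at h
  rw [seqN_eq] at h
  simp only [Bool.and_eq_true, Bool.or_eq_true, Bool.not_eq_true'] at h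
  exact h.2

theorem cover_intro {p : ℕ} {T : List (List (List Ent))} {a : ℕ}
    (h : preP p a = false ∨ hasKey T (canonC p a) = true) : cover p T a = true := by
  unfold cover
  rw [Bool.or_eq_true, Bool.not_eq_true']
  exact h

theorem cover1 (σ : S8) : cover 7 T1 (code σ) = true :=
  cover_intro ((cover7_spec σ).imp id fun h => h.1)

theorem cover2 (σ : S8) : cover 7 T2 (code σ) = true :=
  cover_intro ((cover7_spec σ).imp id fun h => h.2.1)

theorem cover3 (σ : S8) : cover 7 T3 (code σ) = true :=
  cover_intro ((cover7_spec σ).imp id fun h => h.2.2.1)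

theorem cover4 (σ : S8) : cover 7 T4 (code σ) = true :=
  cover_intro ((cover7_spec σ).imp id fun h => h.2.2.2.1)

theorem cover5' (σ : S8) : cover 7 T5 (code σ) = true :=
  cover_intro ((cover7_spec σ).imp id fun h => h.2.2.2.2)

theorem cover6 (σ : S8) : cover 5 T6 (code σ) = true :=
  cover_intro ((cover5_spec σ).imp id fun h => h.1)

theorem cover7' (σ : S8) : cover 5 T7 (code σ) = true :=
  cover_intro ((cover5_spec σ).imp id fun h => h.2.1)

theorem cover8 (σ : S8) : cover 5 T8 (code σ) = true :=
  cover_intro ((cover5_spec σ).imp id fun h => h.2.2.1)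

theorem cover9 (σ : S8) : cover 5 T9 (code σ) = true :=
  cover_intro ((cover5_spec σ).imp id fun h => h.2.2.2)

end Cfsg.Agent.H61.A8
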