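import Mathlib
import Cfsg.Agent.H61.A8DataT

/-!
# Normalizer tests at the nodes with `p = 7` (helper61)
-/

set_option autoImplicit false
set_option maxRecDepth 1000000

namespace Cfsg.Agent.H61.A8

/-- The terminal tests of the nodes `1, …, 5`. -/
def termP7 (a : ℕ) : Bool :=
  and (nrmE gens1 LL1 gensE1 wsE1 a) (and (nrmE gens2 LL2 gensE2 wsE2 a)
    (and (sub168 gens3 LL3 tC a) (and (sub168 gens4 LL4 tC a) (nrmE gens5 LL5 gensE5 wsE5 a))))

theorem termP7_ok : forallPerm termP7 = true := by decide +kernel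

theorem termP7_spec (σ : S8) : nrmE gens1 LL1 gensE1 wsE1 (code σ) = true ∧
    nrmE gens2 LL2 gensE2 wsE2 (code σ) = true ∧ sub168 gens3 LL3 tC (code σ) = true ∧
    sub168 gens4 LL4 tC (code σ) = true ∧ nrmE gens5 LL5 gensE5 wsE5 (code σ) = true := by
  have h := forallPerm_sound termP7_ok σ
  unfold termP7 at h
  simp only [Bool.and_eq_true] at h
  exact h

end Cfsg.Agent.H61.A8
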