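import Mathlib
import Cfsg.Agent.H61.A8DataT

/-!
# Normalizer tests at the nodes with `p = 5` (helper61)
-/

set_option autoImplicit false
set_option maxRecDepth 1000000

namespace Cfsg.Agent.H61.A8

/-- The terminal tests of the nodes `6, …, 9`. -/
def termP5 (a : ℕ) : Bool :=
  and (nrmE gens6 LL6 gensE6 wsE6 a) (and (ptsB gens7 LL7 5 Lker7 a)
    (and (cjB gens8 LL8 E5L Lker2 a) (ptsB gens9 LL9 6 Lker2 a)))

theorem termP5_ok : forallPerm termP5 = true := by decide +kernel

theorem termP5_spec (σ : S8) : nrmE gens6 LL6 gensE6 wsE6 (code σ) = true ∧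
    ptsB gens7 LL7 5 Lker7 (code σ) = true ∧ cjB gens8 LL8 E5L Lker2 (code σ) = true ∧
    ptsB gens9 LL9 6 Lker2 (code σ) = true := by
  have h := forallPerm_sound termP5_ok σ
  unfold termP5 at h
  simp only [Bool.and_eq_true] at h
  exact h

end Cfsg.Agent.H61.A8
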