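import Mathlib
import Cfsg.Agent.H61.A8GlobA
import Cfsg.Agent.H61.A8GlobB
import Cfsg.Agent.H61.A8GlobC

/-!
# Subgroups of `A₈` without solvable normal subgroups: the chain (helper61)
-/

set_option autoImplicit false

namespace Cfsg.Agent.H61.A8

theorem nodeT0 : ∀ H : Subgroup S8, Has gens0 H → Target H := fun H h => node0 H h

theorem tC_odd : Equiv.Perm.sign (decP tC) = -1 := by
  have h : decP tC = Equiv.swap (2 : Fin 8) 3 * Equiv.swap 4 7 * Equiv.swap 5 6 := by
    symm
    apply eq_decP
    rw [code_def]
    decide
  rw [h, Equiv.Perm.sign_mul, Equiv.Perm.sign_mul, Equiv.Perm.sign_swap (by decide),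
    Equiv.Perm.sign_swap (by decide), Equiv.Perm.sign_swap (by decide)]
  rfl

theorem nodeT9 : ∀ H : Subgroup S8, Has gens9 H → Target H := by
  apply node_of 5 (by norm_num) gens9 gens9_valid T9 succ9 cover9 tab9
  · intro j hj
    have hj' : j ∈ succ9 := memL_iff.mp hj
    simp only [succ9, List.mem_cons, List.mem_nil_iff, or_false] at hj'
    subst hj'
    exact gens0_valid
  · intro j hj
    have hj' : j ∈ succ9 := memL_iff.mp hj
    simp only [succ9, List.mem_cons, List.mem_nil_iff, or_false] at hj'
    subst hj'
    exact nodeT0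
  · intro H hHas hT _ hN
    exact term_pts (by norm_num : Nat.Prime 5) gens9_valid gens9_ord closed9 6 (Or.inr rfl) Lker2
      (by decide) (fun σ => (termP5_spec σ).2.2.2) WL9 WL9_nodup (by rw [WL9_length]; decide)
      H hHas hT hN

theorem nodeT8 : ∀ H : Subgroup S8, Has gens8 H → Target H := by
  apply node_of 5 (by norm_num) gens8 gens8_valid T8 succ8 cover8 tab8
  · intro j hj
    have hj' : j ∈ succ8 := memL_iff.mp hj
    simp only [succ8, List.mem_cons, List.mem_nil_iff, or_false] at hj'
    rcases hj' with rfl | rfl
    · exact gens9_valid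
    · exact gens0_valid
  · intro j hj
    have hj' : j ∈ succ8 := memL_iff.mp hj
    simp only [succ8, List.mem_cons, List.mem_nil_iff, or_false] at hj'
    rcases hj' with rfl | rfl
    · exact nodeT9
    · exact nodeT0
  · intro H hHas hT _ hN
    exact term_conj (by norm_num : Nat.Prime 5) gens8_valid gens8_ord closed8 E5L E5L_valid
      E5L_nodup (by decide) Lker2 (by decide) (fun σ => (termP5_spec σ).2.2.1) WL8 WL8_nodup
      (by rw [WL8_length]) H hHas hT hN

theorem nodeT7 : ∀ H : Subgroup S8, Has gens7 H → Target H := by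
  apply node_of 5 (by norm_num) gens7 gens7_valid T7 succ7 cover7' tab7
  · intro j hj
    have hj' : j ∈ succ7 := memL_iff.mp hj
    simp only [succ7, List.mem_cons, List.mem_nil_iff, or_false] at hj'
    rcases hj' with rfl | rfl
    · exact gens9_valid
    · exact gens0_valid
  · intro j hj
    have hj' : j ∈ succ7 := memL_iff.mp hj
    simp only [succ7, List.mem_cons, List.mem_nil_iff, or_false] at hj'
    rcases hj' with rfl | rfl
    · exact nodeT9
    · exact nodeT0
  · intro H hHas hT _ hN
    exact term_pts (by norm_num : Nat.Prime 5) gens7_valid gens7_ord closed7 5 (Or.inl rfl) Lker7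
      (by decide) (fun σ => (termP5_spec σ).2.1) WL7 WL7_nodup (by rw [WL7_length]; decide)
      H hHas hT hN

theorem nodeT6 : ∀ H : Subgroup S8, Has gens6 H → Target H := by
  apply node_of 5 (by norm_num) gens6 gens6_valid T6 succ6 cover6 tab6
  · intro j hj
    have hj' : j ∈ succ6 := memL_iff.mp hj
    simp only [succ6, List.mem_cons, List.mem_nil_iff, or_false] at hj'
    rcases hj' with rfl | rfl | rfl | rfl
    · exact gens7_valid
    · exact gens8_valid
    · exact gens9_valid
    · exact gens0_valid
  · intro j hj
    have hj' : j ∈ succ6 := memL_iff.mp hj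
    simp only [succ6, List.mem_cons, List.mem_nil_iff, or_false] at hj'
    rcases hj' with rfl | rfl | rfl | rfl
    · exact nodeT7
    · exact nodeT8
    · exact nodeT9
    · exact nodeT0
  · intro H hHas hT _ hN
    exact absurd hN (term_E (by norm_num : Nat.Prime 5) gens6_valid gens6_ord closed6 gensE6
      16419025 (by decide) (by decide) gensE6_valid wsK6 wsE6 gensE6_mem gensE6_comm
      (fun σ => (termP5_spec σ).1) H hHas hT)

theorem nodeT5 : ∀ H : Subgroup S8, Has gens5 H → Target H := by
  apply node_of 7 (by norm_num) gens5 gens5_valid T5 succ5 cover5' tab5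
  · intro j hj
    have hj' : j ∈ succ5 := memL_iff.mp hj
    simp only [succ5, List.mem_cons, List.mem_nil_iff, or_false] at hj'
    subst hj'
    exact gens0_valid
  · intro j hj
    have hj' : j ∈ succ5 := memL_iff.mp hj
    simp only [succ5, List.mem_cons, List.mem_nil_iff, or_false] at hj'
    subst hj'
    exact nodeT0
  · intro H hHas hT _ hN
    exact absurd hN (term_E (by norm_num : Nat.Prime 7) gens5_valid gens5_ord closed5 gensE5
      11513089 (by decide) (by decide) gensE5_valid wsK5 wsE5 gensE5_mem gensE5_comm
      (fun σ => (termP7_spec σ).2.2.2.2) H hHas hT)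

theorem nodeT4 : ∀ H : Subgroup S8, Has gens4 H → Target H := by
  apply node_of 7 (by norm_num) gens4 gens4_valid T4 succ4 cover4 tab4
  · intro j hj
    have hj' : j ∈ succ4 := memL_iff.mp hj
    simp only [succ4, List.mem_cons, List.mem_nil_iff, or_false] at hj'
    rcases hj' with rfl | rfl
    · exact gens5_valid
    · exact gens0_valid
  · intro j hj
    have hj' : j ∈ succ4 := memL_iff.mp hj
    simp only [succ4, List.mem_cons, List.mem_nil_iff, or_false] at hj'
    rcases hj' with rfl | rfl
    · exact nodeT5
    · exact nodeT0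
  · intro H hHas hT hA hN
    exact term_168 gens4_valid gens4_ord closed4 LL4_length tC (by decide +kernel) tC_odd
      (fun σ => (termP7_spec σ).2.2.2.1) WL4 WL4_nodup WL4_length H hHas hT hA hN

theorem nodeT3 : ∀ H : Subgroup S8, Has gens3 H → Target H := by
  apply node_of 7 (by norm_num) gens3 gens3_valid T3 succ3 cover3 tab3
  · intro j hj
    have hj' : j ∈ succ3 := memL_iff.mp hj
    simp only [succ3, List.mem_cons, List.mem_nil_iff, or_false] at hj'
    rcases hj' with rfl | rfl
    · exact gens5_valid
    · exact gens0_valid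
  · intro j hj
    have hj' : j ∈ succ3 := memL_iff.mp hj
    simp only [succ3, List.mem_cons, List.mem_nil_iff, or_false] at hj'
    rcases hj' with rfl | rfl
    · exact nodeT5
    · exact nodeT0
  · intro H hHas hT hA hN
    exact term_168 gens3_valid gens3_ord closed3 LL3_length tC (by decide +kernel) tC_odd
      (fun σ => (termP7_spec σ).2.2.1) WL3 WL3_nodup WL3_length H hHas hT hA hN

theorem nodeT2 : ∀ H : Subgroup S8, Has gens2 H → Target H := by
  apply node_of 7 (by norm_num) gens2 gens2_valid T2 succ2 cover2 tab2
  · intro j hj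
    have hj' : j ∈ succ2 := memL_iff.mp hj
    simp only [succ2, List.mem_cons, List.mem_nil_iff, or_false] at hj'
    rcases hj' with rfl | rfl
    · exact gens5_valid
    · exact gens0_valid
  · intro j hj
    have hj' : j ∈ succ2 := memL_iff.mp hj
    simp only [succ2, List.mem_cons, List.mem_nil_iff, or_false] at hj'
    rcases hj' with rfl | rfl
    · exact nodeT5
    · exact nodeT0
  · intro H hHas hT _ hN
    exact absurd hN (term_E (by norm_num : Nat.Prime 7) gens2_valid gens2_ord closed2 gensE2
      7806498 (by decide) (by decide) gensE2_valid wsK2 wsE2 gensE2_mem gensE2_comm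
      (fun σ => (termP7_spec σ).2.1) H hHas hT)

theorem nodeT1 : ∀ H : Subgroup S8, Has gens1 H → Target H := by
  apply node_of 7 (by norm_num) gens1 gens1_valid T1 succ1 cover1 tab1
  · intro j hj
    have hj' : j ∈ succ1 := memL_iff.mp hj
    simp only [succ1, List.mem_cons, List.mem_nil_iff, or_false] at hj'
    rcases hj' with rfl | rfl | rfl | rfl | rfl
    · exact gens2_valid
    · exact gens3_valid
    · exact gens4_valid
    · exact gens5_valid
    · exact gens0_valid
  · intro j hj
    have hj' : j ∈ succ1 := memL_iff.mp hj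
    simp only [succ1, List.mem_cons, List.mem_nil_iff, or_false] at hj'
    rcases hj' with rfl | rfl | rfl | rfl | rfl
    · exact nodeT2
    · exact nodeT3
    · exact nodeT4
    · exact nodeT5
    · exact nodeT0
  · intro H hHas hT _ hN
    exact absurd hN (term_E (by norm_num : Nat.Prime 7) gens1_valid gens1_ord closed1 gensE1
      14899409 (by decide) (by decide) gensE1_valid wsK1 wsE1 gensE1_mem gensE1_comm
      (fun σ => (termP7_spec σ).1) H hHas hT)

/-- Subgroups of `GL₄(2)` with trivial `O₂` and `O₂'`. -/
theorem gl42_subgroups (H : Subgroup (GL (Fin 4) (ZMod 2))) (hH : H ≠ ⊥)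
    (hO : Cfsg.pPrimeCore 2 ↥H = ⊥) (hO2 : Cfsg.pCore 2 ↥H = ⊥) : Concl H :=
  final_of_nodes (fun H h => nodeT1 H h) (fun H h => nodeT6 H h) H hH hO hO2

end Cfsg.Agent.H61.A8
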