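import Mathlib
import Cfsg.Agent.H1.BTDefs
import Cfsg.Agent.H40.BRTBG2

/-!
# S0997 (Brauer–Tuan), type B, piece FIN (helper61): the final count `2 ^ b ≤ p - 1`
-/

set_option autoImplicit false

namespace Cfsg.Agent.H61.BT

open Cfsg Cfsg.Agent.H21.BR Cfsg.Agent.H1.BT

universe u

theorem fin (hG : StGen.{u}) (hI : StInv.{u}) (hC : StCen.{u}) : StFin.{u} := by
  intro G _ _ p e b P X Y δ τ x ctx hΨ
  obtain ⟨hΨ1, hΨ2⟩ := hΨ
  have hp := ctx.hp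
  have : Fact p.Prime := ⟨hp⟩
  have hτ := ctx.hτ
  have hτ2 : τ * τ = 1 := by rw [← pow_two, ← hτ]; exact pow_orderOf_eq_one τ
  have hτinv : τ⁻¹ = τ := inv_eq_of_mul_eq_one_left hτ2
  have hGpos : (Nat.card G : ℂ) ≠ 0 := by exact_mod_cast Nat.card_pos.ne'
  -- all involutions are conjugate to `τ`
  have hconj : ∀ u : G, orderOf u = 2 → ∃ g : G, g * τ * g⁻¹ = u := by
    intro u hu
    have h1 := hG (G := G) τ u x
    have h2 : (Nat.card {ab : G × G // ab.1 * τ * ab.1⁻¹ * (ab.2 * u * ab.2⁻¹) = x} : ℂ) ≠ 0 := by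
      rw [h1]; exact mul_ne_zero hGpos (hΨ1 u hu)
    have h3 : Nat.card {ab : G × G // ab.1 * τ * ab.1⁻¹ * (ab.2 * u * ab.2⁻¹) = x} ≠ 0 := by
      intro h0; apply h2; rw [h0]; simp
    have h4 : Nonempty {ab : G × G // ab.1 * τ * ab.1⁻¹ * (ab.2 * u * ab.2⁻¹) = x} := by
      by_contra hne
      rw [not_nonempty_iff] at hne
      exact h3 Nat.card_of_isEmpty
    obtain ⟨⟨⟨a, b'⟩, hab⟩⟩ := h4
    exact hI p hp ctx.hp2 P ctx.hP ctx.hC τ hτ ctx.hinv x ctx.hx ctx.hx1 u hu a b' hab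
  have hdvd : 2 ^ b ∣ Nat.card G := by
    rw [ctx.hcard, mul_assoc]; exact Dvd.intro _ rfl
  have hcen := hC b hdvd τ hτ hconj
  have hcp := Cfsg.Agent.H40.BRG2.card_pairs_eq p ctx.hp2 P ctx.hP ctx.hC τ hτ ctx.hinv x
    ctx.hx ctx.hx1
  have h5 := hG (G := G) τ τ⁻¹ x
  rw [hcp] at h5
  rw [hτinv] at h5
  rw [hΨ2, ctx.hcard] at h5
  have he : e ≤ p := by have := ctx.h2e; omega
  have hpe0 : ((p - e : ℕ) : ℂ) ≠ 0 := by
    have h0 : 0 < p - e := by have := ctx.h2e; have := hp.two_le; omega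
    exact_mod_cast h0.ne'
  have h6 : ((p : ℂ) - 1) / ((p : ℂ) - (e : ℂ)) = ((p - 1 : ℕ) : ℂ) / ((p - e : ℕ) : ℂ) := by
    rw [Nat.cast_sub he, Nat.cast_sub hp.one_le, Nat.cast_one]
  rw [h6] at h5
  have h7 : ((p * Nat.card (Subgroup.centralizer ({τ} : Set G)) ^ 2 : ℕ) : ℂ) =
      ((2 ^ b * p * (p - 1) : ℕ) : ℂ) := by
    rw [h5]
    rw [Nat.cast_mul (2 ^ b * p) (p - e), Nat.cast_mul (2 ^ b * p) (p - 1)]
    field_simp
  have h8 : p * Nat.card (Subgroup.centralizer ({τ} : Set G)) ^ 2 = 2 ^ b * p * (p - 1) := by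
    exact_mod_cast h7
  have h9 : Nat.card (Subgroup.centralizer ({τ} : Set G)) ^ 2 = 2 ^ b * (p - 1) := by
    have h0 : p * Nat.card (Subgroup.centralizer ({τ} : Set G)) ^ 2 = p * (2 ^ b * (p - 1)) := by
      rw [h8]; ring
    exact Nat.eq_of_mul_eq_mul_left hp.pos h0
  obtain ⟨m, hm⟩ := hcen
  rw [hm] at h9
  have h10 : 2 ^ b * m ^ 2 = p - 1 := by
    have h0 : 2 ^ b * (2 ^ b * m ^ 2) = 2 ^ b * (p - 1) := by rw [← h9]; ring
    exact Nat.eq_of_mul_eq_mul_left (by positivity) h0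
  have hm0 : m ≠ 0 := by
    rintro rfl
    have h11 := hp.two_le
    have hp2 := ctx.hp2
    simp at h10
    omega
  calc 2 ^ b = 2 ^ b * 1 := by ring
    _ ≤ 2 ^ b * m ^ 2 := Nat.mul_le_mul_left _ (Nat.one_le_iff_ne_zero.mpr (by positivity))
    _ = p - 1 := h10

example : StGen.{u} → StInv.{u} → StCen.{u} → StFin.{u} := fin

end Cfsg.Agent.H61.BT

#print axioms Cfsg.Agent.H61.BT.fin
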