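import Mathlib
import Cfsg.Agent.H1.BTDefs
import Cfsg.Agent.H21.BRSplit
import Cfsg.Agent.H82.Irr
import Cfsg.Agent.H4.Irr
import Cfsg.Agent.H4.Chars
import Cfsg.Agent.H62.BRTBDih
import Cfsg.Agent.H99.AltSq

/-!
# S0997 (Brauer–Tuan), type B, piece TAUV (helper61): the values at the involution `τ`
-/

set_option autoImplicit false

namespace Cfsg.Agent.H61.BT

open Cfsg Cfsg.Agent.H21.BR Cfsg.Agent.H1.BT
open scoped ComplexConjugate

universe u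

set_option maxHeartbeats 800000 in
theorem tauV (hD : StDih.{u}) : StTauV.{u} := by
  intro G _ _ p e b P X Y δ τ x θ₁ θ₂ R hT hV hSum hDeg hR
  classical
  let _ : Fintype G := Fintype.ofFinite G
  have ctx := hT.ctx
  have hp := ctx.hp
  have : Fact p.Prime := ⟨hp⟩
  have hp2 := ctx.hp2
  have hP := ctx.hP
  have hτ := ctx.hτ
  have hinv := ctx.hinv
  have hB := ctx.hB0
  have hpe : p = 2 * e + 1 := hT.ht.symm
  have hθ₁Y : θ₁ ∈ Y := (hT.hY θ₁).mpr (Or.inl rfl)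
  have hθ₂Y : θ₂ ∈ Y := (hT.hY θ₂).mpr (Or.inr rfl)
  have hpC : (p : ℂ) ≠ 0 := Nat.cast_ne_zero.mpr hp.ne_zero
  have hτord : ¬ p ∣ orderOf τ := by
    rw [hτ]; intro h
    have h1 := Nat.le_of_dvd (by norm_num) h
    have h2 := hp.two_le
    omega
  have hττ : τ * τ = 1 := by rw [← pow_two, ← hτ]; exact pow_orderOf_eq_one τ
  let _ : Fintype (P : Subgroup G) := Fintype.ofFinite _
  have hcardP : Fintype.card (P : Subgroup G) = p := by
    rw [← Nat.card_eq_fintype_card]; exact hP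
  have hθ₁1 : (θ₁ : G → ℂ) 1 = (e : ℂ) + 1 := by
    rw [Cfsg.Agent.H82.irr_one_eq_charDegree, ctx.degY θ₁ hθ₁Y]
    have h0 : p - e = e + 1 := by omega
    rw [h0]; push_cast; ring
  have hθ₂1 : (θ₂ : G → ℂ) 1 = (e : ℂ) + 1 := by
    rw [Cfsg.Agent.H82.irr_one_eq_charDegree, ctx.degY θ₂ hθ₂Y]
    have h0 : p - e = e + 1 := by omega
    rw [h0]; push_cast; ring
  have hpcast : (p : ℂ) = 2 * (e : ℂ) + 1 := by rw [hpe]; push_cast; ring
  have hsplit : ∀ f : G → ℂ, ∑ y : ↥(P : Subgroup G), f (y : G) =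
      f 1 + ∑ y ∈ (Finset.univ.erase (1 : ↥(P : Subgroup G))), f (y : G) := by
    intro f
    rw [← Finset.add_sum_erase Finset.univ (fun y : ↥(P : Subgroup G) => f (y : G))
      (Finset.mem_univ 1)]
    simp
  have hcard_erase : ((Finset.univ.erase (1 : ↥(P : Subgroup G))).card : ℂ) = 2 * (e : ℂ) := by
    rw [Finset.card_erase_of_mem (Finset.mem_univ _), Finset.card_univ, hcardP, hpe]
    push_cast; ring
  have hne1 : ∀ y ∈ (Finset.univ.erase (1 : ↥(P : Subgroup G))),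
      (y : G) ∈ (P : Subgroup G) ∧ (y : G) ≠ 1 := by
    intro y hy
    exact ⟨y.2, fun h => (Finset.ne_of_mem_erase hy) (Subtype.ext h)⟩
  -- the characters of minus type
  have hminus : ∀ χ ∈ minusSet X δ, (χ : G → ℂ) τ = 0 ∧
      ∑ y : ↥(P : Subgroup G), (χ : G → ℂ) (y : G) = 0 := by
    intro χ hχ
    have hχX : χ ∈ X ∧ δ χ = -1 := mem_minusSet.mp hχ
    have hdeg : charDegree (χ : G → ℂ) = p - 1 := hDeg.1 χ hχ
    have hval : ∀ y ∈ (Finset.univ.erase (1 : ↥(P : Subgroup G))),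
        (χ : G → ℂ) (y : G) = (δ χ : ℂ) :=
      fun y hy => hB.val_X χ hχX.1 (y : G) (hne1 y hy).1 (hne1 y hy).2
    have hsumP : ∑ y : ↥(P : Subgroup G), (χ : G → ℂ) (y : G) = 0 := by
      rw [hsplit, Cfsg.Agent.H82.irr_one_eq_charDegree, hdeg,
        Finset.sum_congr rfl hval,
        Finset.sum_const, nsmul_eq_mul, hcard_erase, hχX.2, Nat.cast_sub hp.one_le, hpcast]
      push_cast; ring
    obtain ⟨w, s, hs, hw, hsw⟩ := Cfsg.Agent.H62.BR.dihedral_bound p hp2 (P : Subgroup G) hP τ hτ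
      hinv (χ : G → ℂ) (Cfsg.Agent.H4.isCharacter_of_isIrrCharacter χ.2)
    rw [finsum_eq_sum_of_fintype, hsumP] at hw
    have hw0 : w = 0 := by
      rcases mul_eq_zero.mp hw.symm with h | h
      · exact absurd h hpC
      · exact_mod_cast h
    have hs0 : s = 0 := by
      rw [hw0] at hsw
      have h0 : |s| ≤ 0 := by simpa using hsw
      exact abs_nonpos_iff.mp h0
    exact ⟨by rw [hs, hs0]; simp, hsumP⟩
  -- `θ₁` at `τ`
  have hS1 : ∑ y : ↥(P : Subgroup G), (θ₁ : G → ℂ) (y : G) = (p : ℂ) := by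
    rw [← finsum_eq_sum_of_fintype]; exact hSum.2.1
  obtain ⟨w, s, hs, hw, hsw⟩ := Cfsg.Agent.H62.BR.dihedral_bound p hp2 (P : Subgroup G) hP τ hτ
    hinv (θ₁ : G → ℂ) (Cfsg.Agent.H4.isCharacter_of_isIrrCharacter θ₁.2)
  rw [finsum_eq_sum_of_fintype, hS1] at hw
  have hw1 : w = 1 := by
    have h0 : (p : ℂ) * 1 = (p : ℂ) * (w : ℂ) := by rw [mul_one]; exact hw
    have h2 := mul_left_cancel₀ hpC h0
    exact_mod_cast h2.symm
  rw [hw1] at hsw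
  -- the exterior square of `θ₁`
  have hA2 := Cfsg.Agent.H99.AltSq.altSq_isCharacter (θ₁ : G → ℂ)
    (Cfsg.Agent.H4.isCharacter_of_isIrrCharacter θ₁.2)
  obtain ⟨w', s', hs', hw', hsw'⟩ := Cfsg.Agent.H62.BR.dihedral_bound p hp2 (P : Subgroup G) hP τ
    hτ hinv _ hA2
  have hs'2 : ((s : ℂ) ^ 2 - ((e : ℂ) + 1)) / 2 = (s' : ℂ) := by
    have h0 : ((θ₁ : G → ℂ) τ ^ 2 - (θ₁ : G → ℂ) (τ * τ)) / 2 = (s' : ℂ) := hs'
    rw [hττ, hs, hθ₁1] at h0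
    exact h0
  have hsq : ∑ y : ↥(P : Subgroup G), (θ₁ : G → ℂ) ((y : G) * (y : G)) = (p : ℂ) := by
    have hcop : (Nat.card ↥(P : Subgroup G)).Coprime 2 := by
      rw [hP]; exact (Nat.coprime_primes hp Nat.prime_two).mpr hp2
    have h0 := Equiv.sum_comp (powCoprime hcop)
      (fun y : ↥(P : Subgroup G) => (θ₁ : G → ℂ) (y : G))
    rw [← hS1, ← h0]
    apply Finset.sum_congr rfl
    intro y _
    rw [powCoprime_apply, pow_two, Subgroup.coe_mul]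
  have hθsq : ∑ y : ↥(P : Subgroup G), (θ₁ : G → ℂ) (y : G) ^ 2 = (p : ℂ) * ((e : ℂ) + 1) := by
    have h1 : ∀ y ∈ (Finset.univ.erase (1 : ↥(P : Subgroup G))),
        (θ₁ : G → ℂ) (y : G) ^ 2 = (θ₁ : G → ℂ) (y : G) + (e : ℂ) / 2 := by
      intro y hy
      obtain ⟨ha, hb, -, -⟩ := hV (y : G) (hne1 y hy).1 (hne1 y hy).2
      have h0 : (θ₂ : G → ℂ) (y : G) = 1 - (θ₁ : G → ℂ) (y : G) := by linear_combination ha
      rw [h0] at hb
      linear_combination -hb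
    have h2 : ∑ y ∈ (Finset.univ.erase (1 : ↥(P : Subgroup G))), (θ₁ : G → ℂ) (y : G) =
        (p : ℂ) - ((e : ℂ) + 1) := by
      have h0 : ∑ y : ↥(P : Subgroup G), (θ₁ : G → ℂ) (y : G) = (θ₁ : G → ℂ) 1 +
          ∑ y ∈ (Finset.univ.erase (1 : ↥(P : Subgroup G))), (θ₁ : G → ℂ) (y : G) :=
        hsplit (fun g => (θ₁ : G → ℂ) g)
      rw [hS1, hθ₁1] at h0
      linear_combination -h0
    have h3 : ∑ y : ↥(P : Subgroup G), (θ₁ : G → ℂ) (y : G) ^ 2 = (θ₁ : G → ℂ) 1 ^ 2 +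
        ∑ y ∈ (Finset.univ.erase (1 : ↥(P : Subgroup G))), (θ₁ : G → ℂ) (y : G) ^ 2 :=
      hsplit (fun g => (θ₁ : G → ℂ) g ^ 2)
    rw [h3, Finset.sum_congr rfl h1, Finset.sum_add_distrib, Finset.sum_const, nsmul_eq_mul,
      hcard_erase, h2, hθ₁1, hpcast]
    ring
  have hA2sum : ∑ y : ↥(P : Subgroup G),
      ((θ₁ : G → ℂ) (y : G) ^ 2 - (θ₁ : G → ℂ) ((y : G) * (y : G))) / 2 =
        (p : ℂ) * ((e : ℂ) / 2) := by
    rw [← Finset.sum_div, Finset.sum_sub_distrib, hθsq, hsq]; ring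
  rw [finsum_eq_sum_of_fintype] at hw'
  have hw'2 : (e : ℂ) = 2 * (w' : ℂ) := by
    have h0 : (p : ℂ) * ((e : ℂ) / 2) = (p : ℂ) * (w' : ℂ) := by rw [← hw']; exact hA2sum.symm
    have h2 := mul_left_cancel₀ hpC h0
    linear_combination 2 * h2
  have hw'e : (e : ℤ) = 2 * (w' : ℤ) := by exact_mod_cast hw'2
  have hs'' : (s : ℤ) ^ 2 - ((e : ℤ) + 1) = 2 * s' := by
    have h0 : ((s : ℂ)) ^ 2 - ((e : ℂ) + 1) = 2 * (s' : ℂ) := by linear_combination 2 * hs'2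
    exact_mod_cast h0
  have hs_sq : s ^ 2 = 1 := by
    have h1 : -(w' : ℤ) ≤ s' := (abs_le.mp hsw').1
    have h2 : -1 ≤ s ∧ s ≤ 1 := abs_le.mp (by simpa using hsw)
    have h3 : 1 ≤ s ^ 2 := by linarith
    have h4 : s ^ 2 ≤ 1 := by nlinarith [h2.1, h2.2]
    omega
  have hθ₁τsq : (θ₁ : G → ℂ) τ ^ 2 = 1 := by
    rw [hs]; exact_mod_cast hs_sq
  -- `R` at `τ`
  have hΞ : IsCharacter G ((θ₁ : G → ℂ) * (θ₂ : G → ℂ)) :=
    Cfsg.Agent.H4.isCharacter_mul (Cfsg.Agent.H4.isCharacter_of_isIrrCharacter θ₁.2)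
      (Cfsg.Agent.H4.isCharacter_of_isIrrCharacter θ₂.2)
  obtain ⟨hRX, hRY, hRdeg, hRdecomp⟩ := hR
  have hΞfun : ((θ₁ : G → ℂ) * (θ₂ : G → ℂ)) =
      (R : G → ℂ) + ∑ χ ∈ minusSet X δ, (χ : G → ℂ) := by
    funext g
    simp only [Pi.mul_apply, Pi.add_apply, Finset.sum_apply]
    exact hRdecomp g
  have hinner : classInner ((θ₁ : G → ℂ) * (θ₂ : G → ℂ)) (R : G → ℂ) ≠ 0 := by
    rw [hΞfun, Cfsg.Agent.H4.classInner_add_left, Cfsg.Agent.H4.classInner_sum_left,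
      Cfsg.Agent.H4.irr_inner_self, Finset.sum_eq_zero, add_zero]
    · exact one_ne_zero
    · intro χ hχ
      apply Cfsg.Agent.H4.irr_inner_ne
      rintro rfl
      exact hRX (mem_minusSet.mp hχ).1
  have hθ₂τ : (θ₂ : G → ℂ) τ = (θ₁ : G → ℂ) τ := hB.agree_Y θ₂ hθ₂Y θ₁ hθ₁Y τ hτord
  have hΞτ : ((θ₁ : G → ℂ) * (θ₂ : G → ℂ)) τ = 1 := by
    rw [Pi.mul_apply, hθ₂τ, ← pow_two]; exact hθ₁τsq
  have hΞsum : ∑ y : ↥(P : Subgroup G), ((θ₁ : G → ℂ) * (θ₂ : G → ℂ)) (y : G) = (p : ℂ) := by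
    have h1 : ∀ y ∈ (Finset.univ.erase (1 : ↥(P : Subgroup G))),
        ((θ₁ : G → ℂ) * (θ₂ : G → ℂ)) (y : G) = -(e : ℂ) / 2 := by
      intro y hy
      exact (hV (y : G) (hne1 y hy).1 (hne1 y hy).2).2.1
    rw [hsplit, Finset.sum_congr rfl h1, Finset.sum_const, nsmul_eq_mul, hcard_erase,
      Pi.mul_apply, hθ₁1, hθ₂1, hpcast]
    ring
  have hDih := (hD p hp hp2 (P : Subgroup G) hP τ hτ hinv _ hΞ R hinner).2
  have hcond : (∑ᶠ y : ↥(P : Subgroup G), ((θ₁ : G → ℂ) * (θ₂ : G → ℂ)) (y : G)) -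
      (p : ℂ) * ((θ₁ : G → ℂ) * (θ₂ : G → ℂ)) τ = 0 := by
    rw [finsum_eq_sum_of_fintype, hΞsum, hΞτ]; ring
  have hRres := hDih hcond
  have hRsum : ∑ y : ↥(P : Subgroup G), (R : G → ℂ) (y : G) = (p : ℂ) := by
    have h0 : ∀ y : ↥(P : Subgroup G), (R : G → ℂ) (y : G) =
        ((θ₁ : G → ℂ) * (θ₂ : G → ℂ)) (y : G) - ∑ χ ∈ minusSet X δ, (χ : G → ℂ) (y : G) := by
      intro y; rw [Pi.mul_apply, hRdecomp]; ring
    rw [Finset.sum_congr rfl (fun y _ => h0 y), Finset.sum_sub_distrib, hΞsum, Finset.sum_comm,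
      Finset.sum_eq_zero (fun χ hχ => (hminus χ hχ).2), sub_zero]
  rw [finsum_eq_sum_of_fintype, hRsum] at hRres
  have hRτ : (R : G → ℂ) τ = 1 := by
    have h0 : (p : ℂ) * (1 - (R : G → ℂ) τ) = 0 := by linear_combination hRres
    rcases mul_eq_zero.mp h0 with h | h
    · exact absurd h hpC
    · linear_combination -h
  exact ⟨hθ₁τsq, hRτ, fun χ hχ => (hminus χ hχ).1⟩

example : StDih.{u} → StTauV.{u} := tauV

end Cfsg.Agent.H61.BT

#print axioms Cfsg.Agent.H61.BT.tauV
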