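import Mathlib
import Cfsg.Agent.H6.DcDefs

/-!
# S2132 (helper6), piece DC-ABS (helper61): abstract recognition of a non-split double cover of
the alternating group of degree 8
-/

set_option autoImplicit false

namespace Cfsg.Agent.H61.Dc

open Cfsg.Agent.H6.Dc Equiv

theorem abs (hcen : StCenter) : StAbs := by
  intro C _ _ X ρ β t g hβ hrange ht1 htc hρt hgg hcard
  classical
  have hA8 : Nat.card (alternatingGroup (Fin 8)) = 20160 := by
    rw [nat_card_alternatingGroup, Nat.card_fin]; rfl
  have hβcard : Nat.card β.range = 20160 := by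
    rw [← hA8]; exact (Nat.card_congr (MonoidHom.ofInjective hβ).toEquiv).symm
  have hle : β.range ≤ ρ.range := by
    rintro _ ⟨a, rfl⟩; exact hrange a
  have hfin : Finite ↥ρ.range := Finite.of_surjective _ ρ.rangeRestrict_surjective
  have hρge : 20160 ≤ Nat.card ρ.range := by
    rw [← hβcard]; exact Subgroup.card_le_of_le hle
  have hprod : Nat.card ρ.ker * Nat.card ρ.range = Nat.card C := by
    rw [← Subgroup.index_ker, Subgroup.card_mul_index]
  have ht_ker : t ∈ ρ.ker := by rw [MonoidHom.mem_ker]; exact hρt
  have hker2 : 2 ≤ Nat.card ρ.ker := by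
    have : Fintype ρ.ker := Fintype.ofFinite _
    rw [Nat.card_eq_fintype_card]
    have h1 : (⟨t, ht_ker⟩ : ρ.ker) ≠ 1 := by
      intro h; apply ht1; exact congrArg Subtype.val h
    exact Fintype.one_lt_card_iff_nontrivial.mpr ⟨⟨_, _, h1⟩⟩
  have hkercard : Nat.card ρ.ker = 2 := by
    by_contra hne
    have h3 : 3 ≤ Nat.card ρ.ker := by omega
    have h4 : 3 * 20160 ≤ Nat.card ρ.ker * Nat.card ρ.range := Nat.mul_le_mul h3 hρge
    omega
  have hρcard : Nat.card ρ.range = 20160 := by
    rw [hkercard] at hprod; omega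
  have hrange_eq : β.range = ρ.range := by
    apply Subgroup.eq_of_le_of_card_ge hle
    rw [hβcard, hρcard]
  have hker_elts : ∀ z ∈ ρ.ker, z = 1 ∨ z = t := by
    intro z hz
    by_contra hcon
    push Not at hcon
    have : Fintype ρ.ker := Fintype.ofFinite _
    have h3 : 2 < Fintype.card ρ.ker := by
      rw [Fintype.two_lt_card_iff]
      exact ⟨1, ⟨t, ht_ker⟩, ⟨z, hz⟩, fun h => ht1 (congrArg Subtype.val h).symm,
        fun h => hcon.1 (congrArg Subtype.val h).symm,
        fun h => hcon.2 (congrArg Subtype.val h).symm⟩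
    rw [← Nat.card_eq_fintype_card, hkercard] at h3
    omega
  have hcenter : Subgroup.center C = ρ.ker := by
    ext z
    constructor
    · intro hz
      rw [MonoidHom.mem_ker]
      have hzr : ρ z ∈ β.range := by rw [hrange_eq]; exact ⟨z, rfl⟩
      obtain ⟨a, ha⟩ := hzr
      have ha1 : a = 1 := by
        apply hcen
        intro b
        apply hβ
        rw [map_mul, map_mul, ha]
        obtain ⟨c, hc⟩ := hrange b
        rw [← hc, ← map_mul, ← map_mul]
        congr 1
        exact (Subgroup.mem_center_iff.mp hz c)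
      rw [← ha, ha1, map_one]
    · intro hz
      rcases hker_elts z hz with h1 | h1
      · rw [h1]; exact Subgroup.one_mem _
      · rw [h1, Subgroup.mem_center_iff]; exact htc
  refine ⟨by rw [hcenter]; exact hkercard, ?_, ?_⟩
  · refine ⟨?_⟩
    exact (QuotientGroup.quotientMulEquivOfEq hcenter).trans
      ((QuotientGroup.quotientKerEquivRange ρ).trans
        ((MulEquiv.subgroupCongr hrange_eq.symm).trans (MonoidHom.ofInjective hβ).symm))
  · intro L hL
    have hz2 : ∀ z ∈ Subgroup.center C, z * z = 1 := by
      intro z hz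
      rw [hcenter] at hz
      rcases hker_elts z hz with h1 | h1
      · rw [h1]; simp
      · rw [h1]
        have htt : t * t ∈ ρ.ker := Subgroup.mul_mem _ ht_ker ht_ker
        rcases hker_elts _ htt with h | h
        · exact h
        · exfalso; apply ht1
          have h0 : t * t = t * 1 := by rw [mul_one]; exact h
          exact mul_left_cancel h0
    obtain ⟨⟨⟨z, hz⟩, ⟨l, hl⟩⟩, hzl⟩ := hL.2 g
    simp only at hzl
    have htl : t = l * l := by
      rw [← hgg, ← hzl]
      have hzc : ∀ c : C, c * z = z * c := Subgroup.mem_center_iff.mp hz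
      calc z * l * (z * l) = (z * z) * (l * l) := by
            rw [mul_assoc, ← mul_assoc l z l, hzc l]; group
        _ = l * l := by rw [hz2 z hz, one_mul]
    have htL : t ∈ L := by rw [htl]; exact L.mul_mem hl hl
    have htC : t ∈ Subgroup.center C := by rw [Subgroup.mem_center_iff]; exact htc
    have hdisj := hL.disjoint
    have h5 : t ∈ Subgroup.center C ⊓ L := ⟨htC, htL⟩
    rw [hdisj.eq_bot, Subgroup.mem_bot] at h5
    exact ht1 h5

example : StCenter → StAbs := abs

end Cfsg.Agent.H61.Dc

#print axioms Cfsg.Agent.H61.Dc.abs
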