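import Mathlib
import Cfsg.Agent.H6.DcDefs

/-!
# S2132 (helper6), piece DC-CLASS (helper61): a lower bound for a conjugacy class bounds the
centraliser
-/

set_option autoImplicit false

namespace Cfsg.Agent.H61.Dc

open Cfsg.Agent.H6.Dc

theorem cls : StClass := by
  intro G _ _ t n f hf hconj
  classical
  have hex : ∀ i, ∃ g : G, g * t * g⁻¹ = f i := by
    intro i
    obtain ⟨c, hc⟩ := isConj_iff.mp (hconj i)
    exact ⟨c, hc⟩
  choose g hg using hex
  have hz : ∀ (k : Fin n) (w : ↥(Subgroup.centralizer ({t} : Set G))),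
      (g k * (w : G)) * t * (g k * (w : G))⁻¹ = f k := by
    intro k w
    have hw : (w : G) * t = t * (w : G) := by
      have h0 := w.2
      rw [Subgroup.mem_centralizer_iff] at h0
      exact (h0 t rfl).symm
    calc (g k * (w : G)) * t * (g k * (w : G))⁻¹
        = g k * ((w : G) * t) * (w : G)⁻¹ * (g k)⁻¹ := by group
      _ = g k * (t * (w : G)) * (w : G)⁻¹ * (g k)⁻¹ := by rw [hw]
      _ = g k * t * (g k)⁻¹ := by group
      _ = f k := hg k
  have hφ : Function.Injective
      (fun x : Fin n × ↥(Subgroup.centralizer ({t} : Set G)) => g x.1 * (x.2 : G)) := by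
    rintro ⟨i, z⟩ ⟨j, z'⟩ h
    simp only at h
    have hij : i = j := by
      apply hf
      rw [← hz i z, ← hz j z', h]
    subst hij
    have h1 : (z : G) = (z' : G) := mul_left_cancel h
    rw [Subtype.ext h1]
  have h2 := Nat.card_le_card_of_injective _ hφ
  rw [Nat.card_prod, Nat.card_fin] at h2
  exact h2

example : StClass := cls

end Cfsg.Agent.H61.Dc

#print axioms Cfsg.Agent.H61.Dc.cls
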