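import Mathlib
import Cfsg.Agent.H61.J1Out
import Cfsg.Agent.H62.A5Spec
import Cfsg.Agent.H62.Unbounded

/-!
# Janko's group `J₁`: element orders, and `J₁⁴` is not recognisable by its spectrum

* every element of `J₁` has order in `{1, 2, 3, 5, 6, 7, 10, 11, 15, 19}` (from centraliser bounds
  for elements of orders 7, 11, 19 and the centraliser `2 × A₅` of an involution);
* `J₁ × J₁ × J₁ × D₁₉` has the same set of element orders as `J₁⁴` and a non-trivial soluble normal
  subgroup, so there are isospectral groups of unbounded order.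
-/

set_option autoImplicit false

namespace Cfsg.Agent.H61.J1

open scoped MatrixGroups

/-! ### Centraliser bounds from a tree of conjugates -/

theorem card_centralizer_mul_le (hG : Nat.card ↥Cfsg.Spor.J1 = 175560) (t : ↥Cfsg.Spor.J1)
    (tc : ℕ) (ht : IsCode t tc) (T : CT) (h1 : chkRoot tc T = true)
    (h2 : nodupOK (codesCT T) = true)
    (h3 : (codesCT T).all (fun c => Nat.blt c (11 ^ 49)) = true) :
    (codesCT T).length * Nat.card (Subgroup.centralizer ({t} : Set ↥Cfsg.Spor.J1)) ≤ 175560 := by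
  have hconj := chkRoot_sound t tc ht T h1
  have hnd := nodup_of_nodupOK _ h2
  rw [List.all_eq_true] at h3
  have hex : ∀ i : Fin (codesCT T).length, ConjCode t ((codesCT T).get i) :=
    fun i => hconj _ (List.get_mem _ i)
  choose s hs using hex
  have hinj : Function.Injective s := by
    intro i j e
    have e1 : decM ((codesCT T).get i) = decM ((codesCT T).get j) := by
      rw [← (hs i).1, ← (hs j).1, e]
    have e2 := eq_of_decM_eq (Nat.blt_eq.mp (h3 _ (List.get_mem _ i)))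
      (Nat.blt_eq.mp (h3 _ (List.get_mem _ j))) e1
    exact (List.nodup_iff_injective_get.mp hnd) e2
  have h5 := card_centralizer_le t _ s hinj (fun i => (hs i).2)
  rwa [hG] at h5

/-! ### Abstract lemmas on element orders -/

theorem orderOf_conj_eq {G : Type*} [Group G] (a g : G) : orderOf (a * g * a⁻¹) = orderOf g := by
  have e0 : a * g * a⁻¹ = MulAut.conj a g := rfl
  rw [e0, MulEquiv.orderOf_eq]

/-- If `x` has prime order `q`, `q² ∤ |G|` and `q` divides the order of `g`, then the order of `g`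
divides `|C(x)|`. -/
theorem orderOf_dvd_card_centralizer {G : Type*} [Group G] [Finite G] (x : G) (q : ℕ)
    (hq : q.Prime) (hx : orderOf x = q) (hq2 : ¬ q ^ 2 ∣ Nat.card G) (g : G)
    (hg : q ∣ orderOf g) : orderOf g ∣ Nat.card (Subgroup.centralizer ({x} : Set G)) := by
  have hpos : 0 < orderOf g := orderOf_pos g
  obtain ⟨k, hk⟩ := hg
  have hk0 : k ≠ 0 := by
    rintro rfl
    rw [mul_zero] at hk
    omega
  have hy : orderOf (g ^ k) = q ^ 1 := by
    rw [orderOf_pow_of_dvd hk0 ⟨q, by rw [hk, mul_comm]⟩, hk, Nat.mul_div_cancel _ (Nat.pos_of_ne_zero hk0),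
      pow_one]
  obtain ⟨a, ha⟩ := exists_conj_mem_of_card_pow q hq (Subgroup.zpowers x) 1
    (by rw [Nat.card_zpowers, hx, pow_one]) hq2 (g ^ k) 1 hy
  have hy' : orderOf (a * g ^ k * a⁻¹) = q := by rw [orderOf_conj_eq, hy, pow_one]
  have hconj : a * g ^ k * a⁻¹ = (a * g * a⁻¹) ^ k := by
    rw [conj_pow]
  have hzp : Subgroup.zpowers (a * g ^ k * a⁻¹) = Subgroup.zpowers x := by
    apply Subgroup.eq_of_le_of_card_ge
    · rw [Subgroup.zpowers_le]
      exact ha
    · rw [Nat.card_zpowers, Nat.card_zpowers, hx, hy']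
  have hxm : x ∈ Subgroup.zpowers ((a * g * a⁻¹) ^ k) := by
    rw [← hconj, hzp]
    exact Subgroup.mem_zpowers x
  obtain ⟨j, hj⟩ := Subgroup.mem_zpowers_iff.mp hxm
  have hcomm : Commute x (a * g * a⁻¹) := by
    rw [← hj]
    exact ((Commute.refl (a * g * a⁻¹)).pow_left k).zpow_left j
  have hmem : a * g * a⁻¹ ∈ Subgroup.centralizer ({x} : Set G) := by
    rw [Subgroup.mem_centralizer_iff]
    intro h hh
    rw [Set.mem_singleton_iff.mp hh]
    exact hcomm.eq
  have h1 := orderOf_dvd_natCard (⟨a * g * a⁻¹, hmem⟩ : Subgroup.centralizer ({x} : Set G))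
  rwa [Subgroup.orderOf_mk, orderOf_conj_eq] at h1

/-- If all involutions are conjugate to `T` and `C(T) ≅ 2 × A₅`, then elements of even order have
order 2, 6 or 10. -/
theorem orderOf_of_even {G : Type*} [Group G] [Finite G] (T : G)
    (hinv : ∀ t' : G, orderOf t' = 2 → ∃ a : G, a * T * a⁻¹ = t')
    (e : ↥(Subgroup.centralizer ({T} : Set G)) ≃*
      Multiplicative (ZMod 2) × ↥(alternatingGroup (Fin 5)))
    (g : G) (hg : 2 ∣ orderOf g) : orderOf g = 2 ∨ orderOf g = 6 ∨ orderOf g = 10 := by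
  have hpos : 0 < orderOf g := orderOf_pos g
  obtain ⟨k, hk⟩ := hg
  have hk0 : k ≠ 0 := by
    rintro rfl
    rw [mul_zero] at hk
    omega
  have hy : orderOf (g ^ k) = 2 := by
    rw [orderOf_pow_of_dvd hk0 ⟨2, by rw [hk, mul_comm]⟩, hk, Nat.mul_div_cancel _ (Nat.pos_of_ne_zero hk0)]
  obtain ⟨a, ha⟩ := hinv (g ^ k) hy
  have hT : T = (a⁻¹ * g * a⁻¹⁻¹) ^ k := by
    rw [conj_pow, ← ha]
    group
  have hcomm : Commute T (a⁻¹ * g * a⁻¹⁻¹) := by
    rw [hT]
    exact (Commute.refl _).pow_left k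
  have hmem : a⁻¹ * g * a⁻¹⁻¹ ∈ Subgroup.centralizer ({T} : Set G) := by
    rw [Subgroup.mem_centralizer_iff]
    intro h hh
    rw [Set.mem_singleton_iff.mp hh]
    exact hcomm.eq
  have h1 : orderOf (e ⟨a⁻¹ * g * a⁻¹⁻¹, hmem⟩) = orderOf g := by
    rw [MulEquiv.orderOf_eq, Subgroup.orderOf_mk, orderOf_conj_eq]
  rw [Prod.orderOf] at h1
  have hz : orderOf (e ⟨a⁻¹ * g * a⁻¹⁻¹, hmem⟩).1 = 1 ∨ orderOf (e ⟨a⁻¹ * g * a⁻¹⁻¹, hmem⟩).1 = 2 := by
    have hd := orderOf_dvd_natCard (e ⟨a⁻¹ * g * a⁻¹⁻¹, hmem⟩).1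
    have hcardZ : Nat.card (Multiplicative (ZMod 2)) = 2 := by
      rw [Nat.card_congr Multiplicative.toAdd, Nat.card_eq_fintype_card, ZMod.card]
    rw [hcardZ] at hd
    exact (Nat.dvd_prime Nat.prime_two).mp hd
  have hσ := Cfsg.Agent.H62.a5_orderOf (e ⟨a⁻¹ * g * a⁻¹⁻¹, hmem⟩).2
  have h2 : 2 ∣ orderOf g := ⟨k, hk⟩
  rcases hz with hz | hz <;> rcases hσ with hσ | hσ | hσ | hσ <;> rw [hz, hσ] at h1 <;>
    rw [← h1] at h2 ⊢ <;> revert h2 <;> decide

/-- The possible element orders of a group of order 175560 with the centraliser data of `J₁`. -/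
theorem orderOf_mem_of_data {G : Type*} [Group G] [Finite G] (hG : Nat.card G = 175560) (T : G)
    (hinv : ∀ t' : G, orderOf t' = 2 → ∃ a : G, a * T * a⁻¹ = t')
    (e : ↥(Subgroup.centralizer ({T} : Set G)) ≃*
      Multiplicative (ZMod 2) × ↥(alternatingGroup (Fin 5)))
    (x7 x11 x19 : G) (h7 : orderOf x7 = 7) (h11 : orderOf x11 = 11) (h19 : orderOf x19 = 19)
    (c7 : Nat.card (Subgroup.centralizer ({x7} : Set G)) ≤ 20)
    (c11 : Nat.card (Subgroup.centralizer ({x11} : Set G)) ≤ 32)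
    (c19 : Nat.card (Subgroup.centralizer ({x19} : Set G)) ≤ 56)
    (g : G) : orderOf g ∈ ([1, 2, 3, 5, 6, 7, 10, 11, 15, 19] : List ℕ) := by
  have hn : orderOf g ∣ 175560 := hG ▸ orderOf_dvd_natCard g
  have hpos : 0 < orderOf g := orderOf_pos g
  by_cases d2 : 2 ∣ orderOf g
  · rcases orderOf_of_even T hinv e g d2 with h | h | h <;> rw [h] <;> decide
  have key : ∀ (x : G) (q B : ℕ), q.Prime → orderOf x = q → ¬ q ^ 2 ∣ 175560 →
      Nat.card (Subgroup.centralizer ({x} : Set G)) ≤ B → q ∣ orderOf g → orderOf g ≤ B := by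
    intro x q B hq hx hq2 hB hd
    have h1 := orderOf_dvd_card_centralizer x q hq hx (hG ▸ hq2) g hd
    exact (Nat.le_of_dvd Nat.card_pos h1).trans hB
  by_cases d19 : 19 ∣ orderOf g
  · have hle := key x19 19 56 (by norm_num) h19 (by norm_num) c19 d19
    have : orderOf g = 19 := by omega
    rw [this]; decide
  by_cases d11 : 11 ∣ orderOf g
  · have hle := key x11 11 32 (by norm_num) h11 (by norm_num) c11 d11
    have : orderOf g = 11 := by omega
    rw [this]; decide
  by_cases d7 : 7 ∣ orderOf g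
  · have hle := key x7 7 20 (by norm_num) h7 (by norm_num) c7 d7
    have : orderOf g = 7 := by omega
    rw [this]; decide
  have cp : ∀ p : ℕ, p.Prime → ¬ p ∣ orderOf g → Nat.Coprime (orderOf g) p :=
    fun p hp hnd => ((Nat.Prime.coprime_iff_not_dvd hp).mpr hnd).symm
  have hc : Nat.Coprime (orderOf g) (2 ^ 3 * (7 * (11 * 19))) :=
    Nat.Coprime.mul_right (Nat.Coprime.pow_right 3 (cp 2 Nat.prime_two d2))
      (Nat.Coprime.mul_right (cp 7 (by norm_num) d7)
        (Nat.Coprime.mul_right (cp 11 (by norm_num) d11) (cp 19 (by norm_num) d19)))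
  have h15 : orderOf g ∣ 15 := hc.dvd_of_dvd_mul_left (by norm_num; exact hn)
  have hle : orderOf g ≤ 15 := Nat.le_of_dvd (by norm_num) h15
  generalize orderOf g = n at *
  interval_cases n <;> first | decide | (exfalso; revert h15; decide)

/-! ### The dihedral group of order 38 -/

theorem dih19_orderOf (d : DihedralGroup 19) : orderOf d = 1 ∨ orderOf d = 2 ∨ orderOf d = 19 := by
  cases d with
  | r i =>
    rw [DihedralGroup.orderOf_r]
    have hi : i.val < 19 := ZMod.val_lt i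
    have hg : Nat.gcd 19 i.val = 1 ∨ Nat.gcd 19 i.val = 19 :=
      (Nat.dvd_prime (by norm_num)).mp (Nat.gcd_dvd_left 19 i.val)
    rcases hg with h | h
    · right; right; rw [h]
    · left; rw [h]
  | sr i => right; left; exact DihedralGroup.orderOf_sr i

theorem dih19_exists (n : ℕ) (hn : n = 1 ∨ n = 2 ∨ n = 19) :
    ∃ d : DihedralGroup 19, orderOf d = n := by
  rcases hn with rfl | rfl | rfl
  · exact ⟨1, orderOf_one⟩
  · exact ⟨DihedralGroup.sr 0, DihedralGroup.orderOf_sr 0⟩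
  · exact ⟨DihedralGroup.r 1, DihedralGroup.orderOf_r_one⟩

/-! ### Least common multiples of four orders -/

/-- The least common multiple of four numbers, nested as the order of a quadruple. -/
def lcm4 (t : ℕ × ℕ × ℕ × ℕ) : ℕ := Nat.lcm t.1 (Nat.lcm t.2.1 (Nat.lcm t.2.2.1 t.2.2.2))

theorem orderOf_prod4 {A B C D : Type*} [Monoid A] [Monoid B] [Monoid C] [Monoid D]
    (x : A × B × C × D) :
    orderOf x = lcm4 (orderOf x.1, orderOf x.2.1, orderOf x.2.2.1, orderOf x.2.2.2) := by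
  rw [Prod.orderOf, Prod.orderOf, Prod.orderOf]
  rfl

/-- The element orders of `J₁`. -/
def specL : List ℕ := [1, 2, 3, 5, 6, 7, 10, 11, 15, 19]

/-- Candidate rewritings of a quadruple of orders, the last entry being an order of `D₁₉`. -/
def cands (a b c d : ℕ) : List (ℕ × ℕ × ℕ × ℕ) :=
  [(a, b, c, d), (a, b, d, c), (a, c, d, b), (b, c, d, a), (a, b, c, 1), (a, b, d, 1),
    (a, c, d, 1), (b, c, d, 1), (7, 11, 15, 2), (7, 11, 15, 1)]

/-- A candidate is good: its last entry is 1, 2 or 19 and it has the prescribed `lcm`. -/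
def okC (L : ℕ) (t : ℕ × ℕ × ℕ × ℕ) : Bool :=
  (Nat.beq t.2.2.2 1 || Nat.beq t.2.2.2 2 || Nat.beq t.2.2.2 19) && Nat.beq (lcm4 t) L

theorem comb_aux : (specL.all fun a => specL.all fun b => specL.all fun c => specL.all fun d =>
    (cands a b c d).any (okC (lcm4 (a, b, c, d)))) = true := by decide +kernel

theorem comb (a b c d : ℕ) (ha : a ∈ specL) (hb : b ∈ specL) (hc : c ∈ specL) (hd : d ∈ specL) :
    ∃ t ∈ cands a b c d, (t.2.2.2 = 1 ∨ t.2.2.2 = 2 ∨ t.2.2.2 = 19) ∧
      lcm4 t = lcm4 (a, b, c, d) := by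
  have h := comb_aux
  rw [List.all_eq_true] at h
  have h1 := h a ha
  rw [List.all_eq_true] at h1
  have h2 := h1 b hb
  rw [List.all_eq_true] at h2
  have h3 := h2 c hc
  rw [List.all_eq_true] at h3
  have h4 := h3 d hd
  rw [List.any_eq_true] at h4
  obtain ⟨t, ht, hok⟩ := h4
  refine ⟨t, ht, ?_⟩
  unfold okC at hok
  rw [Bool.and_eq_true, Bool.or_eq_true, Bool.or_eq_true] at hok
  obtain ⟨h1', h2'⟩ := hok
  refine ⟨?_, Nat.eq_of_beq_eq_true h2'⟩
  rcases h1' with (h | h) | h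
  · exact Or.inl (Nat.eq_of_beq_eq_true h)
  · exact Or.inr (Or.inl (Nat.eq_of_beq_eq_true h))
  · exact Or.inr (Or.inr (Nat.eq_of_beq_eq_true h))

/-- A group with the element orders of `J₁` has, in its fourth power, the same element orders as
the product of its cube with the dihedral group of order 38. -/
theorem range_orderOf_eq {J : Type*} [Group J] (hspec : ∀ g : J, orderOf g ∈ specL)
    (hR : ∀ n ∈ ([1, 2, 7, 11, 15, 19] : List ℕ), ∃ g : J, orderOf g = n) :
    Set.range (orderOf : J × J × J × DihedralGroup 19 → ℕ) =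
      Set.range (orderOf : J × J × J × J → ℕ) := by
  ext n
  constructor
  · rintro ⟨⟨g1, g2, g3, d⟩, rfl⟩
    obtain ⟨g4, hg4⟩ : ∃ g4 : J, orderOf g4 = orderOf d := by
      rcases dih19_orderOf d with h | h | h <;> rw [h] <;> exact hR _ (by decide)
    refine ⟨(g1, g2, g3, g4), ?_⟩
    rw [orderOf_prod4, orderOf_prod4, hg4]
  · rintro ⟨⟨g1, g2, g3, g4⟩, rfl⟩
    obtain ⟨t, ht, hy, hl⟩ := comb (orderOf g1) (orderOf g2) (orderOf g3) (orderOf g4)
      (hspec g1) (hspec g2) (hspec g3) (hspec g4)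
    have hreal : (∃ g : J, orderOf g = t.1) ∧ (∃ g : J, orderOf g = t.2.1) ∧
        (∃ g : J, orderOf g = t.2.2.1) := by
      simp only [cands, List.mem_cons, List.not_mem_nil, or_false] at ht
      rcases ht with rfl | rfl | rfl | rfl | rfl | rfl | rfl | rfl | rfl | rfl
      all_goals
        refine ⟨?_, ?_, ?_⟩ <;>
          first
            | exact ⟨g1, rfl⟩ | exact ⟨g2, rfl⟩ | exact ⟨g3, rfl⟩ | exact ⟨g4, rfl⟩
            | exact hR _ (by decide)
    obtain ⟨⟨a', ha'⟩, ⟨b', hb'⟩, ⟨c', hc'⟩⟩ := hreal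
    obtain ⟨δ, hδ⟩ := dih19_exists t.2.2.2 hy
    refine ⟨(a', b', c', δ), ?_⟩
    rw [orderOf_prod4, orderOf_prod4, ha', hb', hc', hδ]
    exact hl

/-! ### The soluble normal subgroup -/

theorem dih19_rot_normal : (Subgroup.zpowers (DihedralGroup.r 1 : DihedralGroup 19)).Normal := by
  apply Subgroup.normal_of_index_eq_two
  have h := Subgroup.card_mul_index (Subgroup.zpowers (DihedralGroup.r 1 : DihedralGroup 19))
  rw [Nat.card_zpowers, DihedralGroup.orderOf_r_one, DihedralGroup.nat_card] at h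
  omega

/-- For a group `J` with the element orders of `J₁`, there are finite groups of arbitrarily large
order with the same element orders as `J⁴`. -/
theorem unbounded_of_spec {J : Type} [Group J] [Finite J] (hspec : ∀ g : J, orderOf g ∈ specL)
    (hR : ∀ n ∈ ([1, 2, 7, 11, 15, 19] : List ℕ), ∃ g : J, orderOf g = n) (N : ℕ) :
    ∃ (H : Type) (_ : Group H) (_ : Fintype H), N < Fintype.card H ∧
      Set.range (orderOf : H → ℕ) = Set.range (orderOf : J × J × J × J → ℕ) := by
  have hnorm := dih19_rot_normal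
  let K : Subgroup (J × J × J × DihedralGroup 19) :=
    (⊥ : Subgroup J).prod ((⊥ : Subgroup J).prod ((⊥ : Subgroup J).prod
      (Subgroup.zpowers (DihedralGroup.r 1 : DihedralGroup 19))))
  have hKn : K.Normal := inferInstance
  have hmem : ∀ x : J × J × J × DihedralGroup 19, x ∈ K ↔
      x.1 = 1 ∧ x.2.1 = 1 ∧ x.2.2.1 = 1 ∧
        x.2.2.2 ∈ Subgroup.zpowers (DihedralGroup.r 1 : DihedralGroup 19) := by
    intro x
    simp only [K, Subgroup.mem_prod, Subgroup.mem_bot]
  have hK : K ≠ ⊥ := by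
    intro h
    have h1 : ((1, 1, 1, DihedralGroup.r 1) : J × J × J × DihedralGroup 19) ∈ K :=
      (hmem _).mpr ⟨rfl, rfl, rfl, Subgroup.mem_zpowers _⟩
    rw [h, Subgroup.mem_bot] at h1
    have h2 : (DihedralGroup.r 1 : DihedralGroup 19) = 1 := congrArg (fun x => x.2.2.2) h1
    revert h2
    decide
  have hs : Group.IsSolvable K := by
    apply Group.isSolvable_of_comm
    rintro ⟨a, ha⟩ ⟨b, hb⟩
    apply Subtype.ext
    obtain ⟨a1, a2, a3, a4⟩ := (hmem a).mp ha
    obtain ⟨b1, b2, b3, b4⟩ := (hmem b).mp hb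
    obtain ⟨i, hi⟩ := Subgroup.mem_zpowers_iff.mp a4
    obtain ⟨j, hj⟩ := Subgroup.mem_zpowers_iff.mp b4
    have h4 : a.2.2.2 * b.2.2.2 = b.2.2.2 * a.2.2.2 := by
      rw [← hi, ← hj, ← zpow_add, ← zpow_add, add_comm]
    change a * b = b * a
    refine Prod.ext ?_ (Prod.ext ?_ (Prod.ext ?_ ?_))
    · simp only [Prod.fst_mul, a1, b1]
    · simp only [Prod.fst_mul, Prod.snd_mul, a2, b2]
    · simp only [Prod.fst_mul, Prod.snd_mul, a3, b3]
    · simp only [Prod.snd_mul]
      exact h4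
  obtain ⟨H, iG, iF, hN, hH⟩ := Cfsg.Agent.H62.unbounded_isospectral K hK hs N
  exact ⟨H, iG, iF, hN, hH.trans (range_orderOf_eq hspec hR)⟩

/-! ### The facts about `J₁` from certificates -/

/-- All involutions of `J₁` are conjugate to the involution `wp (wordAt WE 1)`. -/
theorem involutions_conj (hG : Nat.card ↥Cfsg.Spor.J1 = 175560)
    (WE WC : List (List Bool)) (EC : List ℕ) (hWE0 : wordAt WE 0 = [])
    (hsyl : sylOK WE EC = true) (hconj : conjOK WC EC = true) :
    ∀ t' : ↥Cfsg.Spor.J1, orderOf t' = 2 →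
      ∃ a : ↥Cfsg.Spor.J1, a * wp (wordAt WE 1) * a⁻¹ = t' := by
  obtain ⟨hc, hne1, hmul⟩ := sylOK_sound WE EC hsyl
  have hE0 : wp (wordAt WE 0) = 1 := by rw [hWE0]; rfl
  have hP0 := card_xorSubgroup (fun k => wp (wordAt WE k)) hE0 hmul hne1
  intro t' ht'
  obtain ⟨g, hg⟩ := exists_conj_mem_of_card_pow 2 Nat.prime_two _ 3 hP0
    (by rw [hG]; norm_num) t' 1 (by rw [ht']; norm_num)
  obtain ⟨k, hk, hEk⟩ := hg
  have hk0 : k ≠ 0 := by
    rintro rfl
    have e1 : g * t' * g⁻¹ = 1 := hEk.symm.trans hE0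
    have e2 : t' = 1 := by
      have : t' = g⁻¹ * (g * t' * g⁻¹) * g := by group
      rw [this, e1]
      group
    rw [e2, orderOf_one] at ht'
    norm_num at ht'
  obtain ⟨c, hc'⟩ := conjOK_sound WC EC hconj WE hc k hk hk0
  refine ⟨g⁻¹ * c, ?_⟩
  have e3 : c * wp (wordAt WE 1) * c⁻¹ = g * t' * g⁻¹ := by
    rw [hc', mul_inv_cancel_right]
    exact hEk
  calc g⁻¹ * c * wp (wordAt WE 1) * (g⁻¹ * c)⁻¹
      = g⁻¹ * (c * wp (wordAt WE 1) * c⁻¹) * g := by group
    _ = g⁻¹ * (g * t' * g⁻¹) * g := by rw [e3]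
    _ = t' := by group

/-- The centraliser of the involution given by the word `wt` is `2 × A₅`. -/
theorem centralizer_equiv_J1 (hG : Nat.card ↥Cfsg.Spor.J1 = 175560) (wt wa wb : List Bool)
    (tc : ℕ) (T : CT) (hw : (evalC wt == tc) = true)
    (h1 : chkRoot tc T = true) (h2 : nodupOK (codesCT T) = true)
    (h3 : (codesCT T).all (fun c => Nat.blt c (11 ^ 49)) = true)
    (h4 : (codesCT T).length = 1463)
    (ho : ordOK wt 2 = true)
    (k1 : eqW (wt ++ wa) (wa ++ wt) = true) (k2 : eqW (wt ++ wb) (wb ++ wt) = true)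
    (k3 : eqW (List.replicate 3 wa).flatten [] = true)
    (k4 : eqW (List.replicate 5 wb).flatten [] = true)
    (k5 : eqW (List.replicate 2 (wa ++ wb)).flatten [] = true)
    (k6 : neC (evalC wa) oneC = true) :
    Nonempty (↥(Subgroup.centralizer ({wp wt} : Set ↥Cfsg.Spor.J1)) ≃*
      Multiplicative (ZMod 2) × ↥(alternatingGroup (Fin 5))) := by
  have ht : IsCode (wp wt) tc := by
    have a1 := isCode_wp wt
    rw [beq_iff_eq.mp hw] at a1
    exact a1
  refine centralizer_equiv (wp wt) (wp wa) (wp wb) (orderOf_wp wt 2 Nat.prime_two ho)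
    (card_centralizer_J1 hG (wp wt) tc ht T h1 h2 h3 h4) ?_ ?_ ?_ ?_ ?_ ?_
  · rw [← wp_append, ← wp_append]
    exact wp_eq_of_eqW k1
  · rw [← wp_append, ← wp_append]
    exact wp_eq_of_eqW k2
  · rw [← wp_replicate]
    exact wp_eq_of_eqW k3
  · rw [← wp_replicate]
    exact wp_eq_of_eqW k4
  · rw [← wp_append, ← wp_replicate]
    exact wp_eq_of_eqW k5
  · exact (isCode_wp wa).ne isCode_one k6

/-- A word of order 15. -/
theorem orderOf_wp15 (w : List Bool) (h1 : eqW (List.replicate 15 w).flatten [] = true)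
    (h2 : neC (evalC (List.replicate 5 w).flatten) oneC = true)
    (h3 : neC (evalC (List.replicate 3 w).flatten) oneC = true) : orderOf (wp w) = 15 := by
  have e15 : wp w ^ 15 = 1 := by
    rw [← wp_replicate]
    exact wp_eq_of_eqW h1
  have e5 : wp w ^ 5 ≠ 1 := by
    rw [← wp_replicate]
    exact (isCode_wp _).ne isCode_one h2
  have e3 : wp w ^ 3 ≠ 1 := by
    rw [← wp_replicate]
    exact (isCode_wp _).ne isCode_one h3
  refine orderOf_eq_of_pow_and_pow_div_prime (by norm_num) e15 ?_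
  intro p hp hpd
  have h35 : p ∣ 3 * 5 := hpd
  rcases (Nat.Prime.dvd_mul hp).mp h35 with h | h
  · have : p = 3 := (Nat.prime_dvd_prime_iff_eq hp Nat.prime_three).mp h
    rw [this]
    exact e5
  · have : p = 5 := (Nat.prime_dvd_prime_iff_eq hp (by norm_num)).mp h
    rw [this]
    exact e3

end Cfsg.Agent.H61.J1
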