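import Mathlib
import Cfsg.Agent.H61.J1Spec
import Cfsg.Agent.H61.J1SpecD7
import Cfsg.Agent.H61.J1SpecD11
import Cfsg.Agent.H61.J1SpecD19
import Cfsg.Agent.H61.J1OutData

/-!
# Janko's group `J₁`: the element orders, and isospectral groups of unbounded order for `J₁⁴`
-/

set_option autoImplicit false

namespace Cfsg.Agent.H61.J1

/-- A word of order 15. -/
def w15 : List Bool := [true, true, false, true, false, true, true, false, false]

theorem ord15a : eqW (List.replicate 15 w15).flatten [] = true := by decide +kernel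
theorem ord15b : neC (evalC (List.replicate 5 w15).flatten) oneC = true := by decide +kernel
theorem ord15c : neC (evalC (List.replicate 3 w15).flatten) oneC = true := by decide +kernel

/-- Every element of `J₁` has order 1, 2, 3, 5, 6, 7, 10, 11, 15 or 19. -/
theorem J1_orderOf_mem (g : ↥Cfsg.Spor.J1) : orderOf g ∈ specL := by
  obtain ⟨e⟩ := centralizer_equiv_J1 J1_simple_card.2 wtI waI wbI tcI ctree ctChk5 ctChk1 ctChk2
    ctChk3 ctChk4 ctChk6 ctChk7 ctChk8 ctChk9 ctChk10 ctChk11 ctChk12
  have hinv := involutions_conj J1_simple_card.2 WE WC EC rfl sylChk conjChk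
  rw [outChk12] at hinv
  exact orderOf_mem_of_data J1_simple_card.2 (wp wtI) hinv e (wp [false]) (wp w11) (wp w19)
    (orderOf_wp [false] 7 (by norm_num) ord7) (orderOf_wp w11 11 (by norm_num) ord11)
    (orderOf_wp w19 19 (by norm_num) ord19) card_cent7 card_cent11 card_cent19 g

theorem J1_orders_exist :
    ∀ n ∈ ([1, 2, 7, 11, 15, 19] : List ℕ), ∃ g : ↥Cfsg.Spor.J1, orderOf g = n := by
  intro n hn
  simp only [List.mem_cons, List.not_mem_nil, or_false] at hn
  rcases hn with rfl | rfl | rfl | rfl | rfl | rfl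
  · exact ⟨1, orderOf_one⟩
  · exact ⟨wp wtI, orderOf_wp wtI 2 Nat.prime_two ctChk6⟩
  · exact ⟨wp [false], orderOf_wp [false] 7 (by norm_num) ord7⟩
  · exact ⟨wp w11, orderOf_wp w11 11 (by norm_num) ord11⟩
  · exact ⟨wp w15, orderOf_wp15 w15 ord15a ord15b ord15c⟩
  · exact ⟨wp w19, orderOf_wp w19 19 (by norm_num) ord19⟩

/-- There are finite groups of arbitrarily large order with the same element orders as `J₁⁴`. -/
theorem J1_pow4_unbounded (N : ℕ) : ∃ (H : Type) (_ : Group H) (_ : Fintype H),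
    N < Fintype.card H ∧ Set.range (orderOf : H → ℕ) =
      Set.range (orderOf : ↥Cfsg.Spor.J1 × ↥Cfsg.Spor.J1 × ↥Cfsg.Spor.J1 × ↥Cfsg.Spor.J1 → ℕ) :=
  unbounded_of_spec J1_orderOf_mem J1_orders_exist N

end Cfsg.Agent.H61.J1
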