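import Mathlib
import Cfsg.Agent.H61.SchreierSims
import Cfsg.Agent.H7.PSL2
import Cfsg.Agent.H6.SLTransfer
import Cfsg.Agent.S3377

set_option autoImplicit false

namespace Cfsg.Agent.H61

open Matrix
open scoped MatrixGroups

/-- If `G = H ∪ H g H` then `G` acts 2-transitively on the cosets of `H`. -/
theorem two_pretransitive_of_double_coset {G : Type*} [Group G] (H : Subgroup G) (g : G)
    (h : ∀ x : G, x ∈ H ∨ ∃ a ∈ H, ∃ b ∈ H, x = a * g * b) :
    MulAction.IsMultiplyPretransitive G (G ⧸ H) 2 := by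
  rw [MulAction.is_two_pretransitive_iff]
  have key : ∀ a b : G ⧸ H, a ≠ b →
      ∃ k : G, k • ((1 : G) : G ⧸ H) = a ∧ k • ((g : G) : G ⧸ H) = b := by
    intro a b hab
    obtain ⟨x, rfl⟩ := QuotientGroup.mk_surjective a
    obtain ⟨y, rfl⟩ := QuotientGroup.mk_surjective b
    have hxy : x⁻¹ * y ∉ H := by
      intro hmem
      exact hab (QuotientGroup.eq.mpr hmem)
    rcases h (x⁻¹ * y) with h1 | ⟨a, ha, b, hb, e⟩
    · exact absurd h1 hxy
    · refine ⟨x * a, ?_, ?_⟩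
      · show ((x * a * 1 : G) : G ⧸ H) = (x : G ⧸ H)
        rw [QuotientGroup.eq]
        have : (x * a * 1)⁻¹ * x = a⁻¹ := by group
        rw [this]
        exact H.inv_mem ha
      · show ((x * a * g : G) : G ⧸ H) = (y : G ⧸ H)
        rw [QuotientGroup.eq]
        have hy : y = x * (a * g * b) := by rw [← e]; group
        have : (x * a * g)⁻¹ * y = b := by rw [hy]; group
        rw [this]
        exact hb
  intro a b c d hab hcd
  obtain ⟨k1, h1a, h1b⟩ := key a b hab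
  obtain ⟨k2, h2c, h2d⟩ := key c d hcd
  refine ⟨k2 * k1⁻¹, ?_, ?_⟩
  · rw [← h1a, mul_smul, inv_smul_smul, h2c]
  · rw [← h1b, mul_smul, inv_smul_smul, h2d]

namespace L211

/-- an element of order 3 -/
def mA : SL(2, ZMod 11) := ⟨!![2, 2; 2, 8], by rw [Matrix.det_fin_two_of]; decide⟩
/-- an element of order 5 -/
def mB : SL(2, ZMod 11) := ⟨!![1, 1; 1, 2], by rw [Matrix.det_fin_two_of]; decide⟩
/-- an element of order 11 -/
def mT : SL(2, ZMod 11) := ⟨!![1, 1; 0, 1], by rw [Matrix.det_fin_two_of]; decide⟩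

/-- the three generators -/
def gen : Fin 3 → SL(2, ZMod 11) := ![mA, mB, mT]

/-- evaluation of a word in `mA`, `mB` -/
def ev : List (Fin 2) → SL(2, ZMod 11)
  | [] => 1
  | c :: l => (if c = 0 then mA else mB) * ev l

/-- words for the coset representatives -/
def rwd : Fin 11 → List (Fin 2) :=
  ![[], [], [0], [1], [0, 0], [0, 1], [1, 0], [1, 1], [0, 1, 0], [1, 0, 0], [1, 1, 1]]

/-- the coset table -/
def nxt : Fin 3 → Fin 11 → Fin 11 :=
  ![![0, 2, 4, 5, 1, 7, 8, 3, 10, 9, 6], ![0, 3, 6, 7, 9, 4, 5, 10, 1, 2, 8], ![1, 5, 10, 8, 2, 7, 0, 9, 6, 4, 3]]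

/-- the Schreier words -/
def hwd : Fin 3 → Fin 11 → List (Fin 2) :=
  ![![[0], [], [], [], [], [0, 0, 1, 1, 0, 1], [], [0, 0, 1, 0, 0], [0, 1, 1, 0, 0, 1], [1, 1, 0, 1, 1, 1], [0, 1, 1, 1, 0, 1, 1]],
    ![[1], [], [], [], [], [0, 1, 0, 1], [1, 1, 0, 1, 1, 1], [], [0, 1, 0, 1], [0, 1, 1, 0, 1, 1, 1, 0], [0, 1, 0, 1]],
    ![[], [0, 1, 0, 0, 1, 1, 1, 0], [0, 0, 1, 0, 0, 1], [1, 1, 0, 0, 1], [0, 0, 1, 1, 1], [0, 1, 1, 1, 0, 1], [0, 1, 1], [1, 0, 1, 1, 1], [0, 0, 1, 1, 1, 0, 1, 1], [0, 1, 0, 1, 1, 1], [0, 1, 0, 1, 1, 1, 0]]]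

/-- the coset representatives -/
def rep (i : Fin 11) : SL(2, ZMod 11) := if i = 0 then 1 else ev (rwd i) * mT

theorem table : ∀ s : Fin 3, ∀ i : Fin 11,
    (gen s * rep i).1 = (rep (nxt s i) * ev (hwd s i)).1 := by
  decide +kernel

theorem mA_pow : (mA ^ 3).1 = 1 := by decide +kernel
theorem mB_pow : (mB ^ 5).1 = 1 := by decide +kernel
theorem mT_pow : (mT ^ 11).1 = 1 := by decide +kernel
theorem mAB_sq : ((mA * mB) ^ 2).1 = !![-1, 0; 0, -1] := by decide +kernel

/-- the projection onto `PSL(2, 11)` -/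
def pr : SL(2, ZMod 11) →* PSL(2, ZMod 11) := QuotientGroup.mk' (Subgroup.center SL(2, ZMod 11))

theorem pr_eq_one_iff (x : SL(2, ZMod 11)) :
    pr x = 1 ↔ x.1 0 1 = 0 ∧ x.1 1 0 = 0 ∧ x.1 0 0 = x.1 1 1 := by
  have hp : Fact (Nat.Prime 11) := ⟨by norm_num⟩
  have h1 : pr x = 1 ↔ x ∈ Subgroup.center SL(2, ZMod 11) := QuotientGroup.eq_one_iff x
  have h2 : x ∈ Subgroup.center SL(2, ZMod 11) ↔
      x.1 0 1 = 0 ∧ x.1 1 0 = 0 ∧ x.1 0 0 = x.1 1 1 :=
    Cfsg.Agent.H7.sl2_mem_center_iff (F := ZMod 11) x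
  exact h1.trans h2

/-- image of `mA` -/
def a : PSL(2, ZMod 11) := pr mA
/-- image of `mB` -/
def b : PSL(2, ZMod 11) := pr mB
/-- image of `mT` -/
def g : PSL(2, ZMod 11) := pr mT

theorem a_pow : a ^ 3 = 1 := by
  have : mA ^ 3 = 1 := Subtype.ext mA_pow
  rw [a, ← map_pow, this, map_one]

theorem b_pow : b ^ 5 = 1 := by
  have : mB ^ 5 = 1 := Subtype.ext mB_pow
  rw [b, ← map_pow, this, map_one]

theorem g_pow : g ^ 11 = 1 := by
  have : mT ^ 11 = 1 := Subtype.ext mT_pow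
  rw [g, ← map_pow, this, map_one]

theorem ab_sq : (a * b) ^ 2 = 1 := by
  rw [a, b, ← map_mul, ← map_pow, pr_eq_one_iff, mAB_sq]
  decide

theorem a_ne : a ≠ 1 := by
  rw [a, Ne, pr_eq_one_iff]
  decide

theorem g_ne : g ≠ 1 := by
  rw [g, Ne, pr_eq_one_iff]
  decide

theorem gens_rel : ∀ r ∈ Cfsg.Agent.S3377.rels, FreeGroup.lift ![a, b] r = 1 := by
  rintro r (rfl | rfl | rfl)
  · rw [map_pow, FreeGroup.lift_apply_of]; exact a_pow
  · rw [map_pow, FreeGroup.lift_apply_of]; exact b_pow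
  · rw [map_pow, map_mul, FreeGroup.lift_apply_of, FreeGroup.lift_apply_of]; exact ab_sq

/-- the homomorphism from the `(2,3,5)` group -/
def phi : PresentedGroup Cfsg.Agent.S3377.rels →* PSL(2, ZMod 11) := PresentedGroup.toGroup gens_rel

theorem phi_injective : Function.Injective phi := by
  obtain ⟨e⟩ := Cfsg.Agent.S3377.result
  have hs : IsSimpleGroup (PresentedGroup Cfsg.Agent.S3377.rels) := e.isSimpleGroup
  rw [← MonoidHom.ker_eq_bot_iff]
  rcases phi.normal_ker.eq_bot_or_eq_top with h | h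
  · exact h
  · exfalso
    have h1 : (PresentedGroup.of 0 : PresentedGroup Cfsg.Agent.S3377.rels) ∈ phi.ker := by
      rw [h]; trivial
    rw [MonoidHom.mem_ker] at h1
    have h2 : phi (PresentedGroup.of 0) = a := PresentedGroup.toGroup.of gens_rel
    exact a_ne (h2 ▸ h1)

/-- the copy of `A₅` -/
def H0 : Subgroup PSL(2, ZMod 11) := phi.range

theorem H0_equiv : Nonempty (H0 ≃* alternatingGroup (Fin 5)) := by
  obtain ⟨e⟩ := Cfsg.Agent.S3377.result
  exact ⟨(MonoidHom.ofInjective phi_injective).symm.trans e⟩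

theorem card_H0 : Nat.card H0 = 60 := by
  obtain ⟨e⟩ := H0_equiv
  rw [Nat.card_congr e.toEquiv]
  have h := two_mul_nat_card_alternatingGroup (α := Fin 5)
  rw [Nat.card_perm, Nat.card_fin] at h
  have : (5 : ℕ).factorial = 120 := by decide
  omega

theorem card_G0 : Nat.card PSL(2, ZMod 11) = 660 := by
  have hp : Fact (Nat.Prime 11) := ⟨by norm_num⟩
  have h : 2 * Nat.card PSL(2, ZMod 11) =
      Fintype.card (ZMod 11) * (Fintype.card (ZMod 11) ^ 2 - 1) :=
    Cfsg.Agent.H7.card_PSL2_odd (F := ZMod 11) (by rw [ZMod.card]; decide)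
  rw [ZMod.card] at h
  have h2 : (11 : ℕ) * (11 ^ 2 - 1) = 1320 := by norm_num
  rw [h2] at h
  omega

theorem a_mem : a ∈ H0 := ⟨PresentedGroup.of 0, PresentedGroup.toGroup.of gens_rel⟩
theorem b_mem : b ∈ H0 := ⟨PresentedGroup.of 1, PresentedGroup.toGroup.of gens_rel⟩

theorem ev_mem (w : List (Fin 2)) : pr (ev w) ∈ H0 := by
  induction w with
  | nil => rw [ev, map_one]; exact H0.one_mem
  | cons c l ih =>
    rw [ev, map_mul]
    refine H0.mul_mem ?_ ih
    split_ifs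
    · exact a_mem
    · exact b_mem

theorem closure_eq_top : Subgroup.closure ({a, b, g} : Set PSL(2, ZMod 11)) = ⊤ := by
  have haC : a ∈ Subgroup.closure ({a, b, g} : Set PSL(2, ZMod 11)) :=
    Subgroup.subset_closure (by simp)
  have hbC : b ∈ Subgroup.closure ({a, b, g} : Set PSL(2, ZMod 11)) :=
    Subgroup.subset_closure (by simp)
  have hgC : g ∈ Subgroup.closure ({a, b, g} : Set PSL(2, ZMod 11)) :=
    Subgroup.subset_closure (by simp)
  have hH0C : H0 ≤ Subgroup.closure ({a, b, g} : Set PSL(2, ZMod 11)) := by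
    have hcomap : (Subgroup.closure ({a, b, g} : Set PSL(2, ZMod 11))).comap phi = ⊤ := by
      rw [eq_top_iff, ← PresentedGroup.closure_range_of, Subgroup.closure_le]
      rintro _ ⟨i, rfl⟩
      show phi (PresentedGroup.of i) ∈ Subgroup.closure ({a, b, g} : Set PSL(2, ZMod 11))
      rw [show phi (PresentedGroup.of i) = ![a, b] i from PresentedGroup.toGroup.of gens_rel]
      fin_cases i
      · exact haC
      · exact hbC
    rintro _ ⟨x, rfl⟩
    have : x ∈ (Subgroup.closure ({a, b, g} : Set PSL(2, ZMod 11))).comap phi := by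
      rw [hcomap]; trivial
    exact this
  have h60 : 60 ∣ Nat.card (Subgroup.closure ({a, b, g} : Set PSL(2, ZMod 11))) := by
    rw [← card_H0]; exact Subgroup.card_dvd_of_le hH0C
  have h11 : 11 ∣ Nat.card (Subgroup.closure ({a, b, g} : Set PSL(2, ZMod 11))) := by
    have ho : orderOf g = 11 := by
      have := Fact.mk (by norm_num : Nat.Prime 11)
      exact orderOf_eq_prime g_pow g_ne
    have := orderOf_dvd_natCard
      (⟨g, hgC⟩ : Subgroup.closure ({a, b, g} : Set PSL(2, ZMod 11)))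
    rwa [Subgroup.orderOf_mk, ho] at this
  apply Subgroup.eq_top_of_card_eq
  have hle : Nat.card (Subgroup.closure ({a, b, g} : Set PSL(2, ZMod 11))) ≤ 660 := by
    rw [← card_G0]; exact Subgroup.card_le_card_group _
  have hpos : 0 < Nat.card (Subgroup.closure ({a, b, g} : Set PSL(2, ZMod 11))) := Nat.card_pos
  rw [card_G0]
  omega

theorem double_coset (x : PSL(2, ZMod 11)) :
    x ∈ H0 ∨ ∃ u ∈ H0, ∃ v ∈ H0, x = u * g * v := by
  have hx : x ∈ Subgroup.closure ({a, b, g} : Set PSL(2, ZMod 11)) := by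
    rw [closure_eq_top]; trivial
  obtain ⟨t, ⟨i, rfl⟩, h, hh, e⟩ := closure_subset_mul ({a, b, g} : Set PSL(2, ZMod 11))
    (Set.range (fun i : Fin 11 => pr (rep i))) H0 ⟨0, by simp [rep]⟩ (by
      rintro s hs _ ⟨i, rfl⟩
      obtain ⟨k, rfl⟩ : ∃ k : Fin 3, s = pr (gen k) := by
        rcases hs with rfl | rfl | rfl
        · exact ⟨0, rfl⟩
        · exact ⟨1, rfl⟩
        · exact ⟨2, rfl⟩
      refine ⟨pr (rep (nxt k i)), ⟨nxt k i, rfl⟩, pr (ev (hwd k i)), ev_mem _, ?_⟩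
      show pr (gen k) * pr (rep i) = pr (rep (nxt k i)) * pr (ev (hwd k i))
      rw [← map_mul, ← map_mul]
      congr 1
      exact Subtype.ext (table k i)) x hx
  have e' : x = pr (rep i) * h := e
  by_cases hi : i = 0
  · left
    have h0 : rep i = 1 := by simp [rep, hi]
    rw [e', h0, map_one, one_mul]
    exact hh
  · right
    have h1 : rep i = ev (rwd i) * mT := by simp [rep, hi]
    refine ⟨pr (ev (rwd i)), ev_mem _, h, hh, ?_⟩
    rw [e', h1, map_mul]
    rfl

theorem index_H0 : H0.index = 11 := by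
  have h := Subgroup.card_mul_index H0
  rw [card_H0, card_G0] at h
  omega

end L211

/-- Transport of the centre along a group isomorphism. -/
theorem map_center_of_mulEquiv {G H : Type*} [Group G] [Group H] (e : G ≃* H) :
    (Subgroup.center G).map e.toMonoidHom = Subgroup.center H := by
  ext y
  constructor
  · rintro ⟨x, hx, rfl⟩
    have hx' : x ∈ Subgroup.center G := hx
    rw [Subgroup.mem_center_iff] at hx' ⊢
    intro z
    obtain ⟨w, rfl⟩ := e.surjective z
    show e w * e x = e x * e w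
    rw [← map_mul, ← map_mul, hx' w]
  · intro hy
    refine ⟨e.symm y, ?_, e.apply_symm_apply y⟩
    show e.symm y ∈ Subgroup.center G
    rw [Subgroup.mem_center_iff] at hy ⊢
    intro w
    apply e.injective
    rw [map_mul, map_mul, e.apply_symm_apply]
    exact hy (e w)

/-- `PSL(2, F)` for a field with 11 elements has a subgroup `A₅` of index 11 with a double coset
decomposition `G = H ∪ H g H`. -/
theorem psl2_eleven {F : Type*} [Field F] [Fintype F] (hF : Fintype.card F = 11) :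
    ∃ H : Subgroup PSL(2, F), H.index = 11 ∧ Nonempty (H ≃* alternatingGroup (Fin 5)) ∧
      ∃ g : PSL(2, F), ∀ x : PSL(2, F), x ∈ H ∨ ∃ u ∈ H, ∃ v ∈ H, x = u * g * v := by
  classical
  have hp : Fact (Nat.Prime 11) := ⟨by norm_num⟩
  let eF : ZMod 11 ≃+* F := ZMod.ringEquivOfPrime F (by norm_num) hF
  let e : PSL(2, ZMod 11) ≃* PSL(2, F) :=
    QuotientGroup.congr (Subgroup.center SL(2, ZMod 11)) (Subgroup.center SL(2, F))
      (Cfsg.Agent.H6.slMapEquiv eF) (map_center_of_mulEquiv _)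
  refine ⟨L211.H0.map (e : PSL(2, ZMod 11) →* PSL(2, F)), ?_, ?_, e L211.g, ?_⟩
  · rw [Subgroup.index_map_equiv]
    exact L211.index_H0
  · obtain ⟨e5⟩ := L211.H0_equiv
    exact ⟨(e.subgroupMap L211.H0).symm.trans e5⟩
  · intro y
    rcases L211.double_coset (e.symm y) with h | ⟨u, hu, v, hv, h⟩
    · left
      exact ⟨e.symm y, h, e.apply_symm_apply y⟩
    · right
      refine ⟨e u, ⟨u, hu, rfl⟩, e v, ⟨v, hv, rfl⟩, ?_⟩
      rw [← map_mul, ← map_mul, ← h, e.apply_symm_apply]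

end Cfsg.Agent.H61
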