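import Mathlib
import Cfsg.Agent.H43.MCDefs

/-!
# S3905: small auxiliary lemmas for the pieces BETAF and D1 (helper61)
-/

set_option autoImplicit false

namespace Cfsg.Agent.H61.MC

open Cfsg.Agent.H43.MC

universe u

variable {G : Type u} [Group G]

/-- If `y ^ n ∈ H` and the order of `y` is coprime to `n`, then `y ∈ H`. -/
theorem mem_of_pow_mem_coprime [Finite G] (H : Subgroup G) (y : G) (n : ℕ) (hy : y ^ n ∈ H)
    (hc : (orderOf y).Coprime n) : y ∈ H := by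
  by_cases h1 : orderOf y = 1
  · rw [orderOf_eq_one_iff] at h1; subst h1; exact H.one_mem
  · have hpos := orderOf_pos y
    obtain ⟨m, -, hm⟩ := Nat.exists_mul_mod_eq_one_of_coprime hc.symm (by omega)
    have : (y ^ n) ^ m = y := by rw [← pow_mul, ← pow_mod_orderOf, hm, pow_one]
    rw [← this]; exact H.pow_mem hy m

/-- For `L` normal: `(l * c) ^ m ∈ L * c ^ m`. -/
theorem pow_mul_inv_mem (L : Subgroup G) [L.Normal] (l c : G) (hl : l ∈ L) (m : ℕ) :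
    (l * c) ^ m * (c ^ m)⁻¹ ∈ L := by
  induction m with
  | zero => simp
  | succ m ih =>
    have h1 : (l * c) ^ (m + 1) * (c ^ (m + 1))⁻¹
        = ((l * c) ^ m * (c ^ m)⁻¹) * (c ^ m * l * (c ^ m)⁻¹) := by
      rw [pow_succ, pow_succ]; group
    rw [h1]
    exact L.mul_mem ih (Subgroup.Normal.conj_mem inferInstance l hl _)

/-- (β-pow) If `x ∈ N ∖ Z` has order a power of `q` and `c ∈ N` commutes with `x`, then some
`c ^ (q ^ j)` is central in `N`. -/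
theorem beta_pow [Finite G] (hS : StSplit.{u}) (hB : StBeta.{u}) {N : Subgroup G} [N.Normal]
    (h : Hyp N) {q : ℕ} (hq : q.Prime) {x c : G} (hxN : x ∈ N)
    (hxZ : x ∉ Subgroup.centralizer (N : Set G)) (hxo : ∃ k : ℕ, orderOf x = q ^ k)
    (hcN : c ∈ N) (hcx : Commute c x) : ∃ j : ℕ, c ^ (q ^ j) ∈ ZN N := by
  obtain ⟨a, b, hab, ⟨j, hj⟩, hcop⟩ := hS G q hq c
  have hbZ : c ^ b ∈ Subgroup.centralizer (N : Set G) := by
    by_contra hbZ
    exact hB G N h q x (c ^ b)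
      ⟨hq, hxN, hxZ, hxo, N.pow_mem hcN b, hbZ, (hcx.pow_left b).symm, hcop⟩
  refine ⟨j, ?_⟩
  have h1 : c ^ (q ^ j) = (c ^ b) ^ (q ^ j) := by
    calc c ^ (q ^ j) = (c ^ a * c ^ b) ^ (q ^ j) := by rw [← hab]
      _ = (c ^ a) ^ (q ^ j) * (c ^ b) ^ (q ^ j) :=
          (Commute.pow_pow (Commute.refl c) a b).mul_pow _
      _ = (c ^ b) ^ (q ^ j) := by rw [← hj, pow_orderOf_eq_one, one_mul]
  rw [h1]
  exact ⟨N.pow_mem (N.pow_mem hcN b) _, Subgroup.pow_mem _ hbZ _⟩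

/-- If `t * l * t⁻¹ = ζ * l` with `ζ` commuting with `t`, then `t ^ m * l * (t ^ m)⁻¹ = ζ ^ m * l`. -/
theorem conj_pow_central (t l ζ : G) (hconj : t * l * t⁻¹ = ζ * l) (hζt : Commute ζ t) (m : ℕ) :
    t ^ m * l * (t ^ m)⁻¹ = ζ ^ m * l := by
  induction m with
  | zero => simp
  | succ m ih =>
    have h2 : t * ζ ^ m * t⁻¹ = ζ ^ m := by
      rw [← (hζt.pow_left m).eq, mul_inv_cancel_right]
    calc t ^ (m + 1) * l * (t ^ (m + 1))⁻¹ = t * (t ^ m * l * (t ^ m)⁻¹) * t⁻¹ := by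
          rw [pow_succ']; group
      _ = t * (ζ ^ m * l) * t⁻¹ := by rw [ih]
      _ = (t * ζ ^ m * t⁻¹) * (t * l * t⁻¹) := by group
      _ = ζ ^ m * (ζ * l) := by rw [h2, hconj]
      _ = ζ ^ (m + 1) * l := by rw [← mul_assoc, ← pow_succ]

end Cfsg.Agent.H61.MC
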