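import Mathlib
import Cfsg.Agent.H43.MCDefs
import Cfsg.Agent.H61.MCAux

/-!
# S3905, piece BETAF (helper61): no counterexample to the β-lemma with `C_G(x)` not normal
-/

set_option autoImplicit false

namespace Cfsg.Agent.H61.MC

open Cfsg.Agent.H43.MC

universe u

/-- `ZN N` is invariant under conjugation when `N` is normal. -/
theorem conj_mem_ZN' {G : Type u} [Group G] {N : Subgroup G} [N.Normal] {z : G}
    (hz : z ∈ ZN N) (g : G) : g * z * g⁻¹ ∈ ZN N := by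
  rw [mem_ZN] at hz ⊢
  obtain ⟨hzN, hzC⟩ := hz
  refine ⟨‹N.Normal›.conj_mem z hzN g, ?_⟩
  rw [mem_cent_set] at hzC ⊢
  intro n hn
  have h1 : g⁻¹ * n * g ∈ N := by
    have := ‹N.Normal›.conj_mem n hn g⁻¹
    simpa using this
  have h2 := hzC _ h1
  calc n * (g * z * g⁻¹) = g * ((g⁻¹ * n * g) * z) * g⁻¹ := by group
    _ = g * (z * (g⁻¹ * n * g)) * g⁻¹ := by rw [h2]
    _ = g * z * g⁻¹ * n := by group

/-- In a finite group, one-sided normalizing is two-sided. -/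
theorem conj_inv_mem_of_finite {G : Type u} [Group G] [Finite G] (M : Subgroup G) (g : G)
    (hg : ∀ m ∈ M, g * m * g⁻¹ ∈ M) : ∀ m ∈ M, g⁻¹ * m * g ∈ M := by
  intro m hm
  have hpow : ∀ k : ℕ, ∀ m ∈ M, g ^ k * m * (g ^ k)⁻¹ ∈ M := by
    intro k
    induction k with
    | zero => intro m hm; simpa using hm
    | succ k ih =>
      intro m hm
      have h1 := hg _ (ih m hm)
      have h2 : g ^ (k + 1) * m * (g ^ (k + 1))⁻¹ = g * (g ^ k * m * (g ^ k)⁻¹) * g⁻¹ := by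
        rw [pow_succ']; group
      rw [h2]; exact h1
  have hpos := orderOf_pos g
  have h3 : g ^ (orderOf g - 1) * g = 1 := by
    rw [← pow_succ, Nat.sub_add_cancel hpos, pow_orderOf_eq_one]
  have hinv : g ^ (orderOf g - 1) = g⁻¹ := eq_inv_of_mul_eq_one_left h3
  have h4 := hpow (orderOf g - 1) m hm
  rw [hinv, inv_inv] at h4
  exact h4

/-- A non-normal coatom of a finite group is self-normalizing. -/
theorem coatom_self_normalizing {G : Type u} [Group G] [Finite G] (M : Subgroup G)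
    (hco : IsCoatom M) (hnn : ¬ M.Normal) (g : G) (hg : ∀ m ∈ M, g * m * g⁻¹ ∈ M) : g ∈ M := by
  have hg' := conj_inv_mem_of_finite M g hg
  have hgn : g ∈ Subgroup.normalizer (M : Set G) := by
    rw [Subgroup.mem_set_normalizer_iff]
    intro m
    constructor
    · exact hg m
    · intro hm
      have h1 := hg' _ hm
      have h2 : g⁻¹ * (g * m * g⁻¹) * g = m := by group
      rw [h2] at h1; exact h1
  have hle : M ≤ Subgroup.normalizer (M : Set G) := Subgroup.le_normalizer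
  rcases eq_or_lt_of_le hle with h1 | h1
  · rw [h1]; exact hgn
  · have htop := hco.2 _ h1
    exfalso; apply hnn
    exact Subgroup.normalizer_eq_top_iff.mp htop

theorem betaF (hCL : StBetaCL.{u}) (hF : StFrobInt.{u}) : StBetaF.{u} := by
  intro G _ _ N _ h p x y hce hnn
  have hCLx := hCL G N h p x y hce
  obtain ⟨hp, hxN, hxZ, ⟨k₀, hxo⟩, hyN, hyZ, hxy, hyo⟩ := hce
  have hcoM : IsCoatom (Subgroup.centralizer ({x} : Set G)) := h x hxN hxZ
  have hNnorm : N.Normal := inferInstance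
  -- `M = C_G(x)` is self-normalizing
  have hself : ∀ g : G, (∀ m ∈ Subgroup.centralizer ({x} : Set G),
      g * m * g⁻¹ ∈ Subgroup.centralizer ({x} : Set G)) →
      g ∈ Subgroup.centralizer ({x} : Set G) :=
    coatom_self_normalizing _ hcoM hnn
  -- `C = C_N(x)`
  obtain ⟨C, hCdef⟩ : ∃ C : Subgroup G, C = N ⊓ Subgroup.centralizer ({x} : Set G) := ⟨_, rfl⟩
  have hmemC : ∀ c : G, c ∈ C ↔ c ∈ N ∧ Commute c x := by
    intro c; rw [hCdef, Subgroup.mem_inf, mem_cent_singleton]; rfl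
  -- `C` is abelian
  have hCab : ∀ c ∈ C, ∀ d ∈ C, Commute c d := by
    intro c hc d hd
    rw [hmemC] at hc hd
    obtain ⟨hcN, hcx⟩ := hc
    obtain ⟨hdN, hdx⟩ := hd
    by_cases hcZ : c ∈ Subgroup.centralizer (N : Set G)
    · rw [mem_cent_set] at hcZ
      exact (hcZ d hdN).symm
    · have heq := hCLx c hcN hcx hcZ
      have hd : d ∈ Subgroup.centralizer ({c} : Set G) := by
        rw [heq]; exact mem_cent_singleton.mpr hdx
      exact (mem_cent_singleton.mp hd).symm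
  -- (i) TI
  have hTI : ∀ n ∈ N, n ∉ C → ∀ c ∈ C, n * c * n⁻¹ ∈ C → c ∈ ZN N := by
    intro n hnN hnC c hcC hdC
    by_contra hcZ'
    obtain ⟨hcN, hcx⟩ := (hmemC c).mp hcC
    obtain ⟨hdN, hdx⟩ := (hmemC _).mp hdC
    have hcZ : c ∉ Subgroup.centralizer (N : Set G) := fun hc => hcZ' ⟨hcN, hc⟩
    have hdZ : n * c * n⁻¹ ∉ Subgroup.centralizer (N : Set G) := by
      intro hd
      apply hcZ'
      have h1 := conj_mem_ZN' (N := N) ⟨hdN, hd⟩ n⁻¹
      have h2 : n⁻¹ * (n * c * n⁻¹) * n⁻¹⁻¹ = c := by group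
      rw [h2] at h1; exact h1
    have h1 := hCLx c hcN hcx hcZ
    have h2 := hCLx _ hdN hdx hdZ
    apply hnC
    rw [hmemC]
    refine ⟨hnN, mem_cent_singleton.mp (hself n ?_)⟩
    intro m hm
    rw [← h2, mem_cent_singleton]
    rw [← h1, mem_cent_singleton] at hm
    calc n * m * n⁻¹ * (n * c * n⁻¹) = n * (m * c) * n⁻¹ := by group
      _ = n * (c * m) * n⁻¹ := by rw [hm]
      _ = n * c * n⁻¹ * (n * m * n⁻¹) := by group
  -- (ii) the Frobenius kernel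
  have hCN : C ≤ N := by rw [hCdef]; exact inf_le_left
  have hZC : ZN N ≤ C := by
    intro z hz
    rw [hmemC]
    exact ⟨hz.1, (mem_cent_set.mp hz.2 x hxN).symm⟩
  have hxC : x ∈ C := (hmemC x).mpr ⟨hxN, Commute.refl x⟩
  have hxZ' : x ∉ ZN N := fun hx => hxZ hx.2
  have hCneN : C ≠ N := by
    intro heq
    apply hxZ
    rw [mem_cent_set]
    intro n hn
    rw [← heq, hmemC] at hn
    exact hn.2.eq
  have hCnZ : ¬ C ≤ ZN N := fun hle => hxZ' (hle hxC)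
  obtain ⟨K, hKN, hZK, hKinv, hKC, hprod, hchar⟩ := hF G N C hCN hZC hCneN hCnZ hTI
  -- (iii) `K` is normal in `G`
  have hMC : ∀ m ∈ Subgroup.centralizer ({x} : Set G), ∀ c ∈ C, m * c * m⁻¹ ∈ C := by
    intro m hm c hc
    rw [hCdef] at hc ⊢
    exact ⟨hNnorm.conj_mem c hc.1 m,
      Subgroup.mul_mem _ (Subgroup.mul_mem _ hm hc.2) (Subgroup.inv_mem _ hm)⟩
  have hall : ∀ k ∈ K, k ∉ ZN N → ∀ g : G, g * k * g⁻¹ ∉ C := by
    intro k hkK hkZ g hgC
    have hkN := hKN hkK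
    have h1 := ((hchar k hkN).mp hkK).resolve_left hkZ
    obtain ⟨n₁, hn₁, m₁, hm₁, hg⟩ := gnm h hxN hxZ g⁻¹
    have h2 := hMC m₁ hm₁ _ hgC
    have hg' : g = m₁⁻¹ * n₁⁻¹ := by
      rw [← inv_inv g, hg]; group
    have h3 : m₁ * (g * k * g⁻¹) * m₁⁻¹ = n₁⁻¹ * k * n₁⁻¹⁻¹ := by
      rw [hg']; group
    rw [h3] at h2
    exact h1 n₁⁻¹ (N.inv_mem hn₁) h2
  have hKnorm : K.Normal := by
    constructor
    intro k hkK g
    have hkN := hKN hkK
    have hgN : g * k * g⁻¹ ∈ N := hNnorm.conj_mem k hkN g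
    by_cases hkZ : k ∈ ZN N
    · exact hZK (conj_mem_ZN' hkZ g)
    · rw [hchar _ hgN]
      right
      intro n hn
      have h3 : n * (g * k * g⁻¹) * n⁻¹ = (n * g) * k * (n * g)⁻¹ := by group
      rw [h3]
      exact hall k hkK hkZ (n * g)
  -- (iv) a non-central element of `K`
  obtain ⟨k, hkK, hkZ⟩ : ∃ k ∈ K, k ∉ ZN N := by
    by_contra hcon
    push Not at hcon
    apply hCneN
    apply le_antisymm hCN
    intro n hn
    obtain ⟨k, hk, c, hc, rfl⟩ := hprod n hn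
    exact C.mul_mem (hZC (hcon k hk)) hc
  have hkN : k ∈ N := hKN hkK
  have hkZ' : k ∉ Subgroup.centralizer (N : Set G) := fun hc => hkZ ⟨hkN, hc⟩
  -- (v) `C_N(k) ≤ K`
  have hv : ∀ k ∈ K, k ∉ ZN N → ∀ n ∈ N, Commute n k → n ∈ K := by
    intro k hkK hkZ n hnN hnk
    rw [hchar n hnN]
    by_contra hcon
    push Not at hcon
    obtain ⟨hnZ, n₁, hn₁, hcC⟩ := hcon
    have hk'K : n₁ * k * n₁⁻¹ ∈ K := hKinv n₁ hn₁ k hkK
    have hk'Z : n₁ * k * n₁⁻¹ ∉ ZN N := by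
      intro hz
      apply hkZ
      have h1 := conj_mem_ZN' hz n₁⁻¹
      have h2 : n₁⁻¹ * (n₁ * k * n₁⁻¹) * n₁⁻¹⁻¹ = k := by group
      rw [h2] at h1; exact h1
    have hcZ : n₁ * n * n₁⁻¹ ∉ ZN N := by
      intro hz
      apply hnZ
      have h1 := conj_mem_ZN' hz n₁⁻¹
      have h2 : n₁⁻¹ * (n₁ * n * n₁⁻¹) * n₁⁻¹⁻¹ = n := by group
      rw [h2] at h1; exact h1
    have hk'C : n₁ * k * n₁⁻¹ ∉ C := fun hc => hk'Z (hKC _ hk'K hc)
    apply hcZ
    apply hTI (n₁ * k * n₁⁻¹) (hKN hk'K) hk'C (n₁ * n * n₁⁻¹) hcC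
    have h3 : n₁ * k * n₁⁻¹ * (n₁ * n * n₁⁻¹) * (n₁ * k * n₁⁻¹)⁻¹
        = n₁ * (k * n * k⁻¹) * n₁⁻¹ := by group
    rw [h3]
    have h4 : k * n * k⁻¹ = n := by rw [← hnk.eq, mul_inv_cancel_right]
    rw [h4]; exact hcC
  -- (vii) `N/K` is abelian
  have hπ : ∀ g : G, (QuotientGroup.mk' K g = 1) ↔ g ∈ K := fun g => QuotientGroup.eq_one_iff g
  have hcomm : ∀ a ∈ N, ∀ b ∈ N,
      Commute (QuotientGroup.mk' K a) (QuotientGroup.mk' K b) := by
    intro a ha b hb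
    obtain ⟨k₁, hk₁, c₁, hc₁, rfl⟩ := hprod a ha
    obtain ⟨k₂, hk₂, c₂, hc₂, rfl⟩ := hprod b hb
    rw [map_mul, map_mul, (hπ k₁).mpr hk₁, (hπ k₂).mpr hk₂, one_mul, one_mul]
    exact (hCab c₁ hc₁ c₂ hc₂).map _
  let T : Subgroup G :=
    { carrier := {n | n ∈ N ∧ ∃ j : ℕ, n ^ (p ^ j) ∈ K}
      one_mem' := ⟨N.one_mem, 0, by simp⟩
      mul_mem' := by
        rintro a b ⟨haN, i, hai⟩ ⟨hbN, j, hbj⟩
        refine ⟨N.mul_mem haN hbN, i + j, ?_⟩
        rw [← hπ, map_pow, map_mul, (hcomm a haN b hbN).mul_pow]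
        have h1 : (QuotientGroup.mk' K a) ^ (p ^ (i + j)) = 1 := by
          rw [pow_add, pow_mul, ← map_pow, (hπ _).mpr hai, one_pow]
        have h2 : (QuotientGroup.mk' K b) ^ (p ^ (i + j)) = 1 := by
          rw [pow_add, mul_comm, pow_mul, ← map_pow, (hπ _).mpr hbj, one_pow]
        rw [h1, h2, one_mul]
      inv_mem' := by
        rintro a ⟨haN, i, hai⟩
        refine ⟨N.inv_mem haN, i, ?_⟩
        rw [inv_pow]; exact K.inv_mem hai }
  have hTN : T ≤ N := fun n hn => hn.1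
  have hKT : K ≤ T := fun n hn => ⟨hKN hn, 0, by simpa using hn⟩
  have hTinv : ∀ g : G, ∀ t ∈ T, g * t * g⁻¹ ∈ T := by
    rintro g t ⟨htN, j, htj⟩
    refine ⟨hNnorm.conj_mem t htN g, j, ?_⟩
    rw [conj_pow]; exact hKnorm.conj_mem _ htj g
  have hxT : x ∈ T := ⟨hxN, k₀, by rw [← hxo, pow_orderOf_eq_one]; exact K.one_mem⟩
  have hxK : x ∉ K := fun hx => hxZ' (hKC x hx hxC)
  have hyT : y ∉ T := by
    rintro ⟨-, j, hyj⟩
    have hyC : y ∈ C := (hmemC y).mpr ⟨hyN, hxy.symm⟩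
    have h1 : y ^ (p ^ j) ∈ ZN N := hKC _ hyj (C.pow_mem hyC _)
    have h2 : y ∈ ZN N :=
      mem_of_pow_mem_coprime (ZN N) y (p ^ j) h1 (Nat.Coprime.pow_right _ hyo)
    exact hyZ h2.2
  rcases f6 h hkN hkZ' T hTN (fun m _ l hl => hTinv m l hl) with h1 | h2
  · have h3 := h1 hxT
    exact hxK (hv k hkK hkZ x hxN (mem_cent_singleton.mp h3))
  · obtain ⟨l, hl, c, hcN, hck, hy⟩ := h2 y hyN
    apply hyT
    rw [hy]
    exact T.mul_mem hl (hKT (hv k hkK hkZ c hcN (mem_cent_singleton.mp hck)))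

example : StBetaCL.{u} → StFrobInt.{u} → StBetaF.{u} := betaF

end Cfsg.Agent.H61.MC

#print axioms Cfsg.Agent.H61.MC.betaF
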