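import Mathlib
import Cfsg.Agent.H43.MCDefs
import Cfsg.Agent.H61.MCAux

/-!
# S3905, piece D1 (helper61): `L` is abelian and `C_N(y)/Z` acts fixed-point-freely on `L/Z`
-/

set_option autoImplicit false

namespace Cfsg.Agent.H61.MC

open Cfsg.Agent.H43.MC

universe u

theorem mainD1 (hS : StSplit.{u}) (hB : StBeta.{u}) (hMB : StMainB.{u}) : StMainD1.{u} := by
  intro G _ _ N _ h p r L y hFD
  obtain ⟨good, hr, hne, hyN, hyo, hyL⟩ := hFD
  have hp := good.hp
  have hLN := good.hLN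
  have hZL := good.hZL
  have : L.Normal := good.hnorm
  -- y is not central
  have hyZ : y ∉ Subgroup.centralizer (N : Set G) := by
    intro hy
    obtain ⟨l, hl, hly⟩ := hyL
    exact hly (mem_cent_set.mp hy l (hLN hl))
  -- (a) the p-part of a non-central element of L
  have ha : ∀ l ∈ L, l ∉ ZN N → ∃ a b : ℕ, l = l ^ a * l ^ b ∧
      (∃ k : ℕ, orderOf (l ^ a) = p ^ k) ∧ l ^ b ∈ ZN N ∧ l ^ a ∉ ZN N := by
    intro l hl hlZ
    obtain ⟨a, b, hab, hk, hcop⟩ := hS G p hp l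
    have hb : l ^ b ∈ ZN N := by
      apply mem_of_pow_mem_coprime (ZN N) (l ^ b) p _ hcop
      rw [← pow_mul, mul_comm, pow_mul]
      exact (ZN N).pow_mem (good.hpow l hl) b
    refine ⟨a, b, hab, hk, hb, ?_⟩
    intro ha
    apply hlZ
    rw [hab]
    exact (ZN N).mul_mem ha hb
  -- (b) no p-power of y is central
  have hb : ∀ j : ℕ, y ^ (p ^ j) ∉ ZN N := by
    intro j hj
    obtain ⟨k, hk⟩ := hyo
    have : y ∈ ZN N := by
      apply mem_of_pow_mem_coprime (ZN N) y (p ^ j) hj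
      rw [hk]
      exact Nat.Coprime.pow _ _ ((Nat.coprime_primes hr hp).mpr hne)
    exact hyZ this.2
  -- (A) L is abelian
  have hA : ∀ a ∈ L, ∀ b ∈ L, a * b = b * a := by
    intro a haL b hbL
    by_contra hab
    have haZ : a ∉ ZN N := by
      intro haZ
      exact hab (mem_cent_set.mp haZ.2 b (hLN hbL)).symm
    obtain ⟨α, β, hsplit, hk, hβ, hα⟩ := ha a haL haZ
    have ha'L : a ^ α ∈ L := L.pow_mem haL α
    have hnc : ¬ Commute b (a ^ α) := by
      intro hc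
      apply hab
      have h2 : b * a ^ β = a ^ β * b := mem_cent_set.mp hβ.2 b (hLN hbL)
      calc a * b = a ^ α * a ^ β * b := by rw [← hsplit]
        _ = a ^ α * (b * a ^ β) := by rw [mul_assoc, h2]
        _ = b * (a ^ α * a ^ β) := by rw [← mul_assoc, ← hc.eq, mul_assoc]
        _ = b * a := by rw [← hsplit]
    have ha'Z : a ^ α ∉ Subgroup.centralizer (N : Set G) := fun hc => hα ⟨hLN ha'L, hc⟩
    obtain ⟨hprod, -⟩ := hMB G N h p L good (a ^ α) (hLN ha'L) ⟨b, hbL, hnc⟩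
    obtain ⟨l, hl, c, hcN, hca', hyc⟩ := hprod y hyN
    obtain ⟨j, hj⟩ := beta_pow hS hB h hp (hLN ha'L) ha'Z hk hcN hca'
    apply hb (j + 1)
    have h3 : y ^ (p ^ j) ∈ L := by
      have h5 := pow_mul_inv_mem L l c hl (p ^ j)
      rw [hyc]
      have h4 : (l * c) ^ (p ^ j) = ((l * c) ^ (p ^ j) * (c ^ (p ^ j))⁻¹) * c ^ (p ^ j) := by
        group
      rw [h4]
      exact L.mul_mem h5 (hZL hj)
    rw [pow_succ, pow_mul]
    exact good.hpow _ h3
  -- (d) an element of C_N(y) centralizing L is central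
  have hd : ∀ t ∈ N, Commute t y → (∀ l ∈ L, Commute l t) →
      t ∈ Subgroup.centralizer (N : Set G) := by
    intro t htN hty htL
    obtain ⟨l₀, hl₀, hl₀Z⟩ : ∃ l ∈ L, l ∉ ZN N := by
      by_contra hcon
      push Not at hcon
      exact good.hLZ hcon
    obtain ⟨α, β, -, hk, -, hα⟩ := ha l₀ hl₀ hl₀Z
    have hl'L : l₀ ^ α ∈ L := L.pow_mem hl₀ α
    have hl'Z : l₀ ^ α ∉ Subgroup.centralizer (N : Set G) := fun hc => hα ⟨hLN hl'L, hc⟩
    obtain ⟨a, b, hab, ⟨k, hk2⟩, hcop⟩ := hS G p hp t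
    have h1 : t ^ b ∈ Subgroup.centralizer (N : Set G) := by
      by_contra hc
      exact hB G N h p (l₀ ^ α) (t ^ b)
        ⟨hp, hLN hl'L, hl'Z, hk, N.pow_mem htN b, hc, (htL _ hl'L).pow_right b, hcop⟩
    have h2 : t ^ a ∈ Subgroup.centralizer (N : Set G) := by
      by_contra hc
      refine hB G N h r y (t ^ a)
        ⟨hr, hyN, hyZ, hyo, N.pow_mem htN a, hc, (hty.pow_left a).symm, ?_⟩
      rw [hk2]
      exact Nat.Coprime.pow_left _ ((Nat.coprime_primes hp hr).mpr (Ne.symm hne))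
    rw [hab]
    exact Subgroup.mul_mem _ h2 h1
  -- (B) fixed-point-freeness
  refine ⟨hA, ?_⟩
  intro t htN hty htZ l hlL hζ
  have hex : ∃ l ∈ L, ¬ Commute l t := by
    by_contra hcon
    push Not at hcon
    exact htZ (hd t htN hty hcon)
  obtain ⟨-, hfix⟩ := hMB G N h p L good t htN hex
  apply hfix l hlL
  have hlN : l ∈ N := hLN hlL
  obtain ⟨ζ, hζdef⟩ : ∃ ζ : G, ζ = t * l * t⁻¹ * l⁻¹ := ⟨_, rfl⟩
  rw [← hζdef] at hζ
  have hconj : t * l * t⁻¹ = ζ * l := by rw [hζdef]; group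
  have hζt : Commute ζ t := (mem_cent_set.mp hζ.2 t htN).symm
  have hζl : Commute ζ l := (mem_cent_set.mp hζ.2 l hlN).symm
  have hpc := conj_pow_central t l ζ hconj hζt
  -- ζ ^ p = 1
  have h1 : ζ ^ p = 1 := by
    have hlp : l ^ p ∈ ZN N := good.hpow l hlL
    have h2 : t * l ^ p * t⁻¹ = l ^ p := by
      rw [mem_cent_set.mp hlp.2 t htN, mul_inv_cancel_right]
    have h3 : t * l ^ p * t⁻¹ = ζ ^ p * l ^ p := by
      rw [← conj_pow, hconj, hζl.mul_pow]
    rw [h2] at h3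
    exact (mul_eq_right.mp h3.symm)
  -- ζ ^ (r ^ j) = 1
  obtain ⟨j, hj⟩ := beta_pow hS hB h hr hyN hyZ hyo htN hty
  have h2 : ζ ^ (r ^ j) = 1 := by
    have h3 := hpc (r ^ j)
    have h4 : t ^ (r ^ j) * l * (t ^ (r ^ j))⁻¹ = l := by
      rw [← mem_cent_set.mp hj.2 l hlN, mul_inv_cancel_right]
    rw [h4] at h3
    exact (mul_eq_right.mp h3.symm)
  have h3 : orderOf ζ ∣ Nat.gcd p (r ^ j) :=
    Nat.dvd_gcd (orderOf_dvd_of_pow_eq_one h1) (orderOf_dvd_of_pow_eq_one h2)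
  have hcop : Nat.Coprime p (r ^ j) :=
    Nat.Coprime.pow_right _ ((Nat.coprime_primes hp hr).mpr (Ne.symm hne))
  rw [Nat.Coprime.gcd_eq_one hcop, Nat.dvd_one, orderOf_eq_one_iff] at h3
  have h4 : t * l = l * t := by
    have : t * l = (t * l * t⁻¹ * l⁻¹) * (l * t) := by group
    rw [this, ← hζdef, h3, one_mul]
  exact h4.symm

example : StSplit.{u} → StBeta.{u} → StMainB.{u} → StMainD1.{u} := mainD1

end Cfsg.Agent.H61.MC

#print axioms Cfsg.Agent.H61.MC.mainD1
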