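import Mathlib
import Cfsg.Agent.H64.MgDefs

/-!
# S3620 (Marggraf), piece MG-QPB (helper61): a primitive faithful quotient is incompatible with
a small Jordan set
-/

set_option autoImplicit false
open scoped Pointwise
open MulAction

namespace Cfsg.Agent.H61.Mg

open Cfsg.Agent.H64.Mg

universe u v

theorem qpb : QPBStmt.{u, v} := by
  intro hM G Ω _ _ _ _ _ B _ _ _ π hπ hsurj hninj hprim hfaith Δ hJC hc1 hc2
  classical
  -- an element fixing `Δ` pointwise preserves the complement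
  have hcompl : ∀ j : G, (∀ z ∈ Δ, j • z = z) → ∀ ω, ω ∉ Δ → j • ω ∉ Δ := by
    intro j hj ω hω hjω
    apply hω
    have h1 := hj _ hjω
    have h2 : j • ω = ω := (MulAction.injective j) h1
    rw [← h2]; exact hjω
  -- (1)
  have h1 : ∀ x ∈ Δ, ∀ y, y ∉ Δ → π x = π y → ∀ z, z ∉ Δ → π z = π x := by
    intro x hx y hy hxy z hz
    obtain ⟨j, hj, hjy⟩ := hJC y hy z hz
    rw [← hjy, hπ, ← hxy, ← hπ, hj x hx]
  -- two distinct points outside `Δ`
  obtain ⟨ω, hω, ω', hω', hne⟩ : ∃ ω, ω ∉ Δ ∧ ∃ ω', ω' ∉ Δ ∧ ω ≠ ω' := by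
    have h2 : 1 < (Finset.univ \ Δ).card := by
      rw [Finset.card_sdiff_of_subset (Finset.subset_univ Δ), Finset.card_univ]; omega
    obtain ⟨a, ha, b, hb, hab⟩ := Finset.one_lt_card.mp h2
    exact ⟨a, by simpa using ha, b, by simpa using hb, hab⟩
  by_cases hA : ∃ b : B, ∀ z, z ∉ Δ → π z = b
  · -- case A: all points outside `Δ` in one fibre
    obtain ⟨b, hb⟩ := hA
    obtain ⟨j, hj, hjω⟩ := hJC ω hω ω' hω'
    have hj1 : j = 1 := by
      apply hfaith
      intro b'
      obtain ⟨ω₀, rfl⟩ := hsurj b'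
      by_cases h₀ : ω₀ ∈ Δ
      · rw [← hπ, hj ω₀ h₀]
      · rw [← hπ, hb _ (hcompl j hj ω₀ h₀), hb _ h₀]
    rw [hj1, one_smul] at hjω
    exact hne hjω
  · -- case B
    push Not at hA
    have hunion : ∀ x ∈ Δ, ∀ y, π y = π x → y ∈ Δ := by
      intro x hx y hxy
      by_contra hy
      obtain ⟨z, hz, hzne⟩ := hA (π x)
      exact hzne (h1 x hx y hy hxy.symm z hz)
    have htrans : ∀ b b' : B, ∃ g : G, g • b = b' :=
      fun b b' => hprim.toIsPretransitive.exists_smul_eq b b'
    obtain ⟨fib, hfib⟩ : ∃ fib : B → Finset Ω, ∀ b ω, ω ∈ fib b ↔ π ω = b :=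
      ⟨fun b => Finset.univ.filter (fun ω => π ω = b), by intro b ω; simp⟩
    have hfibcard : ∀ b b' : B, (fib b).card = (fib b').card := by
      intro b b'
      obtain ⟨g, rfl⟩ := htrans b b'
      have h2 : fib (g • b) = g • fib b := by
        ext ω
        rw [hfib, Finset.mem_smul_finset]
        constructor
        · intro h
          refine ⟨g⁻¹ • ω, ?_, by simp⟩
          rw [hfib, hπ, h, inv_smul_smul]
        · rintro ⟨w, hw, rfl⟩
          rw [hfib] at hw
          rw [hπ, hw]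
      rw [h2, Finset.card_smul_finset]
    obtain ⟨f, hf⟩ : ∃ f : ℕ, ∀ b : B, (fib b).card = f := ⟨(fib (π ω)).card, fun b => hfibcard _ _⟩
    -- f ≥ 2
    have hf2 : 2 ≤ f := by
      have h2 : ∃ a a', π a = π a' ∧ a ≠ a' := by
        by_contra hcon
        push Not at hcon
        exact hninj (fun a a' h => hcon a a' h)
      obtain ⟨a, a', haa, hne'⟩ := h2
      rw [← hf (π a)]
      have h3 : ({a, a'} : Finset Ω) ⊆ fib (π a) := by
        intro z hz
        rw [Finset.mem_insert, Finset.mem_singleton] at hz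
        rw [hfib]
        rcases hz with rfl | rfl
        · rfl
        · exact haa.symm
      have h4 := Finset.card_le_card h3
      rw [Finset.card_pair hne'] at h4
      exact h4
    obtain ⟨Dbar, hDbar⟩ : ∃ Dbar : Finset B, Dbar = Δ.image π := ⟨_, rfl⟩
    have hmemD : ∀ b, b ∈ Dbar ↔ ∃ δ ∈ Δ, π δ = b := by
      intro b; rw [hDbar, Finset.mem_image]
    have hnotD : ∀ z, z ∉ Δ → π z ∉ Dbar := by
      intro z hz hzD
      obtain ⟨δ, hδ, hδz⟩ := (hmemD _).mp hzD
      exact hz (hunion δ hδ z hδz.symm)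
    -- cardinalities
    have hcardΩ : Fintype.card Ω = f * Fintype.card B := by
      have h2 := Finset.card_eq_sum_card_fiberwise (f := π) (s := (Finset.univ : Finset Ω))
        (t := (Finset.univ : Finset B)) (fun x _ => Finset.mem_univ _)
      rw [Finset.card_univ] at h2
      rw [h2]
      have h3 : ∀ b ∈ (Finset.univ : Finset B),
          ((Finset.univ : Finset Ω).filter (fun a => π a = b)).card = f := by
        intro b _
        rw [← hf b]
        congr 1
        ext z
        simp [hfib]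
      rw [Finset.sum_const_nat h3, Finset.card_univ, mul_comm]
    have hcardΔ : Δ.card = f * Dbar.card := by
      have h2 := Finset.card_eq_sum_card_fiberwise (f := π) (s := Δ)
        (t := Dbar) (fun x hx => (hmemD _).mpr ⟨x, hx, rfl⟩)
      rw [h2]
      have h3 : ∀ b ∈ Dbar, (Δ.filter (fun a => π a = b)).card = f := by
        intro b hb
        rw [← hf b]
        congr 1
        ext z
        rw [Finset.mem_filter, hfib]
        constructor
        · exact fun h => h.2
        · intro h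
          obtain ⟨δ, hδ, hδb⟩ := (hmemD _).mp hb
          exact ⟨hunion δ hδ z (by rw [h, hδb]), h⟩
      rw [Finset.sum_const_nat h3, mul_comm]
    have hfpos : 0 < f := by omega
    have hcB1 : Fintype.card B < 2 * Dbar.card := by
      rw [hcardΩ, hcardΔ] at hc1
      have h2 : f * Fintype.card B < f * (2 * Dbar.card) := by
        calc f * Fintype.card B < 2 * (f * Dbar.card) := hc1
          _ = f * (2 * Dbar.card) := by ring
      exact Nat.lt_of_mul_lt_mul_left h2
    have hcB2 : Dbar.card + 2 ≤ Fintype.card B := by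
      obtain ⟨z, hz, hzne⟩ := hA (π ω)
      have h2 : insert (π ω) (insert (π z) Dbar) ⊆ (Finset.univ : Finset B) :=
        Finset.subset_univ _
      have h3 := Finset.card_le_card h2
      rw [Finset.card_insert_of_notMem, Finset.card_insert_of_notMem (hnotD z hz),
        Finset.card_univ] at h3
      · exact h3
      · rw [Finset.mem_insert]
        rintro (h | h)
        · exact hzne h.symm
        · exact hnotD ω hω h
    have hJCbar : JC G Dbar := by
      intro b₁ hb₁ b₂ hb₂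
      obtain ⟨ω₁, rfl⟩ := hsurj b₁
      obtain ⟨ω₂, rfl⟩ := hsurj b₂
      have hω₁ : ω₁ ∉ Δ := fun h => hb₁ ((hmemD _).mpr ⟨ω₁, h, rfl⟩)
      have hω₂ : ω₂ ∉ Δ := fun h => hb₂ ((hmemD _).mpr ⟨ω₂, h, rfl⟩)
      obtain ⟨j, hj, hj12⟩ := hJC ω₁ hω₁ ω₂ hω₂
      refine ⟨j, ?_, by rw [← hπ, hj12]⟩
      intro b hb
      obtain ⟨δ, hδ, rfl⟩ := (hmemD _).mp hb
      rw [← hπ, hj δ hδ]
    have hAE : AllEven G B := hM (Fintype.card B) G B rfl hprim Dbar hcB1 hcB2 hJCbar
    -- the final contradiction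
    obtain ⟨ω₂, hω₂fib, hω₂ne⟩ := Finset.exists_mem_ne (by rw [hf]; omega : 1 < (fib (π ω)).card) ω
    rw [hfib] at hω₂fib
    have hω₂ : ω₂ ∉ Δ := fun h => hω (hunion ω₂ h ω hω₂fib.symm)
    obtain ⟨j, hj, hjω⟩ := hJC ω hω ω₂ hω₂
    obtain ⟨d, hd, d₂, hd₂, hdd⟩ := Finset.one_lt_card.mp (by omega : 1 < Dbar.card)
    have hb₁ : π ω ∉ Dbar := hnotD ω hω
    have hb₁d : π ω ≠ d := fun h => hb₁ (h ▸ hd)
    have hb₁d₂ : π ω ≠ d₂ := fun h => hb₁ (h ▸ hd₂)
    have hsign : Equiv.Perm.sign (Equiv.swap (π ω) d * Equiv.swap d d₂) = 1 := by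
      rw [Equiv.Perm.sign_mul, Equiv.Perm.sign_swap hb₁d, Equiv.Perm.sign_swap hdd]; rfl
    obtain ⟨g, hg⟩ := hAE _ hsign
    have hσ1 : (Equiv.swap (π ω) d * Equiv.swap d d₂) (π ω) = d := by
      rw [Equiv.Perm.mul_apply, Equiv.swap_apply_of_ne_of_ne hb₁d hb₁d₂, Equiv.swap_apply_left]
    have hσ2 : (Equiv.swap (π ω) d * Equiv.swap d d₂) d = d₂ := by
      rw [Equiv.Perm.mul_apply, Equiv.swap_apply_left,
        Equiv.swap_apply_of_ne_of_ne (Ne.symm hb₁d₂) (Ne.symm hdd)]
    have hσ3 : (Equiv.swap (π ω) d * Equiv.swap d d₂) d₂ = π ω := by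
      rw [Equiv.Perm.mul_apply, Equiv.swap_apply_right, Equiv.swap_apply_right]
    have hσ4 : ∀ b, b ≠ π ω → b ≠ d → b ≠ d₂ →
        (Equiv.swap (π ω) d * Equiv.swap d d₂) b = b := by
      intro b h1 h2 h3
      rw [Equiv.Perm.mul_apply, Equiv.swap_apply_of_ne_of_ne h2 h3,
        Equiv.swap_apply_of_ne_of_ne h1 h2]
    have hjb₁ : j • π ω = π ω := by rw [← hπ, hjω, hω₂fib]
    have hjD : ∀ b ∈ Dbar, j • b = b := by
      intro b hb
      obtain ⟨δ, hδ, rfl⟩ := (hmemD _).mp hb
      rw [← hπ, hj δ hδ]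
    have hcomm : j * g = g * j := by
      apply inv_mul_eq_one.mp
      apply hfaith
      intro b
      rw [mul_smul, inv_smul_eq_iff, mul_smul, mul_smul, hg, hg]
      by_cases h1 : b = π ω
      · rw [h1, hjb₁, hσ1, hjD d hd]
      · by_cases h2 : b = d
        · rw [h2, hjD d hd, hσ2, hjD d₂ hd₂]
        · by_cases h3 : b = d₂
          · rw [h3, hjD d₂ hd₂, hσ3, hjb₁]
          · rw [hσ4 b h1 h2 h3]
            apply hσ4
            · intro h; exact h1 (MulAction.injective j (h.trans hjb₁.symm))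
            · intro h; exact h2 (MulAction.injective j (h.trans (hjD d hd).symm))
            · intro h; exact h3 (MulAction.injective j (h.trans (hjD d₂ hd₂).symm))
    have hgωΔ : g • ω ∈ Δ := by
      have h2 : π (g • ω) = d := by rw [hπ, hg, hσ1]
      obtain ⟨δ, hδ, hδd⟩ := (hmemD _).mp hd
      exact hunion δ hδ _ (by rw [h2, hδd])
    have h5 : g • ω₂ = g • ω := by
      rw [← hjω, ← mul_smul, ← hcomm, mul_smul, hj _ hgωΔ]
    exact hω₂ne (MulAction.injective g h5)

example : QPBStmt.{u, v} := qpb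

end Cfsg.Agent.H61.Mg

#print axioms Cfsg.Agent.H61.Mg.qpb
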