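import Mathlib
import Cfsg.Agent.H17.TgDefs

/-!
# TG-D1EXPN (helper17's S1904 project): `Z(X)` has exponent 2 when `A` does not centralize
`Ω₁(Z(X))`.
-/

set_option autoImplicit false

universe u

namespace Cfsg.Agent.H61.Tg

open Cfsg Cfsg.Agent.H17.Tg

section Comm

variable {X : Type u} [Group X]

/-- the commutator `x y x⁻¹ y⁻¹` -/
def cm (x y : X) : X := x * y * x⁻¹ * y⁻¹

theorem cm_mul_left (hZ : ∀ x y : X, cm x y ∈ Subgroup.center X) (a b h : X) :
    cm (a * b) h = cm a h * cm b h := by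
  have h1 := Subgroup.mem_center_iff.mp (hZ b h) a
  have h2 := Subgroup.mem_center_iff.mp (hZ b h) (cm a h)
  rw [h2]
  unfold cm at *
  calc a * b * h * (a * b)⁻¹ * h⁻¹ = a * (b * h * b⁻¹ * h⁻¹) * h * a⁻¹ * h⁻¹ := by group
    _ = (b * h * b⁻¹ * h⁻¹) * a * h * a⁻¹ * h⁻¹ := by rw [h1]
    _ = (b * h * b⁻¹ * h⁻¹) * (a * h * a⁻¹ * h⁻¹) := by group

theorem cm_mul_right (hZ : ∀ x y : X, cm x y ∈ Subgroup.center X) (g a b : X) :
    cm g (a * b) = cm g a * cm g b := by
  have h1 := Subgroup.mem_center_iff.mp (hZ g b) (g * a * g⁻¹)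
  have h2 := Subgroup.mem_center_iff.mp (hZ g b) (cm g a)
  rw [h2]
  unfold cm at *
  calc g * (a * b) * g⁻¹ * (a * b)⁻¹ = (g * a * g⁻¹) * (g * b * g⁻¹ * b⁻¹) * a⁻¹ := by group
    _ = (g * b * g⁻¹ * b⁻¹) * (g * a * g⁻¹) * a⁻¹ := by rw [h1]
    _ = (g * b * g⁻¹ * b⁻¹) * (g * a * g⁻¹ * a⁻¹) := by group

theorem cm_self (a : X) : cm a a = 1 := by unfold cm; group

theorem cm_one_left (a : X) : cm 1 a = 1 := by unfold cm; group

theorem cm_one_right (a : X) : cm a 1 = 1 := by unfold cm; group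

theorem cm_swap (a b : X) : cm b a = (cm a b)⁻¹ := by unfold cm; group

theorem cm_cen_left {z : X} (hz : z ∈ Subgroup.center X) (h : X) : cm z h = 1 := by
  have h1 := Subgroup.mem_center_iff.mp hz h
  unfold cm
  rw [← h1]
  group

theorem cm_cen_right {z : X} (hz : z ∈ Subgroup.center X) (g : X) : cm g z = 1 := by
  have h1 := Subgroup.mem_center_iff.mp hz g
  unfold cm
  rw [h1]
  group

theorem cm_sq (hZ : ∀ x y : X, cm x y ∈ Subgroup.center X)
    (hsq : ∀ x : X, x ^ 2 ∈ Subgroup.center X) (x y : X) : cm x y ^ 2 = 1 := by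
  rw [pow_two, ← cm_mul_left hZ, ← pow_two]
  exact cm_cen_left (hsq x) y

theorem cm_eq_one_iff (x y : X) : cm x y = 1 ↔ x * y = y * x := by
  unfold cm
  constructor
  · intro h
    have : x * y * x⁻¹ * y⁻¹ * (y * x) = 1 * (y * x) := by rw [h]
    rw [one_mul] at this
    rw [← this]; group
  · intro h
    rw [h]; group

theorem cm_map (φ : MulAut X) (x y : X) : φ (cm x y) = cm (φ x) (φ y) := by
  unfold cm
  simp

theorem aut_center (φ : MulAut X) {z : X} (hz : z ∈ Subgroup.center X) :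
    φ z ∈ Subgroup.center X := by
  rw [Subgroup.mem_center_iff]
  intro g
  have h1 := Subgroup.mem_center_iff.mp hz (φ.symm g)
  have h2 := congrArg φ h1
  simpa using h2

end Comm

theorem four_cover {Q : Type*} [Finite Q] (hcard : Nat.card Q = 4) (a b c d : Q) (hab : a ≠ b)
    (hac : a ≠ c) (had : a ≠ d) (hbc : b ≠ c) (hbd : b ≠ d) (hcd : c ≠ d) (q : Q) :
    q = a ∨ q = b ∨ q = c ∨ q = d := by
  classical
  have := Fintype.ofFinite Q
  have h : ({a, b, c, d} : Finset Q) = Finset.univ := by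
    apply Finset.eq_univ_of_card
    rw [← Nat.card_eq_fintype_card, hcard]
    rw [Finset.card_insert_of_notMem, Finset.card_insert_of_notMem,
      Finset.card_insert_of_notMem, Finset.card_singleton] <;> simp [*]
  have h' := Finset.mem_univ q
  rw [← h] at h'
  simpa using h'

section Main

variable {X : Type u} [Group X]

/-- `Ω₁(Z(X))` -/
def omegaZ (X : Type u) [Group X] : Subgroup X where
  carrier := {v | v ∈ Subgroup.center X ∧ v ^ 2 = 1}
  one_mem' := ⟨one_mem _, one_pow 2⟩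
  mul_mem' := by
    rintro a b ⟨ha, ha2⟩ ⟨hb, hb2⟩
    refine ⟨mul_mem ha hb, ?_⟩
    have hc : Commute a b := Subgroup.mem_center_iff.mp hb a
    rw [hc.mul_pow, ha2, hb2, one_mul]
  inv_mem' := by
    rintro a ⟨ha, ha2⟩
    exact ⟨inv_mem ha, by rw [inv_pow, ha2, inv_one]⟩

/-- squares of central elements inside `Ω₁(Z(X))` -/
def sqOmega (X : Type u) [Group X] : Subgroup X where
  carrier := {w | w ∈ omegaZ X ∧ ∃ z ∈ Subgroup.center X, z ^ 2 = w}
  one_mem' := ⟨one_mem _, 1, one_mem _, one_pow 2⟩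
  mul_mem' := by
    rintro a b ⟨ha, z, hz, rfl⟩ ⟨hb, z', hz', rfl⟩
    refine ⟨mul_mem ha hb, z * z', mul_mem hz hz', ?_⟩
    have hc : Commute z z' := Subgroup.mem_center_iff.mp hz' z
    rw [hc.mul_pow]
  inv_mem' := by
    rintro a ⟨ha, z, hz, rfl⟩
    exact ⟨inv_mem ha, z⁻¹, inv_mem hz, inv_pow z 2⟩

/-- `V ∪ tV` -/
def extV (V : Subgroup X) (t : X) (hV : V ≤ Subgroup.center X) (ht : t ^ 2 = 1) :
    Subgroup X where
  carrier := {g | g ∈ V ∨ t * g ∈ V}
  one_mem' := Or.inl (one_mem _)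
  mul_mem' := by
    rintro g h (hg | hg) (hh | hh)
    · exact Or.inl (mul_mem hg hh)
    · right
      have h1 := Subgroup.mem_center_iff.mp (hV hg) t
      have h2 : t * (g * h) = g * (t * h) := by rw [← mul_assoc, h1, mul_assoc]
      show t * (g * h) ∈ V
      rw [h2]; exact mul_mem hg hh
    · right
      show t * (g * h) ∈ V
      rw [← mul_assoc]; exact mul_mem hg hh
    · left
      have h1 := Subgroup.mem_center_iff.mp (hV hg) t
      have h2 : g * h = (t * g) * (t * h) := by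
        calc g * h = t ^ 2 * g * h := by rw [ht, one_mul]
          _ = t * (t * g) * h := by rw [pow_two]; group
          _ = (t * g) * t * h := by rw [h1]
          _ = (t * g) * (t * h) := by group
      show g * h ∈ V
      rw [h2]; exact mul_mem hg hh
  inv_mem' := by
    rintro g (hg | hg)
    · exact Or.inl (inv_mem hg)
    · right
      have h1 := Subgroup.mem_center_iff.mp (hV hg) t
      have hgt : t * g = g * t := by
        have h3 : t * (t * g) = t * (g * t) := by rw [h1]; group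
        exact mul_left_cancel h3
      have htinv : t⁻¹ = t := by
        rw [inv_eq_iff_mul_eq_one, ← pow_two, ht]
      have h4 : t * g⁻¹ = (t * g)⁻¹ := by
        rw [mul_inv_rev, htinv]
        calc t * g⁻¹ = g⁻¹ * (g * t) * g⁻¹ := by group
          _ = g⁻¹ * (t * g) * g⁻¹ := by rw [hgt]
          _ = g⁻¹ * t := by group
      show t * g⁻¹ ∈ V
      rw [h4]; exact inv_mem hg

set_option maxHeartbeats 1000000 in
theorem d1ExpN (hQ : StD1Quot.{u}) (hFour : StFour.{u}) : StD1ExpN.{u} := by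
  intro X _ _ A hyp hnab hD1 hmove z0 hz0
  by_contra hz0sq
  obtain ⟨hsqZ, hcmZ'⟩ := hQ X A hyp hD1
  have hcmZ : ∀ x y : X, cm x y ∈ Subgroup.center X := hcmZ'
  -- V
  have hVle : omegaZ X ≤ Subgroup.center X := fun v hv => hv.1
  have hVexp : ∀ w ∈ omegaZ X, w ^ 2 = 1 := fun w hw => hw.2
  have hVA : AInv A (omegaZ X) := by
    intro φ _ v hv
    exact ⟨aut_center φ hv.1, by rw [← map_pow, hv.2, map_one]⟩
  have hVcard : Nat.card (omegaZ X) ≤ 4 :=
    hyp.rank (Subgroup.center X) inferInstance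
      (fun a _ b hb => Subgroup.mem_center_iff.mp hb a) (omegaZ X) hVle hVexp
  obtain ⟨φ0, hφ0, v0, hv0, hv02, hv0ne⟩ := hmove
  obtain ⟨hV4, hVfix, hVmove, -, hVsub⟩ := hFour X A hyp.odd (omegaZ X) hVA hVexp hVcard
    ⟨φ0, hφ0, v0, ⟨hv0, hv02⟩, hv0ne⟩
  have hcmV : ∀ x y : X, cm x y ∈ omegaZ X := fun x y => ⟨hcmZ x y, cm_sq hcmZ hsqZ x y⟩
  -- Step 1: every element of V is a square of a central element
  have hVsq : ∀ v ∈ omegaZ X, ∃ z ∈ Subgroup.center X, z ^ 2 = v := by
    have hWA : AInv A (sqOmega X) := by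
      rintro φ hφ w ⟨hw, z, hz, rfl⟩
      exact ⟨hVA φ hφ _ hw, φ z, aut_center φ hz, by rw [map_pow]⟩
    have hWle : sqOmega X ≤ omegaZ X := fun w hw => hw.1
    rcases hVsub (sqOmega X) hWle hWA with hbot | htop
    · exfalso
      obtain ⟨k, hk⟩ := hyp.pgrp z0
      classical
      have hex : ∃ k, z0 ^ 2 ^ k = 1 := ⟨k, hk⟩
      have hn1 : z0 ^ 2 ^ (Nat.find hex) = 1 := Nat.find_spec hex
      have hn0 : Nat.find hex ≠ 0 := by
        intro h0
        rw [h0, pow_zero, pow_one] at hn1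
        exact hz0sq (by rw [hn1, one_pow])
      have hn1' : Nat.find hex ≠ 1 := by
        intro h0
        rw [h0, pow_one] at hn1
        exact hz0sq hn1
      obtain ⟨m, hm⟩ : ∃ m, Nat.find hex = m + 2 := ⟨Nat.find hex - 2, by omega⟩
      have hmin : z0 ^ 2 ^ (m + 1) ≠ 1 := by
        intro h
        have := Nat.find_min' hex h
        omega
      have hmem : z0 ^ 2 ^ (m + 1) ∈ sqOmega X := by
        refine ⟨⟨pow_mem hz0 _, ?_⟩, z0 ^ 2 ^ m, pow_mem hz0 _, ?_⟩
        · rw [← pow_mul, ← pow_succ, ← hm]; exact hn1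
        · rw [← pow_mul, ← pow_succ]
      rw [hbot] at hmem
      exact hmin ((Subgroup.mem_bot).mp hmem)
    · intro v hv
      rw [← htop] at hv
      exact hv.2
  -- Step 2: an element whose square is the square of a central element is central
  have hZsq : ∀ x : X, (∃ z ∈ Subgroup.center X, x ^ 2 = z ^ 2) → x ∈ Subgroup.center X := by
    rintro x ⟨z, hz, hxz⟩
    by_contra hx
    have hzinv : z⁻¹ ∈ Subgroup.center X := inv_mem hz
    have ht2 : (x * z⁻¹) ^ 2 = 1 := by
      have hc : Commute x z⁻¹ := Subgroup.mem_center_iff.mp hzinv x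
      rw [hc.mul_pow, hxz, inv_pow, mul_inv_cancel]
    have htZ : x * z⁻¹ ∉ Subgroup.center X := by
      intro h
      apply hx
      have h5 : x = (x * z⁻¹) * z := by group
      rw [h5]; exact mul_mem h hz
    generalize x * z⁻¹ = t at ht2 htZ
    have hVN : omegaZ X ≤ extV (omegaZ X) t hVle ht2 := fun g hg => Or.inl hg
    have htN : t ∈ extV (omegaZ X) t hVle ht2 :=
      Or.inr (by rw [← pow_two, ht2]; exact one_mem _)
    have hNt : ∀ a ∈ extV (omegaZ X) t hVle ht2, a * t = t * a := by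
      rintro a (ha | ha)
      · exact (Subgroup.mem_center_iff.mp ha.1 t).symm
      · have h1 := Subgroup.mem_center_iff.mp ha.1 t
        have h3 : t * (a * t) = t * (t * a) := by rw [h1]; group
        exact mul_left_cancel h3
    have hNexp : ∀ a ∈ extV (omegaZ X) t hVle ht2, a ^ 2 = 1 := by
      intro a ha
      rcases ha with ha' | ha'
      · exact ha'.2
      · have h2 := ha'.2
        have hat : a * t = t * a := hNt a (Or.inr ha')
        have h3 : (t * a) ^ 2 = t ^ 2 * a ^ 2 :=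
          Commute.mul_pow (show Commute t a from hat.symm) 2
        rw [h3, ht2, one_mul] at h2
        exact h2
    have hNab : ∀ a ∈ extV (omegaZ X) t hVle ht2, ∀ b ∈ extV (omegaZ X) t hVle ht2,
        a * b = b * a := by
      rintro a ha b (hb | hb)
      · exact Subgroup.mem_center_iff.mp hb.1 a
      · have h1 := Subgroup.mem_center_iff.mp hb.1 a
        have h2 := hNt a ha
        have h3 : t * (a * b) = t * (b * a) := by
          calc t * (a * b) = (t * a) * b := by group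
            _ = (a * t) * b := by rw [h2]
            _ = a * (t * b) := by group
            _ = (t * b) * a := h1
            _ = t * (b * a) := by group
        exact mul_left_cancel h3
    have hNnorm : (extV (omegaZ X) t hVle ht2).Normal := by
      constructor
      intro n hn g
      have hc : g * n * g⁻¹ = cm g n * n := by unfold cm; group
      rw [hc]
      exact mul_mem (hVN (hcmV g n)) hn
    have hNcard : Nat.card (extV (omegaZ X) t hVle ht2) ≤ 4 :=
      hyp.rank _ hNnorm hNab _ le_rfl hNexp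
    have hVN' : omegaZ X = extV (omegaZ X) t hVle ht2 :=
      Subgroup.eq_of_le_of_card_ge hVN (by rw [hV4]; exact hNcard)
    rw [← hVN'] at htN
    exact htZ htN.1
  -- Step 3: the squaring hom `X → Z / Z²`
  classical
  obtain ⟨sqZ, hsqZapp⟩ : ∃ sqZ : ↥(Subgroup.center X) →* ↥(Subgroup.center X),
      ∀ w : ↥(Subgroup.center X), ((sqZ w : ↥(Subgroup.center X)) : X) = (w : X) ^ 2 := by
    refine ⟨MonoidHom.mk' (fun w => w ^ 2) ?_, fun w => rfl⟩
    intro a b
    have hc : Commute a b := Subtype.ext (Subgroup.mem_center_iff.mp b.2 a.1)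
    exact hc.mul_pow 2
  obtain ⟨S, hSdef⟩ : ∃ S : Subgroup ↥(Subgroup.center X), S = sqZ.range := ⟨_, rfl⟩
  have hSmem : ∀ w : ↥(Subgroup.center X),
      w ∈ S ↔ ∃ z ∈ Subgroup.center X, z ^ 2 = (w : X) := by
    intro w
    rw [hSdef, MonoidHom.mem_range]
    constructor
    · rintro ⟨z, rfl⟩
      exact ⟨z.1, z.2, (hsqZapp z).symm⟩
    · rintro ⟨z, hz, hzw⟩
      exact ⟨⟨z, hz⟩, Subtype.ext (by rw [hsqZapp]; exact hzw)⟩
  have hmul : ∀ a b : X,
      (QuotientGroup.mk ⟨(a * b) ^ 2, hsqZ (a * b)⟩ : ↥(Subgroup.center X) ⧸ S) =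
        QuotientGroup.mk ⟨a ^ 2, hsqZ a⟩ * QuotientGroup.mk ⟨b ^ 2, hsqZ b⟩ := by
    intro a b
    rw [← QuotientGroup.mk_mul, QuotientGroup.eq, hSmem]
    have he : (((⟨(a * b) ^ 2, hsqZ (a * b)⟩ : ↥(Subgroup.center X))⁻¹ *
        (⟨a ^ 2, hsqZ a⟩ * ⟨b ^ 2, hsqZ b⟩) : ↥(Subgroup.center X)) : X) = cm a⁻¹ b⁻¹ := by
      show ((a * b) ^ 2)⁻¹ * (a ^ 2 * b ^ 2) = cm a⁻¹ b⁻¹
      have h1 := Subgroup.mem_center_iff.mp (hcmZ a⁻¹ b⁻¹) b⁻¹
      calc ((a * b) ^ 2)⁻¹ * (a ^ 2 * b ^ 2) = b⁻¹ * cm a⁻¹ b⁻¹ * b := by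
            unfold cm; rw [pow_two, pow_two, pow_two]; group
        _ = cm a⁻¹ b⁻¹ * b⁻¹ * b := by rw [h1]
        _ = cm a⁻¹ b⁻¹ := by group
    rw [he]
    exact hVsq _ (hcmV _ _)
  obtain ⟨f, hf⟩ : ∃ f : X →* ↥(Subgroup.center X) ⧸ S,
      ∀ x, f x = QuotientGroup.mk ⟨x ^ 2, hsqZ x⟩ :=
    ⟨MonoidHom.mk' (fun x => QuotientGroup.mk ⟨x ^ 2, hsqZ x⟩) hmul, fun x => rfl⟩
  have hfker : ∀ x, f x = 1 ↔ x ∈ Subgroup.center X := by
    intro x
    rw [hf, QuotientGroup.eq_one_iff, hSmem]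
    constructor
    · rintro ⟨z, hz, hzx⟩
      exact hZsq x ⟨z, hz, hzx.symm⟩
    · intro hx
      exact ⟨x, hx, rfl⟩
  have hQexp : ∀ q : ↥(Subgroup.center X) ⧸ S, q * q = 1 := by
    intro q
    induction q using QuotientGroup.induction_on with
    | H w =>
      rw [← QuotientGroup.mk_mul, QuotientGroup.eq_one_iff, hSmem]
      exact ⟨w.1, w.2, by rw [pow_two]; rfl⟩
  have hQcard : Nat.card (↥(Subgroup.center X) ⧸ S) = 4 := by
    have h1 : Nat.card sqZ.ker * sqZ.ker.index = Nat.card ↥(Subgroup.center X) :=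
      Subgroup.card_mul_index _
    have h2 : sqZ.ker.index = Nat.card sqZ.range := Subgroup.index_ker sqZ
    have h3 : Nat.card S * S.index = Nat.card ↥(Subgroup.center X) := Subgroup.card_mul_index S
    have h4 : Nat.card sqZ.ker = 4 := by
      rw [← hV4]
      apply Nat.card_congr
      exact
        { toFun := fun w => ⟨w.1.1, w.1.2, by
            have h7 := w.2
            rw [MonoidHom.mem_ker] at h7
            rw [← hsqZapp, h7]; rfl⟩
          invFun := fun v => ⟨⟨v.1, v.2.1⟩, by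
            rw [MonoidHom.mem_ker]
            exact Subtype.ext (by rw [hsqZapp]; exact v.2.2)⟩
          left_inv := fun w => rfl
          right_inv := fun v => rfl }
    have h5 : 0 < Nat.card S := Nat.card_pos
    show S.index = 4
    rw [h2, ← hSdef] at h1
    have h6 : Nat.card S * S.index = Nat.card S * 4 := by
      rw [h3, ← h1, h4, mul_comm]
    exact Nat.eq_of_mul_eq_mul_left h5 h6
  -- a non-commuting pair
  have hnab' : ∃ x1 x2 : X, cm x1 x2 ≠ 1 := by
    by_contra hcon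
    push Not at hcon
    exact hnab (fun a b => (cm_eq_one_iff a b).mp (hcon a b))
  obtain ⟨x1, x2, hc⟩ := hnab'
  have hx1 : f x1 ≠ 1 := fun h => hc (cm_cen_left ((hfker x1).mp h) x2)
  have hx2 : f x2 ≠ 1 := fun h => hc (cm_cen_right ((hfker x2).mp h) x1)
  have hqinv : ∀ q : ↥(Subgroup.center X) ⧸ S, q⁻¹ = q :=
    fun q => inv_eq_of_mul_eq_one_left (hQexp q)
  have hx12 : f x1 ≠ f x2 := by
    intro h
    have h1 : f (x1⁻¹ * x2) = 1 := by
      rw [map_mul, map_inv, h, inv_mul_cancel]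
    have h2 := (hfker _).mp h1
    apply hc
    have h3 : x2 = x1 * (x1⁻¹ * x2) := by group
    rw [h3, cm_mul_right hcmZ, cm_self, cm_cen_right h2, one_mul]
  have hcos : ∀ g : X, ∃ z ∈ Subgroup.center X,
      g = z ∨ g = x1 * z ∨ g = x2 * z ∨ g = x1 * x2 * z := by
    intro g
    have h4 := four_cover hQcard 1 (f x1) (f x2) (f x1 * f x2) (Ne.symm hx1) (Ne.symm hx2)
      (by
        intro h
        apply hx12
        have h8 : f x1 = (f x2)⁻¹ := eq_inv_of_mul_eq_one_left h.symm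
        rw [h8, hqinv])
      hx12
      (by
        intro h
        apply hx2
        have h8 : f x1 * f x2 = f x1 * 1 := by rw [mul_one]; exact h.symm
        exact mul_left_cancel h8)
      (by
        intro h
        apply hx1
        have h8 : f x1 * f x2 = 1 * f x2 := by rw [one_mul]; exact h.symm
        exact mul_right_cancel h8)
      (f g)
    rcases h4 with h | h | h | h
    · exact ⟨g, (hfker g).mp h, Or.inl rfl⟩
    · refine ⟨x1⁻¹ * g, (hfker _).mp ?_, Or.inr (Or.inl (by group))⟩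
      rw [map_mul, map_inv, h, inv_mul_cancel]
    · refine ⟨x2⁻¹ * g, (hfker _).mp ?_, Or.inr (Or.inr (Or.inl (by group)))⟩
      rw [map_mul, map_inv, h, inv_mul_cancel]
    · refine ⟨(x1 * x2)⁻¹ * g, (hfker _).mp ?_, Or.inr (Or.inr (Or.inr (by group)))⟩
      rw [map_mul, map_inv, map_mul, h, inv_mul_cancel]
  -- all commutators are `1` or `c`
  obtain ⟨c, hcdef⟩ : ∃ c : X, c = cm x1 x2 := ⟨_, rfl⟩
  have hc2 : c * c = 1 := by rw [hcdef, ← pow_two]; exact cm_sq hcmZ hsqZ x1 x2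
  have hcinv : c⁻¹ = c := inv_eq_of_mul_eq_one_left hc2
  have hc21 : cm x2 x1 = c := by rw [cm_swap, ← hcdef, hcinv]
  have hall : ∀ g h : X, cm g h = 1 ∨ cm g h = c := by
    intro g h
    obtain ⟨z, hz, hg⟩ := hcos g
    obtain ⟨z', hz', hh⟩ := hcos h
    rcases hg with rfl | rfl | rfl | rfl <;> rcases hh with rfl | rfl | rfl | rfl <;>
      simp [cm_mul_left hcmZ, cm_mul_right hcmZ, cm_self, cm_cen_left hz,
        cm_cen_right hz', hc21, ← hcdef, hc2]
  -- `c` is fixed by `A`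
  have hcV : c ∈ omegaZ X := by rw [hcdef]; exact hcmV x1 x2
  have hcne : c ≠ 1 := by rw [hcdef]; exact hc
  obtain ⟨φ, hφ, hφc⟩ := hVmove c hcV hcne
  apply hφc
  have h9 : φ c = cm (φ x1) (φ x2) := by rw [hcdef, cm_map]
  rcases hall (φ x1) (φ x2) with h | h
  · exfalso
    apply hcne
    rw [← h9] at h
    exact (MulEquiv.map_eq_one_iff φ).mp h
  · rw [h9]; exact h

example : (StD1Quot.{u}) → (StFour.{u}) → StD1ExpN.{u} := d1ExpN

end Main

end Cfsg.Agent.H61.Tg

#print axioms Cfsg.Agent.H61.Tg.d1ExpN
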