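import Mathlib
import Cfsg.Agent.H64.TmDefs
import Cfsg.Agent.H82.Irr
import Cfsg.Agent.H4.IrrCount

/-!
# S3701 team project "TM" (lead helper64): piece TM-LIN (helper61)

If `x ∈ ker χ₁` then `χ₁` is linear and trivial on `T` (twin of TN-L1).
-/

set_option autoImplicit false
set_option maxHeartbeats 1600000

namespace Cfsg.Agent.H61.Tm

open Subgroup Cfsg Cfsg.Agent.H64.Tm

universe u

theorem normSq_natCast'' (z : ℕ) : Complex.normSq ((z : ℕ) : ℂ) = (z : ℝ) ^ 2 := by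
  rw [← Complex.ofReal_natCast, Complex.normSq_ofReal]; ring

/-- an element of order 3 inverted by an element of a normal subgroup lies in it -/
theorem mem_of_inverted {G : Type*} [Group G] (K : Subgroup G) (hKn : K.Normal) {x d : G}
    (hx : x ∈ K) (hxd : x * d = d⁻¹ * x) (hd : d ^ 3 = 1) : d ∈ K := by
  have hxd' : x * d⁻¹ = d * x := by
    calc x * d⁻¹ = d * (d⁻¹ * x) * d⁻¹ := by group
      _ = d * (x * d) * d⁻¹ := by rw [hxd]
      _ = d * x := by group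
  have hddK : d * d ∈ K := by
    have h1 : d * x * d⁻¹ ∈ K := hKn.conj_mem x hx d
    have h2 : d * x * d⁻¹ * x⁻¹ ∈ K := K.mul_mem h1 (K.inv_mem hx)
    have h3 : d * x * d⁻¹ * x⁻¹ = d * d := by
      calc d * x * d⁻¹ * x⁻¹ = d * (x * d⁻¹) * x⁻¹ := by group
        _ = d * (d * x) * x⁻¹ := by rw [hxd']
        _ = d * d := by group
    rwa [h3] at h2
  have h1 : d * d * (d * d) ∈ K := K.mul_mem hddK hddK
  have h2 : d * d * (d * d) = d := by
    calc d * d * (d * d) = d ^ 3 * d := by rw [pow_succ, pow_two, mul_assoc (d * d)]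
      _ = d := by rw [hd, one_mul]
  rwa [h2] at h1

theorem card_le_six {G : Type*} [Group G] [Finite G] (K : Subgroup G) (c y : G)
    (hc : c ^ 3 = 1) (hy : y * y = 1)
    (h : ∀ g : G, ∃ k ∈ K, ∃ m n : ℕ, g = k * c ^ m * y ^ n) :
    Nat.card G ≤ 6 * Nat.card K := by
  classical
  choose k hk m n hg using h
  let φ : G → ↥K × Fin 3 × Fin 2 := fun g =>
    (⟨k g, hk g⟩, ⟨m g % 3, Nat.mod_lt _ (by norm_num)⟩, ⟨n g % 2, Nat.mod_lt _ (by norm_num)⟩)
  have hcm : ∀ i : ℕ, c ^ i = c ^ (i % 3) := fun i => by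
    conv_lhs => rw [← Nat.div_add_mod i 3, pow_add, pow_mul, hc, one_pow, one_mul]
  have hy2 : y ^ 2 = 1 := by rw [pow_two, hy]
  have hyn : ∀ i : ℕ, y ^ i = y ^ (i % 2) := fun i => by
    conv_lhs => rw [← Nat.div_add_mod i 2, pow_add, pow_mul, hy2, one_pow, one_mul]
  have hφ : Function.Injective φ := by
    intro g g' hgg
    simp only [φ, Prod.mk.injEq, Subtype.mk.injEq, Fin.mk.injEq] at hgg
    obtain ⟨h1, h2, h3⟩ := hgg
    rw [hg g, hg g', hcm (m g), hcm (m g'), hyn (n g), hyn (n g'), h1, h2, h3]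
  have := Nat.card_le_card_of_injective φ hφ
  rw [Nat.card_prod, Nat.card_prod, Nat.card_fin, Nat.card_fin] at this
  omega

theorem card_le_two {G : Type*} [Group G] [Finite G] (K : Subgroup G) (y : G)
    (hy : y * y = 1)
    (h : ∀ g : G, ∃ k ∈ K, ∃ n : ℕ, g = k * y ^ n) :
    Nat.card G ≤ 2 * Nat.card K := by
  classical
  choose k hk n hg using h
  let φ : G → ↥K × Fin 2 := fun g =>
    (⟨k g, hk g⟩, ⟨n g % 2, Nat.mod_lt _ (by norm_num)⟩)
  have hy2 : y ^ 2 = 1 := by rw [pow_two, hy]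
  have hyn : ∀ i : ℕ, y ^ i = y ^ (i % 2) := fun i => by
    conv_lhs => rw [← Nat.div_add_mod i 2, pow_add, pow_mul, hy2, one_pow, one_mul]
  have hφ : Function.Injective φ := by
    intro g g' hgg
    simp only [φ, Prod.mk.injEq, Subtype.mk.injEq, Fin.mk.injEq] at hgg
    obtain ⟨h1, h2⟩ := hgg
    rw [hg g, hg g', hyn (n g), hyn (n g'), h1, h2]
  have := Nat.card_le_card_of_injective φ hφ
  rw [Nat.card_prod, Nat.card_fin] at this
  omega

/-- TM-LIN. -/
theorem lin (hV : StVals.{u}) (hF : StFratt.{u}) (hR : Cfsg.Agent.H4.Tn.StRT3.{u}) :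
    StLin.{u} := by
  intro G _ _ H T a b c x y cfg χ₁ χ₂ hdec hx
  classical
  have : Fintype G := Fintype.ofFinite G
  set K : Subgroup G := Cfsg.Agent.H82.irrKer χ₁ with hK
  have hKn : K.Normal := Cfsg.Agent.H82.irrKer_normal χ₁
  have hmemK : ∀ g : G, g ∈ K ↔ χ₁.1 g = χ₁.1 1 := fun g => Cfsg.Agent.H82.mem_irrKer χ₁ g
  have hxK : x ∈ K := (hmemK x).mpr hx
  have haK : a ∈ K := mem_of_inverted K hKn hxK cfg.xa cfg.a3
  have hbK : b ∈ K := mem_of_inverted K hKn hxK cfg.xb cfg.b3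
  have hχa : χ₁.1 a = χ₁.1 1 := (hmemK a).mp haK
  have hχb : χ₁.1 b = χ₁.1 1 := (hmemK b).mp hbK
  obtain ⟨n, hn0, hn⟩ := Cfsg.Agent.H4.irr_one_eq_natCast χ₁
  have hn' : χ₁.1 1 = (n : ℂ) := hn
  obtain ⟨hcS, hinvS⟩ := hV G H T a b c x y cfg
  have hfr := hF G H T a b c x y cfg K hKn haK hbK hxK
  have hyc : y * c * y⁻¹ = c⁻¹ := by rw [cfg.yc, mul_inv_cancel_right]
  -- `n² |K| ≤ |G|`
  have hsum := Cfsg.Agent.H82.irr_norm_sq χ₁
  have hreal : ∑ g : G, Complex.normSq (χ₁.1 g) = (Nat.card G : ℝ) := by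
    have : ((∑ g : G, Complex.normSq (χ₁.1 g) : ℝ) : ℂ) = ((Nat.card G : ℝ) : ℂ) := by
      push_cast
      rw [← hsum]
      refine Finset.sum_congr rfl (fun g _ => ?_)
      rw [Complex.mul_conj]
    exact_mod_cast this
  have hge : ((n : ℝ) ^ 2) * (Nat.card K : ℝ) ≤ ∑ g : G, Complex.normSq (χ₁.1 g) := by
    have h1 : ∑ g : G, (if g ∈ K then ((n : ℝ) ^ 2) else 0) = (n : ℝ) ^ 2 * (Nat.card K : ℝ) := by
      rw [← Finset.sum_filter, Finset.sum_const, nsmul_eq_mul, Nat.card_eq_fintype_card,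
        Fintype.card_subtype]
      ring
    rw [← h1]
    refine Finset.sum_le_sum (fun g _ => ?_)
    split_ifs with h
    · rw [(hmemK g).mp h, hn', normSq_natCast'']
    · exact Complex.normSq_nonneg _
  have hnK : n ^ 2 * Nat.card K ≤ Nat.card G := by
    have : ((n ^ 2 * Nat.card K : ℕ) : ℝ) ≤ ((Nat.card G : ℕ) : ℝ) := by
      push_cast; rw [← hreal]; exact hge
    exact_mod_cast this
  have hKpos : 0 < Nat.card K := Nat.card_pos
  have hle6 : Nat.card G ≤ 6 * Nat.card K := card_le_six K c y cfg.c3 cfg.y2 hfr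
  have hn6 : n ^ 2 ≤ 6 := Nat.le_of_mul_le_mul_right (hnK.trans hle6) hKpos
  have hn2 : n ≤ 2 := by
    by_contra hcon
    have : 3 ≤ n := by omega
    nlinarith
  by_cases hn1 : n = 1
  · -- linear case
    have h11 : χ₁.1 1 = 1 := by rw [hn', hn1]; simp
    have hmul := Cfsg.Agent.H82.irr_linear_mul χ₁ h11
    have hpow : ∀ (g : G) (i : ℕ), χ₁.1 (g ^ i) = (χ₁.1 g) ^ i := by
      intro g i
      induction i with
      | zero => rw [pow_zero, pow_zero, h11]
      | succ i ih => rw [pow_succ, pow_succ, hmul, ih]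
    have hcinv : χ₁.1 c⁻¹ = χ₁.1 c := by rw [← hyc, Cfsg.Agent.H82.irr_conj]
    have hcc : c * c = c⁻¹ := by
      have : c * c * c = 1 := by rw [← cfg.c3, pow_succ, pow_two]
      exact eq_inv_of_mul_eq_one_left this
    have h1 : χ₁.1 c * χ₁.1 c = χ₁.1 c := by rw [← hmul, hcc, hcinv]
    have hne := Cfsg.Agent.H82.irr_linear_ne_zero χ₁ h11 c
    have hχc : χ₁.1 c = 1 := by
      have : χ₁.1 c * (χ₁.1 c - 1) = 0 := by linear_combination h1
      rcases mul_eq_zero.mp this with h | h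
      · exact absurd h hne
      · linear_combination h
    refine ⟨h11, ?_⟩
    intro t ht
    obtain ⟨i, j, k, rfl⟩ := cfg.Telts t ht
    rw [hmul, hmul, hpow, hpow, hpow, hχa, hχb, hχc, h11, one_pow, one_pow, one_pow, one_mul,
      one_mul]
  · exfalso
    have hn2' : n = 2 := by omega
    subst hn2'
    have hd1 : χ₂.1 1 = χ₁.1 1 + 1 := by
      have := hdec 1
      unfold P1 at this
      rw [Set.indicator_of_notMem (hinvS 1 (one_mul 1))] at this
      linear_combination -this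
    have hdc : χ₂.1 c = χ₁.1 c - 2 := by
      have := hdec c
      unfold P1 at this
      rw [Set.indicator_of_mem hcS] at this
      linear_combination -this
    have hχ₂1 : χ₂.1 1 = ((3 : ℕ) : ℂ) := by rw [hd1, hn']; push_cast; ring
    obtain ⟨p₀, p₁, hp1, hpc⟩ :=
      hR G χ₁.1 (Cfsg.Agent.H4.isCharacter_of_isIrrCharacter χ₁.2) c y cfg.c3 hyc
    obtain ⟨q₀, q₁, hq1, hqc⟩ :=
      hR G χ₂.1 (Cfsg.Agent.H4.isCharacter_of_isIrrCharacter χ₂.2) c y cfg.c3 hyc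
    have e1 : p₀ + 2 * p₁ = 2 := by
      have : ((p₀ + 2 * p₁ : ℕ) : ℂ) = ((2 : ℕ) : ℂ) := by
        push_cast; rw [← hp1, hn']; simp
      exact_mod_cast this
    have e2 : q₀ + 2 * q₁ = 3 := by
      have : ((q₀ + 2 * q₁ : ℕ) : ℂ) = ((3 : ℕ) : ℂ) := by
        push_cast; rw [← hq1, hχ₂1]; push_cast; ring
      exact_mod_cast this
    have e3 : (q₀ : ℤ) - q₁ = (p₀ : ℤ) - p₁ - 2 := by
      have : (((q₀ : ℤ) - q₁ : ℤ) : ℂ) = (((p₀ : ℤ) - p₁ - 2 : ℤ) : ℂ) := by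
        push_cast; rw [← hqc, ← hpc, hdc]
      exact_mod_cast this
    have hp : p₁ = 0 ∧ p₀ = 2 := by omega
    have hχc : χ₁.1 c = χ₁.1 1 := by
      rw [hpc, hn', hp.1, hp.2]; simp
    have hcK : c ∈ K := (hmemK c).mpr hχc
    have hle2 : Nat.card G ≤ 2 * Nat.card K := by
      refine card_le_two K y cfg.y2 (fun g => ?_)
      obtain ⟨k, hk, m, n, hg⟩ := hfr g
      exact ⟨k * c ^ m, K.mul_mem hk (K.pow_mem hcK m), n, hg⟩
    have : 2 ^ 2 * Nat.card K ≤ 2 * Nat.card K := hnK.trans hle2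
    omega

example (hV : StVals.{u}) (hF : StFratt.{u}) (hR : Cfsg.Agent.H4.Tn.StRT3.{u}) :
    Cfsg.Agent.H64.Tm.StLin.{u} := Cfsg.Agent.H61.Tm.lin hV hF hR

end Cfsg.Agent.H61.Tm

#print axioms Cfsg.Agent.H61.Tm.lin
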